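/-
Tightly embedded subgroups: pairs that are not full.
-/
import Cfsg.Agent.Te.B0
set_option autoImplicit false
set_option linter.unusedSectionVars false

namespace CF.Te
open Subgroup Cfsg CF.BG CF.Sig CF.GW CF.Ab2 CF.CT

universe u
variable {G : Type u} [Group G] [Finite G]
variable {A B K P R T U X Y : Subgroup G} {r s t t' x y : G}

theorem el_of_sq (h : ∀ a ∈ A, a * a = 1) : Abelem 2 A :=
  .mk' Nat.prime_two (Inv.abel (a := 1) fun x m => by rw [inv_eq_of_mul_eq_one_left (h x m)]; simp)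
    fun a m => by rw [pow_two, h a m]
theorem _root_.CF.BG.Abelem.sq2 (h : Abelem 2 A) (m : x ∈ A) : x * x = 1 := by rw [← pow_two, h.pow x m]
theorem card_le_fn {α : Type*} [Finite α] (le : A ≤ B) (F : B → α) (h : ∀ x y, F x = F y → x.1⁻¹ * y.1 ∈ A) :
    ♯B ≤ ♯A * Nat.card α := by
  rw [← card_mul_relIndex le]
  exact Nat.mul_le_mul_left _ (Nat.card_le_card_of_injective (fun q : B ⧸ A.subgroupOf B => F q.out) fun q q' e => by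
    rw [← q.out_eq', ← q'.out_eq']; exact QuotientGroup.eq.2 (h _ _ e))
theorem cm_of_cj (e : t⁻¹ * (x * t * x⁻¹) = t'⁻¹ * (x * t' * x⁻¹)) : x * (t' * t⁻¹) = t' * t⁻¹ * x := by
  rw [← mul_inv_eq_iff_eq_mul, show x * (t' * t⁻¹) * x⁻¹ = t' * (t'⁻¹ * (x * t' * x⁻¹)) * (t * (t⁻¹ * (x * t * x⁻¹)))⁻¹ by group, e]
  group
theorem phi_mul (c : t' * (t⁻¹ * (x * t * x⁻¹)) = t⁻¹ * (x * t * x⁻¹) * t') :
    (t * t')⁻¹ * (x * (t * t') * x⁻¹) = t⁻¹ * (x * t * x⁻¹) * (t'⁻¹ * (x * t' * x⁻¹)) := by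
  rw [← mul_assoc _ t'⁻¹, ← inv_mul_cancel_left t' (t⁻¹ * (x * t * x⁻¹) * t'⁻¹), ← mul_assoc t', c]; group

theorem Fr.phi (f : Fr P X Y R T) (hx : x ∈ R) (ht : t ∈ T) : t⁻¹ * (x * t * x⁻¹) ∈ R := by
  simpa [mul_assoc] using mul_mem (conj_mem_of_norm' (f.n ht) hx) (inv_mem hx)
theorem Fr.tu (_ : Fr P X Y R T) : T ≤ 𝐂 (R ⊓ 𝐂 T) := cent_symm inf_le_right
theorem Fr.wr (f : Fr P X Y R T) (a : x ∈ T ⊔ R ⊓ 𝐂 T) (b : x ∈ X) : x ∈ R ⊓ 𝐂 T := by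
  have : x ∈ (T ⊔ R ⊓ 𝐂 T) ⊓ X := ⟨a, b⟩
  rwa [sup_inf_right (inf_le_left.trans f.r.le) (.inl (norm_of_cent f.tu)), f.dj, bot_sup_eq] at this
theorem Fr.ux (_ : Fr P X Y R T) : R ⊓ 𝐂 T ≤ Xo R T := le_inf inf_le_left (norm_of_le le_sup_right)
theorem Fr.tx (f : Fr P X Y R T) : T ≤ 𝐍 (Xo R T) := norm_inf f.n ((norm_of_le le_sup_left).trans (norm_le_norm_norm _))
theorem Fr.grow (f : Fr P X Y R T) (l : A ≤ R) (k : T ≤ 𝐍 A) (n : ¬ R ≤ A) : ∃ r ∈ R, r ∉ A ∧ r ∈ 𝐍 (T ⊔ A) := by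
  obtain ⟨g, ⟨a, b⟩, c⟩ := SetLike.exists_of_lt (f.pi.nil.lt_inf_norm (lt_of_le_of_ne (sup_le_sup_left l T) fun e => n fun x m => by
    have : x ∈ (T ⊔ A) ⊓ X := ⟨e ▸ mem_sup_right m, f.r.le m⟩
    rwa [sup_inf_right (l.trans f.r.le) (.inl k), f.dj, bot_sup_eq] at this))
  obtain ⟨t, ht, r, hr, rfl⟩ := (mem_sup_norm f.n).1 a
  exact ⟨r, hr, fun i => c (mul_mem_sup ht i), by simpa using mul_mem (inv_mem (norm_of_le le_sup_left ht)) b⟩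

theorem Fr.bx (f : Fr P X Y R T) (n : ¬ R ≤ 𝐂 T) : BX T (R ⊓ 𝐂 T) (Xo R T) := by
  have cm : ∀ x ∈ Xo R T, ∀ t ∈ T, t⁻¹ * (x * t * x⁻¹) ∈ R ⊓ 𝐂 T := fun x m t i =>
    f.wr (mul_mem (mem_sup_left (inv_mem i)) (conj_mem_of_norm m.2 (mem_sup_left i))) (f.r.le (f.phi m.1 i))
  have inj : ∀ x ∈ Xo R T, x ∉ R ⊓ 𝐂 T → ∀ t ∈ T, x * t = t * x → t = 1 := fun x m k t i e =>
    by_contra fun j => k (f.cen i j ▸ ⟨m.1, mem_cent1.2 e⟩)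
  have ij : ∀ x ∈ Xo R T, x ∉ R ⊓ 𝐂 T → ∀ t ∈ T, ∀ t' ∈ T, t⁻¹ * (x * t * x⁻¹) = t'⁻¹ * (x * t' * x⁻¹) → t = t' :=
    fun x m k t i t' j e => (mul_inv_eq_one.1 (inj x m k _ (mul_mem j (inv_mem i)) (cm_of_cj e))).symm
  have sur : ∀ x ∈ Xo R T, x ∉ R ⊓ 𝐂 T → ∀ s ∈ R ⊓ 𝐂 T, ∃ t ∈ T, x * t * x⁻¹ = t * s := fun x m k s i => by
    obtain ⟨t, e⟩ := ((Nat.bijective_iff_injective_and_card (fun t : T => (⟨_, cm x m t t.2⟩ : (R ⊓ 𝐂 T : Subgroup G)))).2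
      ⟨fun t t' e => Subtype.ext (ij x m k _ t.2 _ t'.2 (congrArg Subtype.val e)), f.card.symm⟩).2 ⟨s, i⟩
    exact ⟨t, t.2, inv_mul_eq_iff_eq_mul.1 (congrArg Subtype.val e)⟩
  have sq : ∀ x ∈ Xo R T, x * x ∈ R ⊓ 𝐂 T := fun x m => by
    by_cases k : x ∈ R ⊓ 𝐂 T
    · exact mul_mem k k
    obtain ⟨s, i, j, c, -⟩ := ex_fix (A := R ⊓ 𝐂 T) f.r.pi.inf_left (fun e => f.t1 (card_eq_one'.1 (f.card ▸ card_eq_one'.2 e)))
      (f.r.pi.elt m.1).zpowers (zp_le_norm (mem_norm_of_cj_le fun _ i => by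
        obtain ⟨s, j, rfl⟩ := mem_cj_iff.1 i
        exact f.wr (conj_mem_of_norm m.2 (mem_sup_right j)) (f.r.le (mul_mem (mul_mem m.1 j.1) (inv_mem m.1)))))
    obtain ⟨t, l, e⟩ := sur x m k s i
    refine by_contra fun z => j.ne_one ?_
    obtain rfl := inj _ (mul_mem m m) z t l (by
      rw [← mul_inv_eq_iff_eq_mul, show x * x * t * (x * x)⁻¹ = x * (x * t * x⁻¹) * x⁻¹ by group, e, ← conj_mul, e,
        c x (mem_zpowers x), mul_inv_cancel_right, mul_assoc, j.sq, mul_one])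
    simpa using e.symm
  have inv : ∀ x ∈ Xo R T, x ∉ R ⊓ 𝐂 T → ∀ s ∈ R ⊓ 𝐂 T, x * s * x⁻¹ = s⁻¹ := fun x m k s i => by
    obtain ⟨t, l, e⟩ := sur x m k s i
    have := (sq x m).2 t l
    rw [eq_comm, ← mul_inv_eq_iff_eq_mul, show x * x * t * (x * x)⁻¹ = x * (x * t * x⁻¹) * x⁻¹ by group, e, ← conj_mul, e,
      mul_assoc, mul_eq_left] at this
    exact eq_inv_of_mul_eq_one_right this
  obtain ⟨x, m, k, l⟩ := f.grow inf_le_left (norm_of_cent f.tu) fun i => n (i.trans inf_le_right)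
  have aU : Abel (R ⊓ 𝐂 T) := Inv.abel (inv x ⟨m, l⟩ k)
  refine ⟨f.pi.le (sup_le_sup_left inf_le_left T), f.t1, abel_of_forall fun a i b j => ij x ⟨m, l⟩ k _ (mul_mem i j) _ (mul_mem j i) ?_,
    aU, f.tu, f.ux, fun i => k (i ⟨m, l⟩), f.tx, eq_bot_mono f.dj (inf_le_inf_left T (inf_le_left.trans f.r.le)), cm, inj, sur, inv, sq⟩
  have i' := cm x ⟨m, l⟩ a i
  have j' := cm x ⟨m, l⟩ b j
  rw [phi_mul (i'.2 b j), phi_mul (j'.2 a i), aU.mul_comm i' j']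

namespace BX
variable (h : BX T U X)
include h
theorem ij (m : x ∈ X) (k : x ∉ U) (i : t ∈ T) (j : t' ∈ T) (e : t⁻¹ * (x * t * x⁻¹) = t'⁻¹ * (x * t' * x⁻¹)) : t = t' :=
  (mul_inv_eq_one.1 (h.inj x m k _ (mul_mem j (inv_mem i)) (cm_of_cj e))).symm
theorem mul (m : x ∈ X) (i : t ∈ T) (j : t' ∈ T) :
    (t * t')⁻¹ * (x * (t * t') * x⁻¹) = t⁻¹ * (x * t * x⁻¹) * (t'⁻¹ * (x * t' * x⁻¹)) := phi_mul (h.tu j _ (h.cm x m t i)).symm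
theorem iso (m : x ∈ X) (k : x ∉ U) : ∃ e : T ≃* U, ∀ t : T, (e t : G) = t.1⁻¹ * (x * t * x⁻¹) :=
  ⟨.ofBijective (MonoidHom.mk' (fun t : T => (⟨_, h.cm x m t t.2⟩ : U)) fun a b => Subtype.ext (h.mul m a.2 b.2))
    ⟨fun a b e => Subtype.ext (h.ij m k a.2 b.2 (congrArg Subtype.val e)), fun s =>
      let ⟨t, i, e⟩ := h.sur x m k s s.2; ⟨⟨t, i⟩, Subtype.ext (inv_mul_eq_iff_eq_mul.2 e)⟩⟩, fun _ => rfl⟩
theorem iso' : Nonempty (T ≃* U) := let ⟨_, m, k⟩ := SetLike.not_le_iff_exists.1 h.ne; ⟨(h.iso m k).choose⟩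
theorem cardU : ♯U = ♯T := Nat.card_congr h.iso'.some.toEquiv.symm
omit h in
theorem four_iso (e : A ≃* B) (k : Four A) : Four B := by
  obtain ⟨a, i, b, j, f⟩ := k
  have iv : ∀ a : A, Iv a.1 → Iv (e a).1 := fun a i => by rwa [Iv, orderOf_coe, e.orderOf_eq, ← orderOf_coe]
  exact ⟨_, (e ⟨a, i⟩).2, _, (e ⟨b, j⟩).2, iv _ f.l, iv _ f.r, by
    rw [← coe_mul, ← coe_mul, ← map_mul, ← map_mul]; congr 2; exact Subtype.ext f.comm,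
    fun z => f.ne (congrArg Subtype.val (e.injective (Subtype.ext z)))⟩
omit h in
theorem el_iso (e : A ≃* B) (k : Abelem 2 A) : Abelem 2 B := el_of_sq fun b i => by
  obtain ⟨a, z⟩ := e.surjective ⟨b, i⟩
  have : a * a = 1 := Subtype.ext (k.sq2 a.2)
  simpa [z] using congrArg (fun x => (e x).1) this
theorem four : Four U ↔ Four T := ⟨four_iso h.iso'.some.symm, four_iso h.iso'.some⟩
theorem el : Abelem 2 U ↔ Abelem 2 T := ⟨el_iso h.iso'.some.symm, el_iso h.iso'.some⟩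
/-- `T` not elementary: index 2 -/
theorem idx (n : ¬ Abelem 2 T) : ∀ x ∈ X, ∀ y ∈ X, x ∉ U → y ∉ U → x * y ∈ U := fun x m y m' k k' =>
  by_contra fun z => n (h.el.1 (el_of_sq fun s i => by
    have := h.inv _ (mul_mem m m') z s i
    rwa [show x * y * s * (x * y)⁻¹ = x * (y * s * y⁻¹) * x⁻¹ by group, h.inv y m' k' s i, h.inv x m k _ (inv_mem i), inv_inv,
      ← mul_eq_one_iff_eq_inv] at this))
theorem sq1 (m : x ∈ X) (i : t ∈ T) (e : t * t = 1) : t⁻¹ * (x * t * x⁻¹) * (t⁻¹ * (x * t * x⁻¹)) = 1 := by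
  rw [← h.mul m i i, e]; simp
theorem card : ♯X ≤ ♯U * ♯(𝛀 2 U) := by
  obtain ⟨t, i, j⟩ := ex_iv' (h.pi.le le_sup_left) h.t1
  refine card_le_fn h.le (fun x => (⟨_, mem_Om (h.cm x x.2 t i) (by rw [pow_two, h.sq1 x.2 i j.sq])⟩ : 𝛀 2 U)) fun x y e =>
    by_contra fun z => j.ne_one (h.inj _ (mul_mem (inv_mem x.2) y.2) z t i ?_)
  rw [← mul_inv_eq_iff_eq_mul, show x.1⁻¹ * y * t * (x.1⁻¹ * y)⁻¹ = x.1⁻¹ * (y * t * y.1⁻¹) * x by group,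
    ← mul_left_cancel (congrArg Subtype.val e)]
  group
theorem sqs (k : ∀ t ∈ T, t * t = 1 → ∃ a ∈ T, a * a = t) : ∀ s ∈ U, s * s = 1 → ∃ a ∈ U, a * a = s := fun s i j => by
  obtain ⟨e⟩ := h.iso'
  obtain ⟨t, z⟩ := e.surjective ⟨s, i⟩
  obtain ⟨a, l, z'⟩ := k t t.2 (congrArg Subtype.val (e.injective (a₁ := t * t) (a₂ := 1) (by
    rw [map_mul, z, map_one]; exact Subtype.ext j)))
  exact ⟨_, (e ⟨a, l⟩).2, by rw [← coe_mul, ← map_mul, show (⟨a, l⟩ * ⟨a, l⟩ : T) = t from Subtype.ext z', z]⟩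
/-- an element of `T X` centralising `t s` lies in `T U` -/
theorem cw (i : t ∈ T) (n : t ≠ 1) (j : s ∈ U) (e : s * s = 1) (m : y ∈ T ⊔ X) (c : y * (t * s) = t * s * y) : y ∈ T ⊔ U := by
  obtain ⟨a, k, x, l, rfl⟩ := (mem_sup_norm h.nx).1 m
  refine mul_mem_sup k (by_contra fun z => n (h.inj x l z t i ?_))
  have c1 := h.inv x l z s j
  rw [inv_eq_of_mul_eq_one_left e, mul_inv_eq_iff_eq_mul] at c1
  rw [← mul_assoc (t * s), mul_assoc t, h.tu k s j, ← mul_assoc t, h.aT.mul_comm i k, mul_assoc, mul_assoc, mul_assoc,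
    mul_right_inj, ← c1, ← mul_assoc, ← mul_assoc, mul_left_inj] at c
  exact c
theorem sqw (m : y ∈ T ⊔ X) : y * y ∈ T ⊔ U := by
  obtain ⟨a, k, x, l, rfl⟩ := (mem_sup_norm h.nx).1 m
  rw [show a * x * (a * x) = a * a * (a⁻¹ * (x * a * x⁻¹) * (x * x)) by group]
  exact mul_mem_sup (mul_mem k k) (mul_mem (h.cm x l a k) (h.sq x l))
end BX

theorem Fr.nc (f : Fr P X Y R T) (n : ¬ R ≤ Xo R T) : ¬ R ≤ 𝐂 T := fun i => n ((le_inf le_rfl i).trans f.ux)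
/-- an element of `R` moving `T` into `T X°` and a non-trivial element into `T U` -/
theorem Fr.xin (f : Fr P X Y R T) (n : ¬ R ≤ 𝐂 T) (m : r ∈ R) (l : ∀ t ∈ T, r * t * r⁻¹ ∈ T ⊔ Xo R T) (i : t ∈ T) (k : t ≠ 1)
    (j : r * t * r⁻¹ ∈ T ⊔ R ⊓ 𝐂 T) : r ∈ Xo R T := by
  have h := f.bx n
  obtain ⟨u, ⟨z, rfl⟩, iu⟩ := ex_iv ((f.pi.le le_sup_left).elt i) k
  replace j := zpow_mem j z
  replace i := zpow_mem i z
  rw [conj_zpow] at j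
  beta_reduce at iu
  generalize t ^ z = u at i j iu
  have m' := f.wr (mul_mem (mem_sup_left (inv_mem i)) j) (f.r.le (f.phi m i))
  have e : r * u * r⁻¹ = u * (u⁻¹ * (r * u * r⁻¹)) := by group
  have s2 : u⁻¹ * (r * u * r⁻¹) * (u⁻¹ * (r * u * r⁻¹)) = 1 := by rw [← phi_mul (m'.2 u i), iu.sq]; simp
  have eU : R ⊓ 𝐂 T = cj r (R ⊓ 𝐂 T) := eq_of_card_eq (by
    rw [← f.cen i iu.ne_one, cj_inf, cj_cent1, cj_of_mem m, f.cen i iu.ne_one, e]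
    exact fun s z => ⟨z.1, cent1_mul_of (mem_cent1.2 (z.2 u i).symm) (mem_cent1.2 (h.aU.mul_comm z m'))⟩) (card_cj ..).symm
  refine ⟨m, mem_norm_of_cj_le ?_⟩
  rw [cj_sup, ← eU]
  refine sup_le (fun _ z => ?_) le_sup_right
  obtain ⟨a, z', rfl⟩ := mem_cj_iff.1 z
  exact h.cw i iu.ne_one m' s2 (l a z') (by rw [← e, conj_mul, conj_mul, h.aT.mul_comm z' i])
/-- if `Xo R T < R` -/
theorem Fr.big (f : Fr P X Y R T) (n : ¬ R ≤ Xo R T) : ∃ r ∈ R, r ∉ Xo R T ∧ r ∈ 𝐍 (T ⊔ Xo R T) ∧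
    ∀ t ∈ T, r * t * r⁻¹ ∈ T ⊔ R ⊓ 𝐂 T → t = 1 := by
  obtain ⟨r, m, k, l⟩ := f.grow inf_le_left f.tx n
  exact ⟨r, m, k, l, fun t i j => by_contra fun z => k (f.xin (f.nc n) m (fun _ i => conj_mem_of_norm l (mem_sup_left i)) i z j)⟩
theorem Fr.xo (f : Fr P X Y R T) (n : ¬ Abelem 2 T) : R ≤ Xo R T := by_contra fun k => by
  obtain ⟨r, -, -, l, j⟩ := f.big k
  exact n (el_of_sq fun t i => j _ (mul_mem i i) (by
    rw [← conj_mul]; exact (f.bx (f.nc k)).sqw (conj_mem_of_norm l (mem_sup_left i))))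
theorem Fr.inner (f : Fr P X Y R T) (n : ¬ R ≤ 𝐂 T) (e : X = 𝐂 K) (i : Iv t) (ht : t ∈ T) (m : t ∈ K ⊔ X) :
    ∃ a ∈ T, a * a = t := by
  have h := f.bx n
  have c : K ≤ 𝐂 X := cent_symm e.le
  obtain ⟨k, hk, q, hq, e⟩ := (mem_sup_norm' (norm_of_cent' c)).1 m
  obtain ⟨r, z, hr, hz, pr, pz, e'⟩ := exists_piPart {2} q
  have q2 : q * q ∈ 𝐂 X := by
    have := i.sq
    rw [← e, mul_assoc, ← mul_assoc q, c hk q hq, mul_assoc, ← mul_assoc, mul_eq_one_iff_inv_eq] at this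
    exact this ▸ inv_mem (c (mul_mem hk hk))
  have zc : z ∈ 𝐂 X := mem_of_sq_mem (odd_iff_piElt.2 pz) (by
    obtain ⟨j, rfl⟩ := hz
    rw [← (Commute.refl q).mul_zpow]; exact zpow_mem q2 j)
  have rX := zpowers_le.2 hq hr
  have ac : ∀ x ∈ X, t * x * t⁻¹ = r * x * r⁻¹ := fun x m => by
    rw [← e, ← e', show k * (r * z) * x * (k * (r * z))⁻¹ = k * (r * (z * x * z⁻¹) * r⁻¹) * k⁻¹ by group,
      conj_eq_of_comm (zc x m).symm, conj_eq_of_comm (c hk _ (mul_mem (mul_mem rX m) (inv_mem rX))).symm]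
  have rR : r ∈ R := f.r.mem_of_norm rX (mem_norm_of_cj_le fun _ j => by
    obtain ⟨x, j', rfl⟩ := mem_cj_iff.1 j
    exact ac x (f.r.le j') ▸ conj_mem_of_norm (f.n ht) j') pr
  have rU : r ∈ R ⊓ 𝐂 T := f.cen ht i.ne_one ▸ ⟨rR, mem_cent1.2 (mul_inv_eq_iff_eq_mul.1 (by simpa using ac r rX)).symm⟩
  obtain ⟨x, mx, k⟩ := SetLike.not_le_iff_exists.1 h.ne
  obtain ⟨a, ha, z⟩ := h.sur x mx k r rU
  refine ⟨a, ha, h.ij mx k (mul_mem ha ha) ht ?_⟩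
  rw [h.mul mx ha ha, z, inv_mul_cancel_left, i.inv_eq, ← mul_assoc, ← mul_assoc, ← congrArg (t * x * · * x⁻¹) i.inv_eq,
    ac x (f.r.le mx.1), mul_assoc, mul_assoc, ← mul_assoc x, h.inv x mx k _ (inv_mem rU), inv_inv]

end CF.Te
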