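/-
Tightly embedded subgroups: spreads and translations.
-/
import Cfsg.Agent.Te.B0
import Cfsg.Agent.Wo.Af
set_option autoImplicit false
set_option linter.unusedSectionVars false

namespace CF.Te
open Subgroup Cfsg CF.BG CF.Sig CF.GW CF.Ab2 CF.CT

universe u
variable {G : Type u} [Group G] [Finite G]
variable {A B H P V V' W X Y : Subgroup G} {g u x y : G} {𝒮 : Subgroup G → Prop}

theorem Tl.cj (t : Tl W V x) (n : g ∈ 𝐍 W) : Tl W (cj g V) (g * x * g⁻¹) :=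
  ⟨mul_mem (mul_mem n t.n) (inv_mem n), cj_cent g V ▸ conj_mem_cj.2 t.c, fun w m => by
    simpa [mem_cj, mul_assoc] using t.cm _ (conj_mem_of_norm' n m), fun m => t.ne (by
      simpa [mul_assoc] using conj_mem_of_norm' (norm_le_norm_cent W n) m)⟩
theorem Tl.mod (t : Tl W V x) (l : V ≤ W) (e : x⁻¹ * y ∈ 𝐂 W) : Tl W V y := by
  obtain ⟨k, rfl⟩ : ∃ k, y = x * k := ⟨x⁻¹ * y, by group⟩
  rw [inv_mul_cancel_left] at e
  exact ⟨mul_mem t.n (cent_le_norm W e), mul_mem t.c (cent_anti l e), fun w m => by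
    rw [mul_assoc x, ← e w m]; simpa [mul_assoc] using t.cm w m, fun m => t.ne (by simpa using mul_mem m (inv_mem e))⟩
theorem Tl.sq (t : Tl W V x) (e : Abelem 2 W) (l : V ≤ W) : x * x ∈ 𝐂 W := fun w m => by
  have i := t.cm w m
  rw [eq_comm, ← mul_inv_eq_iff_eq_mul, show x * x * w * (x * x)⁻¹ = x * w * x⁻¹ * (x * (w⁻¹ * (x * w * x⁻¹)) * x⁻¹) by group,
    ← t.c _ i, mul_inv_cancel_right, ← mul_inv_cancel_left w (x * w * x⁻¹), inv_mul_cancel_left, mul_assoc, ← pow_two,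
    e.pow _ (l i), mul_one]

theorem Sp.cen (h : Sp W H 𝒮) (a : 𝒮 V) (b : 𝒮 V') (ne : V ≠ V') (hx : x ∈ H) (tx : Tl W V x) :
    (∀ w ∈ W, x * w = w * x → w ∈ V) ∧ x ∉ 𝐍 V' := by
  have n : x ∉ 𝐍 V' := fun n => tx.ne (cent_anti (h.dj a b ne).2 (cent_sup V V' ▸ ⟨tx.c, fun v m => by
    have := eq_one_of_mem_bot (h.dj a b ne).1 ⟨tx.cm v (h.le b m), V'.mul_mem (inv_mem m) (conj_mem_of_norm n m)⟩
    exact (mul_inv_eq_iff_eq_mul.1 (inv_mul_eq_one.1 this).symm).symm⟩))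
  refine ⟨fun w m e => ?_, n⟩
  obtain ⟨v, i, v', j, rfl⟩ := (mem_sup_norm (norm_of_cent (h.el.abel.cent (h.le a) (h.le b)))).1 ((h.dj a b ne).2 m)
  rw [← mul_assoc, ← tx.c v i, mul_assoc, mul_assoc, mul_right_inj] at e
  simpa [eq_one_of_mem_bot (h.dj b (h.act b hx) fun z => n (cj_eq_self.1 z.symm)).1 ⟨j, conj_eq_of_comm e ▸ conj_mem_cj.2 j⟩] using i
/-- translations commuting modulo the kernel have the same centre -/
theorem Sp.uniq (h : Sp W H 𝒮) (a : 𝒮 V) (b : 𝒮 V') (hx : x ∈ H) (hy : y ∈ H) (tx : Tl W V x) (ty : Tl W V' y)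
    (c : (x * y)⁻¹ * (y * x) ∈ 𝐂 W) : V = V' := by_contra fun ne => (h.cen a b ne hx tx).2 (mem_norm_of_cj_le fun _ m => by
  obtain ⟨v, i, rfl⟩ := mem_cj_iff.1 m
  refine (h.cen b a (Ne.symm ne) hy ty).1 _ (conj_mem_of_norm tx.n (h.le b i)) (mul_inv_eq_iff_eq_mul.1 ?_)
  rw [show y * (x * v * x⁻¹) * y⁻¹ = x * (y * ((x * y)⁻¹ * (y * x) * v * ((x * y)⁻¹ * (y * x))⁻¹) * y⁻¹) * x⁻¹ by group,
    conj_eq_of_comm (c v (h.le b i)).symm, conj_eq_of_comm (ty.c v i).symm])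
theorem Sp.conj (h : Sp W H 𝒮) (a : 𝒮 V) (b : 𝒮 V') (ne : V ≠ V') (hx : x ∈ H) (hy : y ∈ H) (tx : Tl W V x)
    (ty : Tl W V' y) : ∃ g ∈ zpowers x ⊔ zpowers y, cj g V = V' ∧ y⁻¹ * (g * x * g⁻¹) ∈ 𝐂 W := by
  have le : zpowers x ⊔ zpowers y ≤ H := sup_le (zpowers_le.2 hx) (zpowers_le.2 hy)
  have n : ∀ {g}, g ∈ H → g ∈ 𝐍 (𝐂 W) := fun m => norm_le_norm_cent W (h.n m)
  have lf : ∀ z ∈ closure {qe (𝐂 W) x, qe (𝐂 W) y}, ∃ g ∈ zpowers x ⊔ zpowers y, qe (𝐂 W) g = z := fun z m => by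
    obtain ⟨g, i, -, e⟩ := mem_qt.1 ((closure_le (qt (𝐂 W) (zpowers x ⊔ zpowers y))).2 (Set.pair_subset
      (qe_mem_qt (mem_sup_left (mem_zpowers x)) (n hx)) (qe_mem_qt (mem_sup_right (mem_zpowers y)) (n hy))) m)
    exact ⟨g, i, e⟩
  have sq : ∀ {x V}, x ∈ H → 𝒮 V → Tl W V x → qe (𝐂 W) x * qe (𝐂 W) x = 1 := fun m a t => by
    rw [← qe_mul (n m) (n m), qe_of_mem (t.sq h.el (h.le a))]
  have cm : ∀ {x y}, x ∈ H → y ∈ H → qe (𝐂 W) x * qe (𝐂 W) y = qe (𝐂 W) y * qe (𝐂 W) x → (x * y)⁻¹ * (y * x) ∈ 𝐂 W :=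
    fun i j e => (qe_eq_iff (n (mul_mem i j)) (n (mul_mem j i))).1 (by rwa [qe_mul (n i) (n j), qe_mul (n j) (n i)])
  have c3 : ∀ {g x}, g ∈ H → x ∈ H → g * x * g⁻¹ ∈ H := fun i j => mul_mem (mul_mem i j) (inv_mem i)
  obtain ⟨_, m, e⟩ | ⟨_, m, w1, -, c1, c2, k⟩ := Wo.dl (sq hx a tx) (sq hy b ty) (mt (qe_eq_one (n hx)).1 tx.ne)
    (mt (qe_eq_one (n hy)).1 ty.ne)
  · obtain ⟨g, i, rfl⟩ := lf _ m
    rw [← qe_conj (n (le i)) (n hx)] at e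
    exact ⟨g, i, h.uniq (h.act a (le i)) b (c3 (le i) hx) hy (tx.cj (h.n (le i))) ty (cm (c3 (le i) hx) hy (by rw [e])),
      (qe_eq_iff (n hy) (n (c3 (le i) hx))).1 e⟩
  obtain ⟨w, i, rfl⟩ := lf _ m
  have key : ∀ {p q U U'}, p ∈ H → q ∈ H → 𝒮 U → 𝒮 U' → Tl W U p → Tl W U' q → qe (𝐂 W) w * qe (𝐂 W) p = qe (𝐂 W) p * qe (𝐂 W) w →
      (∃ g ∈ closure {qe (𝐂 W) x, qe (𝐂 W) y}, qe (𝐂 W) w * qe (𝐂 W) p = g * qe (𝐂 W) q * g⁻¹) → w ∈ 𝐂 U :=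
    fun {p q U U'} hp hq a b tp tq c ⟨_, m, e⟩ => by
      obtain ⟨g, j, rfl⟩ := lf _ m
      have wp := mul_mem (le i) hp
      rw [← qe_conj (n (le j)) (n hq), ← qe_mul (n (le i)) (n hp), eq_comm, qe_eq_iff (n (c3 (le j) hq)) (n wp)] at e
      have t := (tq.cj (h.n (le j))).mod (h.le (h.act b (le j))) e
      obtain rfl := h.uniq a (h.act b (le j)) hp wp tp t (cm hp wp (by rw [qe_mul (n (le i)) (n hp), ← mul_assoc, c]))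
      simpa using mul_mem t.c (inv_mem tp.c)
  refine (w1 (qe_of_mem (cent_anti (h.dj a b ne).2 (cent_sup V V' ▸ ?_)))).elim
  obtain ⟨k, k'⟩ | ⟨k, k'⟩ := k
  exacts [⟨key hx hx a a tx tx c1 k, key hy hy b b ty ty c2 k'⟩, ⟨key hx hy a b tx ty c1 k, key hy hx b a ty tx c2 k'⟩]
theorem Sp.fix (h : Sp W H 𝒮) (a : 𝒮 V) (hx : x ∈ H) (tx : Tl W V x) (hu : u ∈ H) (u2 : u * u ∈ 𝐂 W) :
    ∃ V', 𝒮 V' ∧ u ∈ 𝐍 V' := by
  classical
  have := Fintype.ofFinite {V // 𝒮 V}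
  have k : ∀ g ∈ H, g * g ∈ 𝐂 W → ∃ σ : Equiv.Perm {V // 𝒮 V}, σ ^ 2 ^ 1 = 1 ∧ ∀ V, σ V = V ↔ g ∈ 𝐍 V.1 := fun g m e => by
    have i : Function.Involutive fun V : {V // 𝒮 V} => (⟨cj g V, h.act V.2 m⟩ : {V // 𝒮 V}) := fun V =>
      Subtype.ext ((cj_cj ..).trans (cj_of_cent (cent_anti (h.le V.2) e)))
    exact ⟨i.toPerm, Equiv.ext i, fun V => Subtype.ext_iff.trans cj_eq_self⟩
  obtain ⟨σ, e, f⟩ := k x hx (tx.sq h.el (h.le a))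
  obtain ⟨τ, e', f'⟩ := k u hu u2
  obtain ⟨V', z⟩ := Equiv.Perm.exists_fixed_point_of_prime (fun d => by
    obtain ⟨V', i, j⟩ := Equiv.Perm.exists_fixed_point_of_prime' d e ((f ⟨V, a⟩).2 (cent_le_norm V tx.c))
    exact (h.cen a V'.2 (fun z => j (Subtype.ext z.symm)) hx tx).2 ((f _).1 i)) e'
  exact ⟨V', V'.2, (f' _).1 z⟩
theorem TI.sp (h : TI P) (e : Abelem 2 W) : Sp W (𝐍 W) (Ln P W) := by
  refine ⟨e, le_rfl, fun ⟨_, _, i, _⟩ => i ▸ inf_le_left, ?_, ?_⟩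
  · rintro _ _ ⟨X, a, rfl, c⟩ ⟨Y, b, rfl, c'⟩ ne
    have d := h.bot a b (fun z => ne (by rw [z])) (A := W ⊓ X ⊓ (W ⊓ Y)) e.pi.inf_left.inf_left (inf_le_left.trans inf_le_right)
      (inf_le_right.trans inf_le_right)
    refine ⟨d, (eq_of_card_eq (sup_le inf_le_left inf_le_left) ?_).ge⟩
    rw [card_sup_of_inf_bot (.inl (norm_of_cent (e.abel.cent inf_le_left inf_le_left))) d, ← Nat.mul_self_inj.1 (c.trans c'.symm), c]
  · rintro _ g ⟨X, a, rfl, c⟩ m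
    exact ⟨cj g X, conj_cj_right.2 a, by rw [cj_inf, cj_of_norm m], by rwa [card_cj]⟩
theorem TI.ln (h : TI P) (a : Conj P X) (b : Conj P Y) (ne : X ≠ Y) (e : Abelem 2 (A ⊔ B)) (l : A ≤ X) (m : B ≤ Y)
    (c : ♯A = ♯B) : Ln P (A ⊔ B) A := by
  have n := norm_of_cent (e.abel.cent le_sup_left le_sup_right)
  have d := h.bot a b ne (A := B ⊓ X) (e.pi.le le_sup_right).inf_left inf_le_right (inf_le_left.trans m)
  exact ⟨X, a, by rw [sup_inf_left l (.inl n), d, sup_bot_eq], by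
    rw [card_sup_of_inf_bot (.inl n) (eq_bot_mono d (le_inf inf_le_right (inf_le_left.trans l))), c]⟩

end CF.Te
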