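/-
Tightly embedded subgroups: the dichotomy for elementary frames.
-/
import Cfsg.Agent.Te.BX
import Cfsg.Agent.Te.CL
set_option autoImplicit false
set_option linter.unusedSectionVars false

namespace CF.Te
open Subgroup Cfsg CF.BG CF.Sig CF.GW CF.Ab2 CF.CT

universe u
variable {G : Type u} [Group G] [Finite G]
variable {A P R T U X Y : Subgroup G} {r s t t' x y : G}

theorem sup_zp17 (n : x ∈ 𝐍 A) (q : x * x ∈ A) (m : y ∈ A ⊔ zpowers x) : y ∈ A ∨ x⁻¹ * y ∈ A := by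
  obtain ⟨a, i, _, ⟨k, rfl⟩, rfl⟩ := (mem_sup_norm' (zp_le_norm n)).1 m
  have e : ∀ j : ℤ, x ^ (2 * j) ∈ A := fun j => by rw [zpow_mul, zpow_two]; exact zpow_mem q j
  obtain ⟨j, rfl | rfl⟩ := k.even_or_odd'
  · exact .inl (mul_mem i (e j))
  · exact .inr (by simpa [zpow_add, mul_assoc, (Commute.self_zpow x _).eq] using mul_mem (conj_mem_of_norm' n i) (e j))
theorem syl_sup17 {B C : Subgroup G} (s : Syl 2 A C) (p : P2 (A ⊔ B)) (n : B ≤ 𝐍 C) : Syl 2 (A ⊔ B) (C ⊔ B) :=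
  syl_of_max (sup_le_sup_right s.le B) p fun S l q l' => le_antisymm (by
    rw [← inf_eq_left.2 l, inf_sup_right (le_sup_right.trans l') (.inr n),
      ← s.eq_of_le (le_inf (le_sup_left.trans l') s.le) inf_le_right q.inf_left]) l'

theorem BX.cu (h : BX T U X) (e : Abelem 2 T) : X ≤ 𝐂 U := fun x m s i => by
  by_cases k : x ∈ U
  · exact h.aU.mul_comm i k
  · exact (mul_inv_eq_iff_eq_mul.1 ((h.inv x m k s i).trans (inv_eq_of_mul_eq_one_left ((h.el.2 e).sq2 i)))).symm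
theorem BX.elw (h : BX T U X) (e : Abelem 2 T) : Abelem 2 (T ⊔ U) := e.sup (h.el.2 e) h.tu
theorem BX.nw (h : BX T U X) (e : Abelem 2 T) : X ≤ 𝐍 (T ⊔ U) := le_norm_of_cj_le fun x m => by
  rw [cj_sup, cj_of_cent (h.cu e m)]
  refine sup_le (fun _ i => ?_) le_sup_right
  obtain ⟨t, j, rfl⟩ := mem_cj_iff.1 i
  simpa using mul_mem_sup j (h.cm x m t j)
theorem BX.tl (h : BX T U X) (e : Abelem 2 T) (m : x ∈ X) (k : x ∉ U) : Tl (T ⊔ U) U x :=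
  ⟨h.nw e m, h.cu e m, fun w i => by
    obtain ⟨t, j, s, l, rfl⟩ := (mem_sup_norm (norm_of_cent h.tu)).1 i
    rw [← conj_mul, conj_eq_of_comm (h.cu e m s l).symm, mul_inv_rev, mul_assoc, ← mul_assoc t⁻¹]
    exact mul_mem (inv_mem l) (mul_mem (h.cm x m t j) l),
  fun c => h.t1 (eq_bot_of_forall fun t i => h.inj x m k t i (c t (mem_sup_left i)).symm)⟩

/-- a translation with centre `T` -/
theorem Fr.opp (f : Fr P X Y R T) (n : ¬ R ≤ 𝐂 T) (e : Abelem 2 T) : ∃ y, Tl (T ⊔ R ⊓ 𝐂 T) T y := by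
  obtain ⟨R', f', z, k⟩ := f.symm
  have h := f'.bx (mt k.1 n)
  rw [z] at h
  obtain ⟨y, i, j⟩ := SetLike.not_le_iff_exists.1 h.ne
  exact ⟨y, by rw [sup_comm]; exact h.tl ((f.bx n).el.2 e) i j⟩
theorem Fr.ln (f : Fr P X Y R T) (e : Abelem 2 (T ⊔ R ⊓ 𝐂 T)) : Ln P (T ⊔ R ⊓ 𝐂 T) (R ⊓ 𝐂 T) ∧ Ln P (T ⊔ R ⊓ 𝐂 T) T :=
  ⟨by rw [sup_comm] at e ⊢; exact f.ti.ln f.x f.y f.ne e (inf_le_left.trans f.r.le) f.ty f.card,
    f.ti.ln f.y f.x f.ne.symm e f.ty (inf_le_left.trans f.r.le) f.card.symm⟩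
theorem Fr.cny (f : Fr P X Y R T) : 𝐍 T ≤ 𝐍 Y := f.ti.nor f.y f.t.pi f.t1 f.ty

theorem Fr.dich (f : Fr P X Y R T) (n : ¬ R ≤ 𝐂 T) (e : Abelem 2 T) :
    (∀ x ∈ Xo R T, x * x = 1) ∨ ∀ x ∈ Xo R T, x * x = 1 → x ∈ 𝐂 T := by
  have h := f.bx n
  refine or_iff_not_imp_right.2 fun k x' m' => ?_
  push Not at k
  obtain ⟨x, m, xx, k⟩ := k
  replace k : x ∉ R ⊓ 𝐂 T := fun i => k i.2
  by_cases k' : x' ∈ R ⊓ 𝐂 T
  · exact (h.el.2 e).sq2 k'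
  obtain ⟨y, ty⟩ := f.opp n e
  obtain ⟨a, b⟩ := f.ln (h.elw e)
  have ne : R ⊓ 𝐂 T ≠ T := fun z => f.t1 (f.dj ▸ (inf_eq_left.2 (z.ge.trans (inf_le_left.trans f.r.le))).symm)
  have sp := f.ti.sp (h.elw e)
  have cj' := fun {x} m k => sp.conj a b ne (h.nw e m) ty.n (h.tl (x := x) e m k) ty
  have le : ∀ {x}, x ∈ Xo R T → zpowers x ⊔ zpowers y ≤ 𝐍 (T ⊔ R ⊓ 𝐂 T) := fun m => sup_le (zp_le_norm (h.nw e m)) (zp_le_norm ty.n)
  obtain ⟨g, i, z, c⟩ := cj' m k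
  obtain ⟨g', i', z', c'⟩ := cj' m' k'
  have gX : g'⁻¹ * g ∈ 𝐍 X := f.ti.nor f.x f.r.pi.inf_left f.u1 (inf_le_left.trans f.r.le)
    (cj_eq_self.1 (by rw [← cj_cj, z, eq_comm, eq_cj_iff, inv_inv, z']))
  have xX := f.r.le m'.1
  have c0 : x'⁻¹ * (g'⁻¹ * g * x * (g'⁻¹ * g)⁻¹) ∈ X ⊓ 𝐂 (T ⊔ R ⊓ 𝐂 T) := mem_inf.2 ⟨mul_mem (inv_mem xX) (conj_mem_of_norm gX (f.r.le m.1)), by
    simpa [mul_assoc] using conj_mem_of_norm' (norm_le_norm_cent _ (le m' i')) (mul_mem (inv_mem c') c)⟩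
  have sq : g'⁻¹ * g * x * (g'⁻¹ * g)⁻¹ * (g'⁻¹ * g * x * (g'⁻¹ * g)⁻¹) = 1 := by rw [conj_mul, xx]; simp
  generalize g'⁻¹ * g * x * (g'⁻¹ * g)⁻¹ = z at c0 sq
  have nC : zpowers x' ≤ 𝐍 (X ⊓ 𝐂 (T ⊔ R ⊓ 𝐂 T)) := norm_inf (norm_of_le (zpowers_le.2 xX)) (norm_cent (zp_le_norm (h.nw e m')))
  obtain ⟨w, i, j⟩ := (syl_sup17 (f.syl.of_le (le_inf (inf_le_left.trans f.r.le) ((h.elw e).abel.cent le_sup_right le_rfl))
    (inf_le_inf_left X ((cent_anti le_sup_left).trans ((cent_le_norm T).trans f.cny))))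
    (f.r.pi.le (sup_le inf_le_left (zpowers_le.2 m'.1))) nC).syl_cj_le (K := zpowers z) (zpowers_le.2 (by
      simpa using mul_mem (mem_sup_right (mem_zpowers x')) (mem_sup_left c0))) (piElt_of_pow_eq_one p2 (by rwa [pow_two])).zpowers
  obtain j | j := sup_zp17 (cent_le_norm _ (h.cu e m')) (h.sq x' m') (j (conj_mem_cj.2 (mem_zpowers z)))
  · have := (normalIn_sup_left nC).conj_mem' i ⟨f.r.le j.1, (h.elw e).abel (mem_sup_right j)⟩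
    exact ((h.tl e m' k').ne (by simpa [mul_assoc] using mul_mem (mem_inf.1 this).2 (inv_mem (mem_inf.1 c0).2))).elim
  · have q : w * z * w⁻¹ * (w * z * w⁻¹) = 1 := by rw [conj_mul, sq]; simp
    rwa [← mul_inv_cancel_left x' (w * z * w⁻¹), mul_assoc, ← mul_assoc _ x', h.cu e m' _ j, mul_assoc, (h.el.2 e).sq2 j, mul_one] at q

end CF.Te
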