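/-
Tightly embedded subgroups: frames with `Xo R T < R`, local part.
-/
import Cfsg.Agent.Te.B1a
set_option autoImplicit false
set_option linter.unusedSectionVars false

namespace CF.Te
open Subgroup Cfsg CF.BG CF.Sig CF.GW CF.Ab2 CF.CT

universe u
variable {G : Type u} [Group G] [Finite G]
variable {A B P R T U X Y : Subgroup G} {d r s t t' u x y ρ : G}

theorem frat17 (h : Syl 2 A B) (m : x ∈ 𝐍 B) : ∃ c ∈ B, c⁻¹ * x ∈ 𝐍 A := by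
  obtain ⟨g, hg, e⟩ := h.syl_conj (h.cj_of_norm m)
  exact ⟨g, hg, by rw [← cj_eq_self, ← cj_cj, e, cj_inv_cj]⟩

/-- an element `r` moving `T` inside `T A`, off `T U` -/
structure RB (T U A : Subgroup G) (r : G) : Prop extends BX T U A where
  e : Abelem 2 T
  n : r ∈ 𝐍 A
  ph : ∀ t ∈ T, t⁻¹ * (r * t * r⁻¹) ∈ A
  nb : ∀ t ∈ T, t⁻¹ * (r * t * r⁻¹) ∈ U → t = 1
  d2 : ∀ x ∈ A, x * x = 1 → x ∈ U

namespace RB
variable (h : RB T U A r)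
include h
theorem eu : Abelem 2 U := h.el.2 h.e
theorem c (m : x ∈ A) (i : s ∈ U) : s * x = x * s := h.cu h.e m s i
theorem nu : 𝐍 A ≤ 𝐍 U := fun g m => mem_norm_of_cj_le fun _ i => by
  obtain ⟨s, j, rfl⟩ := mem_cj_iff.1 i
  exact h.d2 _ (conj_mem_of_norm m (h.le j)) (by rw [conj_mul, h.eu.sq2 j]; simp)
theorem ij2 (i : t ∈ T) (j : t' ∈ T) (e : (t⁻¹ * (r * t * r⁻¹))⁻¹ * (t'⁻¹ * (r * t' * r⁻¹)) ∈ U) : t = t' := by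
  have := h.nb _ (mul_mem i j) (by
    convert mul_mem (mul_mem (h.cm _ (h.ph t i) t' j) (h.sq _ (h.ph t i))) e using 1; group)
  rw [eq_inv_of_mul_eq_one_left this, inv_eq_of_mul_eq_one_left (h.e.sq2 j)]
theorem cu' (m : x ∈ A) (m' : y ∈ A) (i : u ∈ T) (n : u ≠ 1) (e : x * u * x⁻¹ = y * u * y⁻¹) : x⁻¹ * y ∈ U :=
  by_contra fun z => n (h.inj _ (mul_mem (inv_mem m) m') z u i (by
    rw [← mul_inv_eq_iff_eq_mul, show x⁻¹ * y * u * (x⁻¹ * y)⁻¹ = x⁻¹ * (y * u * y⁻¹) * x by group, ← e]; group))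
theorem reg (i : u ∈ T) (n : u ≠ 1) (j : s ∈ U) : ∃ t ∈ T, t⁻¹ * (r * t * r⁻¹) * u * (t⁻¹ * (r * t * r⁻¹))⁻¹ = u * s := by
  obtain ⟨t, e⟩ := ((Nat.bijective_iff_injective_and_card (fun t : T => (⟨_, h.cm _ (h.ph t t.2) u i⟩ : U))).2
    ⟨fun t t' e => Subtype.ext (h.ij2 t.2 t'.2 (h.cu' (h.ph t t.2) (h.ph t' t'.2) i n
      (mul_left_cancel (congrArg Subtype.val e)))), h.cardU.symm⟩).2 ⟨s, j⟩
  exact ⟨t, t.2, inv_mul_eq_iff_eq_mul.1 (congrArg Subtype.val e)⟩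
theorem reg' (i : u ∈ T) (n : u ≠ 1) (j : s ∈ U) : ∃ x ∈ A, x * u * x⁻¹ = u * s :=
  let ⟨t, k, e⟩ := h.reg i n j; ⟨_, h.ph t k, e⟩
theorem su (m : x ∈ A) : ∃ t ∈ T, ∃ s ∈ U, x = t⁻¹ * (r * t * r⁻¹) * s := by
  obtain ⟨u, i, n⟩ := ex_iv' h.e.pi h.t1
  obtain ⟨t, j, e⟩ := h.reg i n.ne_one (h.cm x m u i)
  exact ⟨t, j, _, h.cu' (h.ph t j) m i n.ne_one (by rw [e, mul_inv_cancel_left]), by rw [mul_inv_cancel_left]⟩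
theorem invol (m : d ∈ T ⊔ A) (q : d * d = 1) : d ∈ T ⊔ U ∨ r⁻¹ * d * r ∈ T ⊔ U := by
  obtain ⟨a, i, x, j, rfl⟩ := (mem_sup_norm h.nx).1 m
  obtain ⟨t, k, s, l, rfl⟩ := h.su j
  by_cases z : t⁻¹ * (r * t * r⁻¹) ∈ U
  · exact .inl (mul_mem_sup i (mul_mem z l))
  have m := mul_mem i (inv_mem k)
  have e : a * t⁻¹ = 1 := h.inj _ (h.ph t k) z _ m (by
    have q2 : r * t * r⁻¹ * (r * t * r⁻¹) = 1 := by rw [conj_mul, h.e.sq2 k]; simp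
    rw [← mul_assoc a, mul_assoc _ s, ← mul_assoc s, sup_le h.tu (h.cu h.e) (mul_mem_sup i (h.ph t k)) s l, mul_assoc _ s,
      h.eu.sq2 l, mul_one, ← mul_assoc a, mul_eq_one_iff_eq_inv, mul_inv_rev,
      inv_eq_of_mul_eq_one_left q2, inv_eq_of_mul_eq_one_left (h.e.sq2 m)] at q
    rw [mul_assoc, ← q, ← mul_assoc, h.aT.mul_comm (inv_mem k) m, mul_assoc])
  refine .inr ?_
  rw [mul_inv_eq_one.1 e, show r⁻¹ * (t * (t⁻¹ * (r * t * r⁻¹) * s)) * r = t * (r⁻¹ * s * r) by group]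
  exact mul_mem_sup k (conj_mem_of_norm' (h.nu h.n) l)
theorem psi (q : r * r ∈ A) (m : x ∈ A) : x * (r * x * r⁻¹) ∈ U := by
  obtain ⟨t, k, s, l, rfl⟩ := h.su m
  rw [← conj_mul (b := r), ← h.c (h.ph t k) l]
  convert mul_mem (mul_mem l (h.cm _ q t k)) (conj_mem_of_norm (h.nu h.n) l) using 1
  group
theorem rsq (q : r * r ∈ A) (m : x ∈ A) : r * (x * x) * r⁻¹ = x * x := by
  have := h.psi q m
  rw [← conj_mul, ← inv_mul_cancel_left x (r * x * r⁻¹), mul_assoc, ← mul_assoc _ x⁻¹, h.c (inv_mem m) this, mul_assoc,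
    h.eu.sq2 this, mul_one, ← mul_inv_rev, inv_eq_of_mul_eq_one_left (h.eu.sq2 (h.sq x m))]
theorem rinv (q : r * r ∈ U) (c : r ∈ 𝐂 U) : Inv r A := fun x m => by
  obtain ⟨t, k, s, l, rfl⟩ := h.su m
  rw [← conj_mul (b := r), conj_eq_of_comm (c s l).symm, mul_inv_rev _ s, inv_eq_of_mul_eq_one_left (h.eu.sq2 l),
    h.c (inv_mem (h.ph t k)) l, mul_left_inj]
  refine eq_inv_of_mul_eq_one_right ?_
  rw [← inv_mul_cancel t, ← congrArg (t⁻¹ * ·) (conj_eq_of_comm (h.tu k _ q))]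
  group
end RB

theorem Fr.dx (f : Fr P X Y R T) (l : A ≤ R) (k : T ≤ 𝐍 A) (a : x ∈ T ⊔ A) (b : x ∈ X) : x ∈ A := by
  have : x ∈ (T ⊔ A) ⊓ X := ⟨a, b⟩
  rwa [sup_inf_right (l.trans f.r.le) (.inl k), f.dj, bot_sup_eq] at this
theorem Fr.rb (f : Fr P X Y R T) (n : ¬ R ≤ Xo R T) :
    ∃ r ∈ R, r ∉ Xo R T ∧ r ∈ 𝐍 (T ⊔ Xo R T) ∧ RB T (R ⊓ 𝐂 T) (Xo R T) r := by
  have e : Abelem 2 T := by_contra fun e => n (f.xo e)
  have h := f.bx (f.nc n)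
  obtain ⟨r, m, k, l, b⟩ := f.big n
  have ph : ∀ t ∈ T, t⁻¹ * (r * t * r⁻¹) ∈ Xo R T := fun t i => f.dx inf_le_left f.tx
    (mul_mem (mem_sup_left (inv_mem i)) (conj_mem_of_norm l (mem_sup_left i))) (f.r.le (f.phi m i))
  have nb : ∀ t ∈ T, t⁻¹ * (r * t * r⁻¹) ∈ R ⊓ 𝐂 T → t = 1 := fun t i j => b t i (by simpa using mul_mem_sup i j)
  refine ⟨r, m, k, l, h, e, mem_norm_of_cj_le fun _ i => ?_, ph, nb, fun x i j => ⟨i.1, (f.dich (f.nc n) e).resolve_left (fun z => ?_) x i j⟩⟩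
  · obtain ⟨x, j, rfl⟩ := mem_cj_iff.1 i
    exact f.dx inf_le_left f.tx (conj_mem_of_norm l (mem_sup_right j)) (f.r.le (mul_mem (mul_mem m j.1) (inv_mem m)))
  obtain ⟨t, i, j⟩ := ex_iv' e.pi f.t1
  refine j.ne_one (h.inj _ (ph t i) (fun z => j.ne_one (nb t i z)) t i ?_)
  have q : t * (t⁻¹ * (r * t * r⁻¹)) * (t * (t⁻¹ * (r * t * r⁻¹))) = 1 := by rw [mul_inv_cancel_left, conj_mul, j.sq]; simp
  have := z _ (ph t i)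
  generalize t⁻¹ * (r * t * r⁻¹) = y at q this
  rwa [mul_eq_one_iff_eq_inv, mul_inv_rev, j.inv_eq, inv_eq_of_mul_eq_one_left this, eq_comm] at q

namespace Fr
variable (f : Fr P X Y R T) (h : RB T (R ⊓ 𝐂 T) (Xo R T) r)
include f h
theorem in1 (m : ρ ∈ R) (i : u ∈ T) (n : u ≠ 1) (j : ρ * u * ρ⁻¹ ∈ T ⊔ R ⊓ 𝐂 T) : ρ ∈ Xo R T := by
  obtain ⟨x, k, e⟩ := h.reg' i n (f.wr (mul_mem (mem_sup_left (inv_mem i)) j) (f.r.le (f.phi m i)))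
  have : x⁻¹ * ρ ∈ R ⊓ 𝐂 T := f.cen i n ▸ mem_inf.2 ⟨mul_mem (inv_mem (mem_inf.1 k).1) m, mem_cent1.2 (by
    rw [← mul_inv_eq_iff_eq_mul, show x⁻¹ * ρ * u * (x⁻¹ * ρ)⁻¹ = x⁻¹ * (u * (u⁻¹ * (ρ * u * ρ⁻¹))) * x by group, ← e]; group)⟩
  simpa using mul_mem k (f.ux this)
theorem in2 (mr : r ∈ R) (m : ρ ∈ R) (i : u ∈ T) (n : u ≠ 1) (j : ρ * u * ρ⁻¹ ∈ T ⊔ Xo R T) : ρ ∈ Xo R T ∨ r⁻¹ * ρ ∈ Xo R T :=
  (h.invol j (by rw [conj_mul, h.e.sq2 i]; simp)).imp (f.in1 h m i n) fun z =>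
    f.in1 h (mul_mem (inv_mem mr) m) i n (by simpa [mul_assoc] using z)
theorem in3 (mr : r ∈ R) (m : ρ ∈ R ⊓ 𝐍 (T ⊔ Xo R T)) : ρ ∈ Xo R T ∨ r⁻¹ * ρ ∈ Xo R T :=
  let ⟨_, i, j⟩ := ex_iv' h.e.pi h.t1
  f.in2 h mr m.1 i j.ne_one (conj_mem_of_norm m.2 (mem_sup_left i))
theorem r2 (mr : r ∈ R) (k : r ∉ Xo R T) (l : r ∈ 𝐍 (T ⊔ Xo R T)) : r * r ∈ Xo R T :=
  (f.in3 h mr ⟨mul_mem mr mr, mul_mem l l⟩).resolve_right fun z => k (by simpa using z)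
omit f in
theorem mul2 (q : r * r ∈ Xo R T) (a : r⁻¹ * x ∈ Xo R T) (b : r⁻¹ * y ∈ Xo R T) : x * y ∈ Xo R T := by
  convert mul_mem (mul_mem q (conj_mem_of_norm' h.n a)) b using 1; group
theorem in4 (k4 : Four T) (mr : r ∈ R) (k : r ∉ Xo R T) (l : r ∈ 𝐍 (T ⊔ Xo R T)) (m : ρ ∈ R) : ρ ∈ Xo R T ∨ r⁻¹ * ρ ∈ Xo R T := by
  refine f.in3 h mr (by_contra fun z => ?_)
  have tn : T ≤ 𝐍 (R ⊓ 𝐍 (T ⊔ Xo R T)) := norm_inf_norm f.n (norm_of_le le_sup_left)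
  obtain ⟨σ, m, n, j⟩ := f.grow inf_le_left tn fun i => z (i m)
  have xn : Xo R T ≤ R ⊓ 𝐍 (T ⊔ Xo R T) := le_inf inf_le_left (norm_of_le le_sup_right)
  have p : ∀ u ∈ T, u⁻¹ * (σ * u * σ⁻¹) ∈ R ⊓ 𝐍 (T ⊔ Xo R T) := fun u i => f.dx inf_le_left tn
    (mul_mem (mem_sup_left (inv_mem i)) (conj_mem_of_norm j (mem_sup_left i))) (f.r.le (f.phi m i))
  have q : ∀ u ∈ T, u ≠ 1 → u⁻¹ * (σ * u * σ⁻¹) ∉ Xo R T := fun u i i' z => n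
    ((f.in2 h mr m i i' (by simpa using mul_mem_sup i z)).elim (xn ·) fun z => by simpa using mul_mem (mem_inf.2 ⟨mr, l⟩) (xn z))
  obtain ⟨a, i, b, i', fp⟩ := k4
  refine q _ (mul_mem i i') fp.mul.r.ne_one ?_
  have := mul2 h (f.r2 h mr k l) ((f.in3 h mr (conj_mem_of_norm' (tn i') (p a i))).resolve_left fun z =>
    q a i fp.l.ne_one (by simpa [mul_assoc] using conj_mem_of_norm (f.tx i') z)) ((f.in3 h mr (p b i')).resolve_left (q b i' fp.r.ne_one))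
  convert this using 1; group
end Fr

end CF.Te
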