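/-
Tightly embedded subgroups: classification of frames.
-/
import Cfsg.Agent.Te.B1b
set_option autoImplicit false
set_option linter.unusedSectionVars false

namespace CF.Te
open Subgroup Cfsg CF.BG CF.Sig CF.GW CF.Ab2 CF.CT

universe u
variable {G : Type u} [Group G] [Finite G]
variable {A B P R T U X Y : Subgroup G} {r s s' x z ρ : G}

theorem RB.trW (h : RB T U A r) (h' : BX U T B) (i : s ∈ U) (n : s ≠ 1) (i' : s' ∈ U) (n' : s' ≠ 1) :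
    ∃ g ∈ 𝐍 (T ⊔ U), g * s * g⁻¹ = s' := by
  have eu : ∀ {a b c : G}, (∃ g ∈ 𝐍 (T ⊔ U), g * a * g⁻¹ = b) → (∃ g ∈ 𝐍 (T ⊔ U), g * c * g⁻¹ = b) →
      ∃ g ∈ 𝐍 (T ⊔ U), g * a * g⁻¹ = c := fun {a _ _} ⟨g, i, e⟩ ⟨k, j, e'⟩ => ⟨k⁻¹ * g, mul_mem (inv_mem j) i, by
    rw [show k⁻¹ * g * a * (k⁻¹ * g)⁻¹ = k⁻¹ * (g * a * g⁻¹) * k by group, e, ← e']; group⟩
  have a : ∀ {u s}, u ∈ T → u ≠ 1 → s ∈ U → ∃ g ∈ 𝐍 (T ⊔ U), g * u * g⁻¹ = u * s := fun i n j =>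
    let ⟨x, m, e⟩ := h.reg' i n j; ⟨x, h.nw h.e m, e⟩
  obtain ⟨y, m, k⟩ := SetLike.not_le_iff_exists.1 h'.ne
  have yn : y ∈ 𝐍 (T ⊔ U) := by rw [sup_comm]; exact h'.nw h.eu m
  have b : ∀ {s}, s ∈ U → s ≠ 1 → ∃ t ∈ T, t ≠ 1 ∧ ∃ g ∈ 𝐍 (T ⊔ U), g * s * g⁻¹ = t := fun {s} i n => by
    have j := h'.cm y m s i
    have n' : s⁻¹ * (y * s * y⁻¹) ≠ 1 := fun e => n (h'.inj y m k s i (mul_inv_eq_iff_eq_mul.1 (inv_mul_eq_one.1 e).symm))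
    exact ⟨_, j, n', eu ⟨y, yn, by rw [← h.tu j s i, mul_inv_cancel_left]⟩ (a j n' i)⟩
  obtain ⟨t, j, l, e⟩ := b i n
  obtain ⟨t', j', l', e'⟩ := b i' n'
  obtain ⟨v, iv, z⟩ := h'.sur y m k _ (mul_mem (inv_mem j) j')
  refine eu (eu e (eu (eu (a j' l' iv) ⟨y, yn, ?_⟩) (a j l iv))) e'
  rw [← conj_mul, z, conj_eq_of_comm (h'.cu h.eu m t j).symm, ← mul_assoc, ← mul_assoc, ← h.tu j v iv, mul_inv_cancel_right,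
    h.tu j' v iv]

namespace Fr
variable (f : Fr P X Y R T) (h : RB T (R ⊓ 𝐂 T) (Xo R T) r)
include f h
theorem sylA : Syl 2 (Xo R T) (X ⊓ 𝐍 (T ⊔ R ⊓ 𝐂 T) ⊓ 𝐂 (R ⊓ 𝐂 T)) :=
  syl_of_max (le_inf (inf_le_inf_right _ f.r.le) (h.cu h.e)) f.r.pi.inf_left fun S l p l' => le_antisymm (fun z m => by
    obtain ⟨u, i, n⟩ := ex_iv' h.e.pi h.t1
    obtain ⟨⟨a, b⟩, -⟩ := l m
    obtain ⟨x, k, e⟩ := h.reg' i n.ne_one (f.wr (mul_mem (mem_sup_left (inv_mem i)) (conj_mem_of_norm b (mem_sup_left i)))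
      (by simpa [mul_assoc] using mul_mem (conj_mem_of_norm' (f.nx i) a) (X.inv_mem a)))
    have w := mul_mem (inv_mem (l' k)) m
    have := f.syl.mem_of_norm ⟨(l w).1.1, f.ti.cen f.y (f.t.pi.elt i) n.ne_one (f.ty i) (mem_cent1.2 (by
      rw [← mul_inv_eq_iff_eq_mul, show x⁻¹ * z * u * (x⁻¹ * z)⁻¹ = x⁻¹ * (u * (u⁻¹ * (z * u * z⁻¹))) * x by group, ← e]
      group))⟩ (cent_le_norm _ (l w).2) (p.elt w)
    simpa using mul_mem k (f.ux this)) l'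
theorem trA (i : s ∈ R ⊓ 𝐂 T) (n : s ≠ 1) (i' : s' ∈ R ⊓ 𝐂 T) (n' : s' ≠ 1) : ∃ g ∈ 𝐍 (Xo R T) ⊓ 𝐍 X, g * s * g⁻¹ = s' := by
  obtain ⟨R', f', z, k⟩ := f.symm
  have h' := f'.bx (mt k.1 fun c => h.ne (inf_le_left.trans (le_inf le_rfl c)))
  rw [z] at h'
  obtain ⟨g, m, e⟩ := h.trW h' i n i' n'
  have gX : g ∈ 𝐍 X := cj_eq_self.1 (f.ti.mv f.x f.x (f.r.pi.elt i.1) n (f.r.le i.1) (e ▸ f.r.le i'.1))
  have l : 𝐍 (T ⊔ R ⊓ 𝐂 T) ⊓ 𝐍 X ≤ 𝐍 (R ⊓ 𝐂 T) := by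
    have := norm_inf (inf_le_left : 𝐍 (T ⊔ R ⊓ 𝐂 T) ⊓ 𝐍 X ≤ _) inf_le_right
    rwa [f.inf_x] at this
  obtain ⟨c, j, k⟩ := frat17 (f.sylA h) (norm_inf_cent (norm_inf_norm inf_le_right inf_le_left) l ⟨m, gX⟩)
  exact ⟨_, mem_inf.2 ⟨k, mul_mem (inv_mem (le_norm_self X j.1.1)) gX⟩, by
    rw [show c⁻¹ * g * s * (c⁻¹ * g)⁻¹ = c⁻¹ * (g * s * g⁻¹ * c) by group, e, j.2 s' i', inv_mul_cancel_left]⟩
theorem sqr (i : s ∈ R ⊓ 𝐂 T) : ∃ x ∈ Xo R T, x * x = s := by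
  by_cases n : s = 1
  · exact ⟨1, one_mem _, by simp [n]⟩
  obtain ⟨x, m, k⟩ := SetLike.not_le_iff_exists.1 h.ne
  obtain ⟨g, j, e⟩ := f.trA h (h.sq x m) (mt (h.d2 x m) k) i n
  exact ⟨_, conj_mem_of_norm j.1 m, conj_mul.trans e⟩
theorem rcu (q : r * r ∈ Xo R T) : r ∈ 𝐂 (R ⊓ 𝐂 T) := fun s i => by
  obtain ⟨x, m, rfl⟩ := f.sqr h i
  exact (mul_inv_eq_iff_eq_mul.1 (h.rsq q m)).symm
theorem fixz (k4 : Four T) (mr : r ∈ R) (k : r ∉ Xo R T) (c : R ≤ 𝐍 (Xo R T) ⊓ 𝐂 (R ⊓ 𝐂 T)) {j : ℕ}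
    (i : (r * r) ^ j ∈ R ⊓ 𝐂 T) (e : ∀ ρ ∈ R, ρ ∉ Xo R T → (ρ * ρ) ^ j = (r * r) ^ j) : (r * r) ^ j = 1 := by_contra fun n => by
  obtain ⟨s, i', n', ne⟩ := (h.four.2 k4).third ((r * r) ^ j)
  obtain ⟨g, m, z⟩ := f.trA h i n i' n'.ne_one
  obtain ⟨a, l, k'⟩ := frat17 (B := X ⊓ (𝐍 (Xo R T) ⊓ 𝐂 (R ⊓ 𝐂 T))) (f.r.of_le (le_inf f.r.le c) inf_le_left)
    (norm_inf inf_le_right (norm_inf_cent (inf_le_left.trans (norm_le_norm_norm _)) (inf_le_left.trans h.nu)) m)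
  have := e _ (conj_mem_of_norm k' mr) fun i => k (by
    simpa [mul_assoc] using conj_mem_of_norm' (mul_mem (inv_mem (mem_inf.1 (mem_inf.1 l).2).1) (mem_inf.1 m).1) i)
  rw [conj_mul, conj_pow, show a⁻¹ * g * (r * r) ^ j * (a⁻¹ * g)⁻¹ = a⁻¹ * (g * (r * r) ^ j * g⁻¹ * a) by group, z,
    l.2.2 s i', inv_mul_cancel_left] at this
  exact ne this
end Fr

theorem Fr.rr (f : Fr P X Y R T) (k : Four T) (n : ¬ R ≤ Xo R T) : GDh X R (Xo R T) R := by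
  obtain ⟨r, mr, nr, l, h⟩ := f.rb n
  have q := f.r2 h mr nr l
  have i4 : ∀ ρ ∈ R, ρ ∉ Xo R T → r⁻¹ * ρ ∈ Xo R T := fun ρ m j => (f.in4 h k mr nr l m).resolve_left j
  have c : R ≤ 𝐍 (Xo R T) ⊓ 𝐂 (R ⊓ 𝐂 T) := fun ρ m => by
    have a : Xo R T ≤ 𝐍 (Xo R T) ⊓ 𝐂 (R ⊓ 𝐂 T) := le_inf (le_norm_self _) (h.cu h.e)
    by_cases j : ρ ∈ Xo R T
    · exact a j
    · simpa using mul_mem (mem_inf.2 ⟨h.n, f.rcu h q⟩) (a (i4 ρ m j))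
  have e : ∀ ρ : G, ρ * ρ = r * r * (r⁻¹ * (r⁻¹ * ρ) * r * (r * (r⁻¹ * (r⁻¹ * ρ) * r) * r⁻¹)) := fun ρ => by group
  have r4 := f.fixz h k mr nr c (j := 2) (pow_two (r * r) ▸ h.sq _ q) fun ρ m j => by
    have := h.psi q (conj_mem_of_norm' h.n (i4 ρ m j))
    rw [e ρ, (Commute.symm (h.c q this)).mul_pow, pow_two (_ * (_ * r⁻¹)), h.eu.sq2 this, mul_one]
  have q' := h.d2 _ q (pow_two (r * r) ▸ r4)
  have iv := h.rinv q' (f.rcu h q)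
  have e2 : ∀ ρ ∈ R, ρ ∉ Xo R T → ρ * ρ = r * r := fun ρ m j => by
    rw [e ρ, iv _ (conj_mem_of_norm' h.n (i4 ρ m j)), mul_inv_cancel, mul_one]
  have r2 := f.fixz h k mr nr c (j := 1) (by rwa [pow_one]) fun ρ m j => by rw [e2 ρ m j]
  have out : ∀ ρ ∈ R, ρ ∉ Xo R T → ρ * ρ = 1 := fun ρ m j => by rw [e2 ρ m j, ← r2, pow_one]
  refine ⟨f.r, f.r.pi, le_rfl, norm_of_le f.r.le, inf_le_left, iv.abel, (h.four.2 k).mono h.le, n,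
    fun x i y j a b => Fr.mul2 h q (i4 x i a) (i4 y j b), out, fun v i j => cent_symm (c.trans inf_le_right) (h.d2 v i j),
    fun x i a v j b => ?_⟩
  obtain ⟨y, m, rfl⟩ := f.sqr h (h.d2 v j b)
  have := out _ (mul_mem i m.1) fun z => a (by simpa using mul_mem z (inv_mem m))
  refine ⟨y⁻¹, inv_mem (mem_inf.1 m).1, ?_⟩
  rw [mul_eq_one_iff_eq_inv, mul_inv_rev, inv_eq_of_mul_eq_one_left (out x i a)] at this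
  rw [← this, inv_inv, mul_assoc]

theorem Fr.cls (f : Fr P X Y R T) (k : Four T) (n : ¬ R ≤ 𝐂 T) :
    (Abelem 2 R ∧ R ≤ Xo R T) ∨ (∃ A S, GDh X R A S) ∨ TC R T := by
  by_cases l : R ≤ Xo R T
  swap
  · exact .inr (.inl ⟨_, _, f.rr k l⟩)
  by_cases e : Abelem 2 T
  · exact (f.dich n e).imp (fun z => ⟨el_of_sq fun x m => z x (l m), l⟩) fun z => .inr ⟨l, fun x m => z x (l m)⟩
  refine .inr (or_iff_not_imp_right.2 fun z => ?_)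
  have h := f.bx n
  obtain ⟨x, m, xx, j⟩ : ∃ x ∈ R, x * x = 1 ∧ x ∉ R ⊓ 𝐂 T := by_contra fun j => z ⟨l, fun v i q => by_contra fun c =>
    j ⟨v, i, q, fun i => c i.2⟩⟩
  have cv : ∀ v ∈ R ⊓ 𝐂 T, v * v = 1 → ∀ y ∈ R, y * v = v * y := fun v i q y a => by
    by_cases b : y ∈ R ⊓ 𝐂 T
    · exact h.aU.mul_comm b i
    · exact mul_inv_eq_iff_eq_mul.1 ((h.inv y (l a) b v i).trans (inv_eq_of_mul_eq_one_left q))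
  refine ⟨R ⊓ 𝐂 T, T ⊔ R, f.r, f.pi, le_sup_right, sup_le f.nx (norm_of_le f.r.le), inf_le_left, h.aU, h.four.2 k,
    fun i => n (i.trans inf_le_right), fun x i y j => h.idx e x (l i) y (l j), fun y i c => ?_,
    fun v i q => cent_sup T R ▸ ⟨i.2, cv v i q⟩, fun y i c v a q => ?_⟩
  · have := h.inv x (l m) j _ (h.idx e x (l m) y (l i) j c)
    rw [← mul_assoc, xx, one_mul, mul_inv_rev, mul_left_inj] at this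
    exact mul_eq_one_iff_eq_inv.2 this
  · obtain ⟨t, b, z⟩ := h.sur y (l i) c v a
    exact ⟨t⁻¹, mem_sup_left (inv_mem b), by rw [cv v a q y i, ← inv_mul_cancel_left t v, ← z]; group⟩

end CF.Te
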