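/-
Tightly embedded subgroups: frames of rank one.
-/
import Cfsg.Agent.Te.BX
import Cfsg.Agent.GW.Cent4
set_option autoImplicit false
set_option linter.unusedSectionVars false

namespace CF.Te
open Subgroup Cfsg CF.BG CF.Sig CF.GW CF.Ab2 CF.CT

universe u
variable {G : Type u} [Group G] [Finite G]
variable {A P R T X Y : Subgroup G} {a : G}

theorem four_of_el (e : Abelem 2 A) (c : 2 < ♯A) : Four A := by
  obtain ⟨a, ha, i⟩ := ex_iv' e.pi fun z => by simp [z] at c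
  obtain ⟨b, hb, nb⟩ := SetLike.not_le_iff_exists.1 fun l : A ≤ zpowers a => c.not_ge (i.card ▸ card_le l)
  exact ⟨a, ha, b, hb, i, .mk' (fun j => nb (j ▸ one_mem _)) (e.sq2 hb), e.abel.mul_comm ha hb, fun j => nb (j ▸ mem_zpowers a)⟩
theorem cyc_of_four (a : Abel A) (p : P2 A) (n : ¬ Four A) : Cyc A := by_contra fun c => by
  obtain ⟨q, B, h⟩ := a.exists_elem_two c
  have n' : B ≠ ⊥ := h.ne_bot
  obtain rfl : q = 2 := h.ab.pi.mem_of_ne_bot n' (p.le h.le)
  exact n ((four_of_el h.ab (by rw [h.card]; omega)).mono h.le)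

theorem Fr.one (f : Fr P X Y R T) (n : ¬ Four T) : ¬ Four R ∨ DC R := by
  by_cases c : R ≤ 𝐂 T
  · obtain ⟨g, rfl⟩ := f.x.symm.trans f.y
    exact .inl fun k => n (((k.mono f.r.le).act g).syl (f.full c))
  have h := f.bx c
  refine or_iff_not_imp_left.2 fun k => ?_
  obtain ⟨a, ha, b, hb, fp⟩ := not_not.1 k
  by_cases e : Abelem 2 T
  · obtain ⟨t, ht, i⟩ := ex_iv' e.pi f.t1
    have c2 : ♯T = 2 := le_antisymm (not_lt.1 fun j => n (four_of_el e j)) (one_lt_card.2 f.t1)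
    have e2 : zpowers t = T := eq_of_card_eq (zpowers_le.2 ht) (i.card.trans c2.symm)
    have dj : T ⊓ R = ⊥ := eq_bot_mono f.dj (inf_le_inf_left T f.r.le)
    obtain ⟨m, x, y, -, d⟩ | ⟨m, x, y, d⟩ | d := two_subgroup_cases_of_card_centralizer f.pi.isPGroup (mem_sup_left ht) i (by
      rw [← cent_zpowers, e2, sup_inf_left e.abel (.inl f.n), card_sup_of_inf_bot (.inl (norm_of_cent f.tu))
        (eq_bot_mono dj (inf_le_inf_left T inf_le_left)), f.card, c2])
    · exact (dc_of_dh d).mono le_sup_right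
    · have nr : R ⊴ T ⊔ R := normalIn_sup_right f.n
      have y0 : ∀ a ∈ R, Iv a → a = x _ ∨ y 0 ∈ R := fun a m i =>
        (d.invol_isConj (mem_sup_right m) i).imp_right fun ⟨s, j, e⟩ => e ▸ nr.conj_mem j m
      obtain rfl | ⟨s, j, z⟩ := d.invol_isConj (mem_sup_left ht) i
      · exact (c fun r m => by rw [← e2, cent_zpowers]; exact mem_cent1.2 (d.commute_zh (mem_sup_right m))).elim
      · have := nr.conj_mem' j (z ▸ (y0 a ha fp.l).elim (fun j => (y0 b hb fp.r).resolve_left fun j' => fp.ne (j.trans j'.symm)) id)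
        exact (i.ne_one (eq_one_of_mem_bot dj ⟨ht, by simpa [mul_assoc] using this⟩)).elim
    · rw [card_sup_of_inf_bot (.inl f.n) dj, c2] at d
      have := Four.card ⟨a, ha, b, hb, fp⟩
      omega
  have l := f.xo e
  obtain ⟨σ, z⟩ := (cyc_of_four h.aU f.r.pi.inf_left (mt h.four.1 n)).exists_gen
  obtain ⟨x, m, j, xx⟩ : ∃ x ∈ R, x ∉ R ⊓ 𝐂 T ∧ x * x = 1 := by_contra fun j => by
    push Not at j
    exact n (h.four.1 ⟨a, by_contra fun i => j a ha i fp.l.sq, b, by_contra fun i => j b hb i fp.r.sq, fp⟩)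
  have ms : σ ∈ R ⊓ 𝐂 T := z ▸ mem_zpowers σ
  refine ⟨σ, ms.1, fun y i k => ⟨?_, h.inv y (l i) (z ▸ k) σ ms⟩, z ▸ fun x i y j => h.idx e x (l i) y (l j)⟩
  have := h.inv x (l m) j _ (h.idx e x (l m) y (l i) j (z ▸ k))
  rw [← mul_assoc, xx, one_mul, mul_inv_rev, mul_left_inj] at this
  exact mul_eq_one_iff_eq_inv.2 this

end CF.Te
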