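/-
Chamber systems of points.
-/
import Cfsg.Agent.Te.B0
set_option autoImplicit false
set_option linter.unusedSectionVars false

namespace CF.Te
open Subgroup Cfsg CF.BG CF.Sig CF.GW CF.Ab2 CF.CT

universe u
variable {G : Type u} [Group G] [Finite G]
variable {A B H M P S S' U X : Subgroup G} {g n t u : G} {Ω : Subgroup G → Prop} {Φ : Set (Subgroup G)}

theorem mem_img : X ∈ cj g '' Φ ↔ cj g⁻¹ X ∈ Φ :=
  ⟨fun ⟨Y, h, e⟩ => by rwa [← e, cj_inv_cj], fun h => ⟨_, h, cj_cj_inv g X⟩⟩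
theorem cj_mem_img : cj g X ∈ cj g '' Φ ↔ X ∈ Φ := by rw [mem_img, cj_inv_cj]
theorem mem_Fx : g ∈ Fx Φ ↔ ∀ X ∈ Φ, g ∈ 𝐍 X := by simp only [Fx, mem_iInf]
theorem mem_Sb' : g ∈ Sb Φ ↔ ∀ X, X ∈ Φ ↔ cj g X ∈ Φ := Iff.rfl
theorem mem_Sb : g ∈ Sb Φ ↔ cj g '' Φ = Φ :=
  ⟨fun h => Set.ext fun X => mem_img.trans (inv_mem h X).symm, fun h X => by
    rw [← cj_mem_img (g := g), h]⟩
theorem Fx_le : Fx Φ ≤ Sb Φ := fun _ h X =>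
  ⟨fun m => (cj_of_norm (mem_Fx.1 h X m)).symm ▸ m, fun m => cj_inj.1 (cj_of_norm (mem_Fx.1 h _ m)) ▸ m⟩
theorem Fx_le_norm (m : X ∈ Φ) : Fx Φ ≤ 𝐍 X := fun _ h => mem_Fx.1 h X m
theorem cj_Fx : cj g (Fx Φ) = Fx (cj g '' Φ) := by
  ext x
  simp only [mem_cj, mem_Fx, Set.forall_mem_image, ← cj_norm]
theorem cj_Sb : cj g (Sb Φ) = Sb (cj g '' Φ) := by
  ext x
  simp only [mem_cj, mem_Sb', mem_img, ← cj_cj]
  exact ⟨fun h X => by simpa using h (cj g⁻¹ X), fun h X => by simpa using h (cj g X)⟩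
theorem cj_biSup (f : Subgroup G → Subgroup G) : cj g (⨆ X ∈ Φ, f X) = ⨆ X ∈ Φ, cj g (f X) := by
  simp only [cj_def, Subgroup.map_iSup]
theorem cj_Ps : cj g (Ps Φ) = Ps (cj g '' Φ) := by
  simp only [Ps, cj_biSup, iSup_image, cj_inf, cj_Fx]
theorem cj_Ww : cj g (Ww Φ S) = Ww (cj g '' Φ) (cj g S) := by
  simp only [Ww, cj_biSup, iSup_image, cj_inf]
theorem cj_Iu : cj g '' Iu Φ u = Iu (cj g '' Φ) (g * u * g⁻¹) := by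
  ext X
  simp only [mem_img, Iu, Set.mem_ofPred_eq, ← CT.cj_CZ, mem_cj_inv]
theorem norm_Fx : Sb Φ ≤ 𝐍 (Fx Φ) := fun _ h => cj_eq_self.1 (by rw [cj_Fx, mem_Sb.1 h])
theorem norm_Ps : Sb Φ ≤ 𝐍 (Ps Φ) := fun _ h => cj_eq_self.1 (by rw [cj_Ps, mem_Sb.1 h])
theorem Ps_le : Ps Φ ≤ Fx Φ := iSup₂_le fun _ _ => inf_le_right
theorem le_Ps (m : X ∈ Φ) : X ⊓ Fx Φ ≤ Ps Φ := le_iSup₂ (f := fun X (_ : X ∈ Φ) => X ⊓ Fx Φ) X m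
theorem le_Ww (m : X ∈ Φ) : S ⊓ X ≤ Ww Φ S := le_iSup₂ (f := fun X (_ : X ∈ Φ) => S ⊓ X) X m
theorem Ww_le : Ww Φ S ≤ S := iSup₂_le fun _ _ => inf_le_left
theorem Sg.mono (l : S ≤ S') : Sg Ω S ⊆ Sg Ω S' := fun _ ⟨o, t, m, k⟩ => ⟨o, t, l m, k⟩

theorem syl_sup (hS : Syl 2 S H) (a : A ⊴ H) (b : B ⊴ H) : S ⊓ (A ⊔ B) = S ⊓ A ⊔ S ⊓ B := by
  refine le_antisymm ?_ (sup_le (inf_le_inf_left _ le_sup_left) (inf_le_inf_left _ le_sup_right))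
  have n := b.le.trans a.norm
  have e := ((hS.inf_normal b).qt n).eq_of_le' ((hS.qt a.norm).inf_normal (b.qt A))
    (le_inf (qt_mono _ inf_le_left) (qt_mono _ inf_le_right))
  rw [← BG.inf_sup_right inf_le_left (.inr (inf_le_right.trans n))]
  refine le_inf inf_le_left ((qt_le_qt_iff (inf_le_left.trans (hS.le.trans a.norm)) (inf_le_right.trans n)).1 ?_)
  rw [e, ← qt_sup_left n]
  exact le_inf (qt_mono _ inf_le_left) (qt_mono _ inf_le_right)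
/-- a Sylow subgroup of a product of normal subgroups -/
theorem syl_iSup {N : Subgroup G → Subgroup G} (hS : Syl 2 S H) (n : ∀ i ∈ Φ, N i ⊴ H) :
    S ⊓ (⨆ i ∈ Φ, N i) = ⨆ i ∈ Φ, S ⊓ N i := by
  induction Φ, Φ.toFinite using Set.Finite.induction_on with
  | empty => simp
  | insert _ _ ih =>
    rw [iSup_insert, iSup_insert, ← ih fun i m => n i (.inr m)]
    exact syl_sup hS (n _ (.inl rfl)) ⟨iSup₂_le fun i m => (n i (.inr m)).le,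
      norm_iSup fun i => norm_iSup fun m => (n i (.inr m)).norm⟩

namespace Ch
variable (h : Ch P M Ω)
include h

theorem cjs (hg : g ∈ M) : Sg Ω (cj g S) = cj g '' Sg Ω S := Set.ext fun X => mem_img.trans ⟨fun ⟨o, _, m, i, k⟩ =>
  ⟨by simpa using h.act o hg, _, conj_mem_cj.2 m, i.conj g, mem_cj_inv.1 k⟩, fun ⟨o, _, m, i, k⟩ =>
    ⟨h.act o (inv_mem hg), _, mem_cj.1 m, i.conj' g, by simpa [mem_cj_inv, mul_assoc] using k⟩⟩ |>.symm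
theorem sb (l : S ≤ M) : S ≤ Sb (Sg Ω S) := fun _ m => mem_Sb.2 (by rw [← h.cjs (l m), cj_of_mem m])
theorem fx (l : S ≤ M) (p : P2 S) (o : Ω X) (i : Iv t) (a : t ∈ S) (b : t ∈ X) : t ∈ Fx (Sg Ω S) :=
  mem_Fx.2 fun Y ⟨o', _, m, j, k⟩ => by
    by_cases e : X = Y
    · exact e ▸ le_norm_self X b
    · exact h.ti.cen (h.pt o') j.piElt j.ne_one k (mem_cent1.2 (h.dc o o' e i j b k p l a m))
theorem card (a : Syl 2 S M) (b : Syl 2 S' M) : (Sg Ω S).ncard = (Sg Ω S').ncard := by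
  obtain ⟨g, hg, rfl⟩ := a.syl_conj b
  rw [h.cjs hg, Set.ncard_image_of_injective _ fun _ _ => cj_inj.1]
theorem eq (a : Syl 2 S M) (b : Syl 2 S' M) (l : Sg Ω S ⊆ Sg Ω S') : Sg Ω S = Sg Ω S' :=
  Set.eq_of_subset_of_ncard_le l (h.card a b).ge
theorem ex (a : Syl 2 S M) (p : P2 B) (l : B ≤ M ⊓ Sb (Sg Ω S)) :
    ∃ g ∈ M ⊓ Sb (Sg Ω S), B ≤ cj g S ∧ Sg Ω (cj g S) = Sg Ω S := by
  obtain ⟨g, hg, e⟩ := (a.of_le (le_inf a.le (h.sb a.le)) inf_le_left).syl_le_cj l p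
  exact ⟨g, hg, e, by rw [h.cjs hg.1, mem_Sb.1 hg.2]⟩
theorem mem (a : Syl 2 S M) (o : Ω X) (i : Iv t) (b : t ∈ X) (l : t ∈ M ⊓ Sb (Sg Ω S)) : X ∈ Sg Ω S := by
  obtain ⟨g, -, e, k⟩ := h.ex a i.piGrp (zpowers_le.2 l)
  exact k ▸ ⟨o, t, zpowers_le.1 e, i, b⟩
omit h in
theorem fix (p : P2 S) (l : U ≤ S) (m : X ∈ Sg Ω S) (n : U ≤ 𝐍 X) : ∃ t ∈ S ⊓ X, Iv t ∧ t ∈ 𝐂 U :=
  let ⟨_, _, a, i, b⟩ := m
  let ⟨t, k, j, c, _⟩ := ex_fix p.inf_left (ne_bot_of_mem (mem_inf.2 ⟨a, b⟩) i.ne_one) (p.le l)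
    (norm_inf (norm_of_le l) n)
  ⟨t, k, j, c⟩
theorem exZ (a : Syl 2 S M) (p : P2 U) (l : U ≤ M ⊓ Fx (Sg Ω S)) :
    ∃ Z ≤ M ⊓ 𝐂 U ⊓ Fx (Sg Ω S), P2 Z ∧ Sg Ω S ⊆ Sg Ω Z := by
  obtain ⟨g, hg, e, k⟩ := h.ex a p (l.trans (inf_le_inf_left _ Fx_le))
  have s := a.cj_of_mem hg.1
  refine ⟨cj g S ⊓ 𝐂 U ⊓ Fx (Sg Ω S), inf_le_inf_right _ (inf_le_inf_right _ s.le), s.pi.inf_left.inf_left,
    fun X m => ?_⟩
  obtain ⟨t, j, i, c⟩ := fix s.pi e (k ▸ m) (l.trans (inf_le_right.trans (Fx_le_norm m)))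
  exact ⟨m.1, t, ⟨⟨j.1, c⟩, k ▸ h.fx s.le s.pi m.1 i j.1 j.2⟩, i, j.2⟩
theorem tr (a : Syl 2 S' M) (p : P2 U) (l : U ≤ M ⊓ Fx (Sg Ω S')) (hH : H ≤ M)
    (c : M ⊓ 𝐂 U ⊓ Fx (Sg Ω S') ≤ H) (q : P2 B) (b : B ≤ H) :
    ∃ k ∈ H, ∃ S'', Syl 2 S'' M ∧ B ≤ S'' ∧ Sg Ω S'' = cj k '' Sg Ω S' := by
  obtain ⟨Z, z, pZ, m⟩ := h.exZ a p l
  obtain ⟨T, hT, lT⟩ := exists_syl_le b q
  obtain ⟨k, hk, e⟩ := hT.syl_cj_le (z.trans c) pZ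
  obtain ⟨S'', s, j⟩ := exists_syl_le (hT.le.trans hH) hT.pi
  refine ⟨k, hk, S'', s, lT.trans j, ?_⟩
  rw [← h.cjs (hH hk), h.eq (a.cj_of_mem (hH hk)) s]
  rw [h.cjs (hH hk)]
  exact (Set.image_mono m).trans ((h.cjs (hH hk)).ge.trans (Sg.mono (e.trans j)))
theorem tr2 (a : Syl 2 S M) (a' : Syl 2 S' M) (p : P2 U) (l : U ≤ M ⊓ Fx (Sg Ω S))
    (l' : U ≤ Fx (Sg Ω S')) (hH : H ≤ M) (c : M ⊓ 𝐂 U ⊓ Fx (Sg Ω S) ≤ H) (c' : M ⊓ 𝐂 U ⊓ Fx (Sg Ω S') ≤ H) :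
    ∃ k ∈ H, Sg Ω S = cj k '' Sg Ω S' := by
  obtain ⟨Z, z, pZ, m⟩ := h.exZ a p l
  obtain ⟨k, hk, S'', s, j, e⟩ := h.tr a' p (le_inf (l.trans inf_le_left) l') hH c' pZ (z.trans c)
  exact ⟨k, hk, (h.eq a s (m.trans (Sg.mono j))).trans e⟩
/-- the F-trick -/
theorem ft (a : Syl 2 S' M) (hu : u ∈ M ⊓ Fx (Sg Ω S')) (u2 : u * u = 1) (o : Ω X) (i : Iv n)
    (hn : n ∈ X ⊓ M) (c : n * (u * n * u) = u * n * u * n) (f : n * (u * n * u) ∈ Fx (Sg Ω S')) : u ∈ 𝐍 X := by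
  have cn : n * (n * (u * n * u)) * n⁻¹ = n * (u * n * u) := by
    rw [c, ← mul_assoc, mul_inv_cancel_right, c]
  have cu : u * (n * (u * n * u)) = n * (u * n * u) * u := by
    rw [show u * (n * (u * n * u)) = u * n * u * n * u by group, c]
  have f2 : (n * (u * n * u)) ^ 2 = 1 := by
    rw [sq]; nth_rw 1 [c]
    simp only [mul_assoc]
    rw [← mul_assoc n n, i.sq, one_mul, ← mul_assoc u u, u2, one_mul, ← mul_assoc n n, i.sq, one_mul, u2]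
  have l : V4 u (n * (u * n * u)) ≤ M ⊓ Fx (Sg Ω S') :=
    V4_le.2 ⟨hu, M.mul_mem hn.2 (M.mul_mem (M.mul_mem hu.1 hn.2) hu.1), f⟩
  obtain ⟨k, hk, S'', -, j, e⟩ := h.tr (H := M ⊓ 𝐍 (V4 u (n * (u * n * u)))) a
    ((piElt_of_pow_eq_one p2 (by rwa [sq])).zpowers.sup (piElt_of_pow_eq_one p2 f2).zpowers (.inl (norm_of_cent (by
      rw [cent_zpowers, zpowers_le]; exact mem_cent1.2 cu)))) l inf_le_left
    (inf_le_left.trans (inf_le_inf_left _ (cent_le_norm _))) i.piGrp (zpowers_le.2 ⟨hn.2, mem_norm_of_cj_le (by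
      rw [cj_V4, cn, V4_le, show n * u * n⁻¹ = n * (u * n * u) * u by
        simp only [mul_assoc, u2, mul_one, i.inv_eq]]
      exact ⟨mul_mem (right_mem_V4 _ _) (left_mem_V4 _ _), right_mem_V4 _ _⟩)⟩)
  refine Fx_le_norm (e.le ⟨o, n, zpowers_le.1 j, i, hn.1⟩) ?_
  rw [← cj_Fx]
  exact cj_mono k (l.trans inf_le_right) ((cj_of_norm hk.2).ge (left_mem_V4 _ _))
/-- moving the second chamber next to `C_S(u)` -/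
theorem cs (a : Syl 2 S M) (a' : Syl 2 S' M) (hu : u ∈ S) (l : u ∈ Fx (Sg Ω S')) :
    ∃ k ∈ M ⊓ 𝐂₁ u, ∃ S'', Syl 2 S'' M ∧ S ⊓ 𝐂₁ u ≤ S'' ∧ Sg Ω S'' = cj k '' Sg Ω S' ∧
      ∀ X ∈ Sg Ω S, u ∈ 𝐍 X → X ∈ Sg Ω S'' := by
  obtain ⟨k, hk, S'', s, j, e⟩ := h.tr (H := M ⊓ 𝐂₁ u) a' (a.pi.elt hu).zpowers (zpowers_le.2 ⟨a.le hu, l⟩)
    inf_le_left (cent_zpowers u ▸ inf_le_left) a.pi.inf_left (inf_le_inf_right _ a.le)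
  refine ⟨k, hk, S'', s, j, e, fun X m n => ?_⟩
  obtain ⟨t, b, i, c⟩ := fix a.pi (zpowers_le.2 hu) m (zpowers_le.2 n)
  exact ⟨m.1, t, j ⟨b.1, cent_zpowers u ▸ c⟩, i, b.2⟩

end Ch

end CF.Te
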