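import Cfsg.Agent.Te.WF
set_option autoImplicit false
set_option linter.unusedSectionVars false

/-! World F with centreless points: no movers. -/

namespace CF.Te
open Subgroup Cfsg CF.BG CF.Sig CF.GW CF.Ab2 CF.CT
open scoped commutatorElement

universe u
variable {G : Type u} [Group G] [Finite G]
variable {P S S' X Y : Subgroup G} {a b f g k n u : G} {Φ : Set (Subgroup G)}

theorem O2.z1 (o : O2 P) : Z1 P := fun r m i c => by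
  have l := zpowers_le.2 m
  refine ne_bot_of_mem (mem_zpowers r) i.ne_one (o _ i.piGrp l ⟨sup_le l (O_le _ _), norm_of_comm_le (comm_sup_le
    ((comm_CZ (zpowers_le.2 c)).trans le_sup_right) ((comm_le_left (O_normal _ _).norm).trans le_sup_right)
    (norm_of_le le_sup_left) (norm_of_le le_sup_right))⟩)

theorem Z1.conj (z : Z1 P) (c : Conj P X) : Z1 X := by
  obtain ⟨g, rfl⟩ := c
  intro r m i e
  rw [← cj_CZ] at e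
  exact z _ (mem_cj.1 m) (i.conj' g) (mem_cj.1 e)

theorem Z1.one (z : Z1 X) (p : E2 b) (m : b ∈ X) (c : b ∈ CZ 2 X) : b = 1 := by_contra fun n =>
  let ⟨_, i, j⟩ := ex_iv p n
  z _ (zpowers_le.2 m i) j (zpowers_le.2 c i)

theorem WF.one (h : WF P) (z : Z1 P) (a : Syl 2 S ⊤) (l : Φ ⊆ Sg (Conj P) S) (hu : u ∈ Ww Φ S)
    (c : ∀ X ∈ Φ, u ∈ CZ 2 X) : u = 1 := by
  induction Φ, Φ.toFinite using Set.Finite.induction_on with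
  | empty => simpa [Ww] using hu
  | @insert X Φ n _ i =>
    have m := l (Set.mem_insert X Φ)
    obtain ⟨b, j, p, q⟩ := h.dec a l m hu
    obtain rfl := (z.conj m.1).one (a.pi.elt j.1) j.2 (by simpa using mul_mem (c X (Set.mem_insert _ _)) (inv_mem q.2))
    rw [Set.insert_diff_self_of_notMem n, inv_one, one_mul] at p
    exact i ((Set.subset_insert _ _).trans l) p fun Y m => c Y (Set.mem_insert_of_mem _ m)

theorem mem_Iu : X ∈ Iu Φ u ↔ X ∈ Φ ∧ u ∉ CZ 2 X := Iff.rfl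

theorem Sb.mem (a : g ∈ Sb Φ) (m : X ∈ Φ) : cj g X ∈ Φ := (a X).1 m

theorem Iu.act (a : g ∈ Sb Φ) (c : g ∈ 𝐂₁ u) (m : X ∈ Iu Φ u) : cj g X ∈ Iu Φ u :=
  ⟨Sb.mem a m.1, by rw [← cj_CZ, ← conj_eq_of_comm (mem_cent1.1 c), conj_mem_cj]; exact m.2⟩

theorem mem_Ps (m : X ∈ Φ) (a : b ∈ X) (f : b ∈ Fx Φ) : b ∈ Ps Φ := le_iSup₂ (f := fun X (_ : X ∈ Φ) => X ⊓ Fx Φ) X m ⟨a, f⟩

theorem Ps.cen (c : k ∈ 𝐂₁ u) (m : u ∈ Ps Φ) : u ∈ Ps (cj k '' Φ) := by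
  rw [← cj_Ps, ← conj_eq_of_comm (mem_cent1.1 c), conj_mem_cj]; exact m

namespace E1
/-- the points moved by `u` -/
def Mv (Φ : Set (Subgroup G)) (u : G) : Set (Subgroup G) := {X ∈ Φ | u ∉ 𝐍 X}

/-- `u` is a product of two commuting involutions in different points -/
def Fm (Φ : Set (Subgroup G)) (u : G) : Prop :=
  ∃ X ∈ Φ, ∃ Y ∈ Φ, X ≠ Y ∧ ∃ a ∈ X ⊓ Fx Φ, ∃ b ∈ Y ⊓ Fx Φ, Iv a ∧ Iv b ∧ a * b = u ∧ b * a = u

theorem Fm.ps (h : Fm Φ u) : u ∈ Ps Φ :=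
  let ⟨_, x, _, y, _, _, a, _, b, _, _, e, _⟩ := h
  e ▸ mul_mem (mem_Ps x a.1 a.2) (mem_Ps y b.1 b.2)

theorem Fm.cen (h : Fm Φ u) (c : k ∈ 𝐂₁ u) : Fm (cj k '' Φ) u := by
  obtain ⟨X, x, Y, y, n, a, p, b, q, i, j, e, e'⟩ := h
  refine ⟨_, ⟨X, x, rfl⟩, _, ⟨Y, y, rfl⟩, fun z => n (by simpa using congrArg (cj k⁻¹) z), _, ?_, _, ?_, i.conj k, j.conj k, ?_, ?_⟩
  · rw [← cj_Fx, ← cj_inf, conj_mem_cj]; exact p
  · rw [← cj_Fx, ← cj_inf, conj_mem_cj]; exact q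
  · rw [conj_mul, e, conj_eq_of_comm (mem_cent1.1 c)]
  · rw [conj_mul, e', conj_eq_of_comm (mem_cent1.1 c)]

theorem st (h : WF P) (a : Syl 2 S ⊤) (a' : Syl 2 S' ⊤) (i : Iv u) (hu : u ∈ S) (m : u ∈ Ps (Sg (Conj P) S'))
    (ih : ∀ v T T', Syl 2 T ⊤ → Syl 2 T' ⊤ → Iv v → v ∈ T → v ∈ Ps (Sg (Conj P) T') →
      (Mv (Sg (Conj P) T) v).ncard < (Mv (Sg (Conj P) S) u).ncard → v ∈ Fx (Sg (Conj P) T)) :
    ∃ k ∈ 𝐂₁ u, ∃ T, Syl 2 T ⊤ ∧ Sg (Conj P) T = cj k '' Sg (Conj P) S' ∧ ∀ X ∈ Mv (Sg (Conj P) S) u, ∀ n ∈ S ⊓ X, Iv n →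
      Iv (n * (u * n * u)) ∧ n * (u * n * u) ∈ T ⊓ 𝐂₁ u ∧ Fm (Sg (Conj P) S) (n * (u * n * u)) ∧ n * (u * n * u) ∉ Fx (Sg (Conj P) T) ∧
      (Mv (Sg (Conj P) T) (n * (u * n * u))).ncard ≤ (Mv (Sg (Conj P) S) u).ncard ∧ (∀ r ∈ S ⊓ X, r * (u * n * u) = u * n * u * r) ∧
      ∀ Y ∈ Sg (Conj P) T, n * (u * n * u) ∈ 𝐍 Y → Y ∈ Sg (Conj P) S ∧ u ∈ 𝐍 Y := by
  obtain ⟨k, hk, T, b, l, e, q⟩ := h.ch.cs a a' hu (Ps_le m)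
  refine ⟨k, hk.2, T, b, e, fun X x n p j => ?_⟩
  have x' := Sb.mem (h.ch.sb le_top hu) x.1
  have ne : X ≠ cj u X := fun z => x.2 (cj_eq_self.1 z.symm)
  have p' : u * n * u ∈ S ⊓ cj u X := ⟨mul_mem (mul_mem hu p.1) hu, by simpa [mem_cj, i.inv_eq, mul_assoc, i.sq, ← mul_assoc u u] using p.2⟩
  have j' : Iv (u * n * u) := by simpa [i.inv_eq] using j.conj u
  have cm : ∀ r ∈ S ⊓ X, r * (u * n * u) = u * n * u * r := (h.cm a x.1 x' ne p').1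
  have iv := j.mul j' (cm n p) fun z => ne (h.ti.eq x.1.1 x'.1 j.piElt j.ne_one p.2 (z ▸ p'.2))
  have fm : Fm (Sg (Conj P) S) (n * (u * n * u)) :=
    ⟨X, x.1, _, x', ne, n, ⟨p.2, (h.syl a x.1).2 p⟩, _, ⟨p'.2, (h.syl a x').2 p'⟩, j, j', rfl, (cm n p).symm⟩
  have ts : n * (u * n * u) ∈ S ⊓ 𝐂₁ u := ⟨mul_mem p.1 p'.1, mem_cent1.2 (by
    conv_rhs => rw [cm n p]
    simp [mul_assoc, i.sq, ← mul_assoc u u])⟩
  have nf : n * (u * n * u) ∉ Fx (Sg (Conj P) T) := fun z =>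
    x.2 (h.ch.ft b ⟨mem_top _, e ▸ Ps_le (Ps.cen hk.2 m)⟩ i.sq x.1.1 j ⟨p.2, mem_top _⟩ (cm n p) z)
  have ss : Mv (Sg (Conj P) T) (n * (u * n * u)) ⊆ Sg (Conj P) T \ {Y ∈ Sg (Conj P) S | u ∈ 𝐍 Y} :=
    fun Y y => ⟨y.1, fun z => y.2 (mem_Fx.1 (Ps_le fm.ps) Y z.1)⟩
  have cd : (Sg (Conj P) T \ {Y ∈ Sg (Conj P) S | u ∈ 𝐍 Y}).ncard = (Mv (Sg (Conj P) S) u).ncard := by
    rw [Set.ncard_diff fun Y y => q Y y.1 y.2, h.ch.card b a, ← Set.ncard_diff (Set.sep_subset _ _)]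
    congr 1
    ext Y
    simp +contextual [Mv]
  refine ⟨iv, ⟨l ts, ts.2⟩, fm, nf, (Set.ncard_le_ncard ss).trans_eq cd, cm, fun Y y z => by_contra fun w => ?_⟩
  have := Set.eq_of_subset_of_ncard_le ss (cd.trans_le (not_lt.1 fun w => nf (ih _ T S b a iv (l ts) fm.ps w)))
  exact (this.ge ⟨y, w⟩).2 z

theorem fx (h : WF P) (z : Z1 P) (N : ℕ) : ∀ u S S', Syl 2 S ⊤ → Syl 2 S' ⊤ → Iv u → u ∈ S → u ∈ Ps (Sg (Conj P) S') →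
    (Mv (Sg (Conj P) S) u).ncard = N → u ∈ Fx (Sg (Conj P) S) := by
  induction N using Nat.strong_induction_on with
  | _ N ih =>
  have ex : ∀ {u S}, Syl 2 S ⊤ → u ∉ Fx (Sg (Conj P) S) → ∃ X ∈ Mv (Sg (Conj P) S) u, ∃ a ∈ S ⊓ X, ∃ b ∈ S ⊓ X, FP a b :=
    fun {u S} a n => by
      rw [mem_Fx] at n
      push Not at n
      obtain ⟨X, x, n⟩ := n
      exact ⟨X, ⟨x, n⟩, (h.four.conj x.1).syl (h.syl a x).1⟩
  suffices H : ∀ u S S', Syl 2 S ⊤ → Syl 2 S' ⊤ → Iv u → u ∈ S → Fm (Sg (Conj P) S') u → (Mv (Sg (Conj P) S) u).ncard = N →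
      u ∈ Fx (Sg (Conj P) S) by
    intro u S S' a a' i hu m e
    by_contra nf
    obtain ⟨k, -, T, b, -, q⟩ := st h a a' i hu m fun v T T' b b' j hv m l => ih _ (e ▸ l) v T T' b b' j hv m rfl
    obtain ⟨X, x, n, p, _, _, f⟩ := ex a nf
    obtain ⟨q1, q2, q3, q4, q5, -⟩ := q X x n p f.l
    exact q4 ((e ▸ q5).eq_or_lt.elim (H _ T S b a q1 q2.1 q3) fun l => ih _ l _ T S b a q1 q2.1 q3.ps rfl)
  intro u S S' a a' i hu m e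
  by_contra nf
  obtain ⟨k, hk, T, b, s, q⟩ := st h a a' i hu m.ps fun v T T' b b' j hv m l => ih _ (e ▸ l) v T T' b b' j hv m rfl
  obtain ⟨X, x, n, p, r, p', f⟩ := ex a nf
  replace m := s ▸ m.cen hk
  have key : ∀ {Y Z c d}, Y ∈ Sg (Conj P) T → Z ∈ Sg (Conj P) T → Y ≠ Z → c ∈ Y ⊓ Fx (Sg (Conj P) T) → d ∈ Z ⊓ Fx (Sg (Conj P) T) →
      Iv c → Iv d → c * d = u → n ∈ CZ 2 Y := fun {Y Z c d} y y' ne hc hd ic id e => by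
    have cz : ∀ {V W w}, V ∈ Sg (Conj P) T → W ∈ Sg (Conj P) T → V ≠ W → w ∈ W ⊓ Fx (Sg (Conj P) T) → Iv w → w ∈ CZ 2 V :=
      fun v w ne m j => h.cb v.1 w.1 ne m.1 (mem_Fx.1 m.2 _ v) j.piElt
    have yi : Y ∈ Iu (Sg (Conj P) T) u := ⟨y, fun w => z.conj y.1 c hc.1 ic (by
      simpa [← e] using mul_mem w (inv_mem (cz y y' ne hd id)))⟩
    have mv : ∀ {f}, f ∈ T ⊓ 𝐂₁ u → f ∉ 𝐍 Y → cj f Y = Z := fun {f} m w => by_contra fun w' =>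
      have := Iu.act (h.ch.sb le_top m.1) m.2 yi
      this.2 (e ▸ mul_mem (cz this.1 y (fun v => w (cj_eq_self.1 v)) hc ic) (cz this.1 y' w' hd id))
    obtain ⟨-, a1, -, -, -, -, a2⟩ := q X x n p f.l
    obtain ⟨-, b1, -, -, -, b3, b2⟩ := q X x r p' f.r
    obtain ⟨-, -, -, -, -, c3, c2⟩ := q X x _ (mul_mem p p') f.iv
    obtain ⟨v, w⟩ : Y ∈ Sg (Conj P) S ∧ u ∈ 𝐍 Y := by_contra fun w => w (c2 Y y (by
      have := (mv a1 fun v => w (a2 Y y v)).trans (mv b1 fun v => w (b2 Y y v)).symm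
      rw [cj_eq_iff, cj_cj, eq_comm, cj_eq_self, (q X x n p f.l).1.inv_eq] at this
      convert this using 1
      obtain ⟨-, -, -, -, -, a3, -⟩ := q X x n p f.l
      rw [mul_assoc n (u * n * u), ← mul_assoc (u * n * u), ← a3 r p']
      simp [mul_assoc, ← mul_assoc u u, i.sq]))
    exact (h.cm a v x.1 (fun e => x.2 (e ▸ w)) p).2
  obtain ⟨Y, y, Z, y', ne, c, hc, d, hd, ic, id, e, e'⟩ := m
  have k1 := key y y' ne hc hd ic id e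
  have k2 := key y' y ne.symm hd hc id ic e'
  have o : ∀ {V W c d}, V ∈ Sg (Conj P) T → W ∈ Sg (Conj P) T → c ∈ V ⊓ Fx (Sg (Conj P) T) → n ∈ CZ 2 V → n ∈ CZ 2 W →
      d ∈ Fx (Sg (Conj P) T) → d * ⁅n, c⁆ * d⁻¹ ∈ 𝒪 (𝐍 V ⊓ 𝐍 W) := fun {V W c d} v w hc k1 k2 hd =>
    have N : n ∈ 𝐍 V ⊓ 𝐍 W := ⟨CZ_norm _ _ k1, CZ_norm _ _ k2⟩
    have C : c ∈ 𝐍 V ⊓ 𝐍 W := ⟨mem_Fx.1 hc.2 _ v, mem_Fx.1 hc.2 _ w⟩
    (O_normal _ _).conj_mem ⟨mem_Fx.1 hd _ v, mem_Fx.1 hd _ w⟩ (le_O (normalIn_inf_left (inf_le_left.trans (norm_O _ V))) (O_pi _ V).inf_right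
      (mem_inf.2 ⟨mul_mem (mul_mem (mul_mem N C) (inv_mem N)) (inv_mem C), k1.2 c hc.1⟩))
  have := mul_mem (o y y' hc k1 k2 (one_mem _)) (inf_comm (𝐍 Z) (𝐍 Y) ▸ o y' y hd k2 k1 hc.2)
  refine not_mem_of_odd (odd_O _) (q X x n p f.l).1 (by
    convert this using 1
    conv_lhs => rw [← e]; enter [2, 2]; rw [e, ← e']
    simp [commutatorElement_def, mul_assoc, f.l.inv_eq, ic.inv_eq, id.inv_eq, ← mul_assoc n n, ← mul_assoc c c, f.l.sq, ic.sq])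
end E1

/-- no movers -/
theorem WF.nm (h : WF P) (z : Z1 P) (a : Syl 2 S ⊤) (a' : Syl 2 S' ⊤) (i : Iv u) (hu : u ∈ S)
    (m : u ∈ Ps (Sg (Conj P) S')) : u ∈ Ps (Sg (Conj P) S) :=
  h.mv a a' hu m (E1.fx h z _ u S S' a a' i hu m rfl)

end CF.Te
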