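import Cfsg.Agent.Te.E1
set_option autoImplicit false
set_option linter.unusedSectionVars false

/-! World F with centreless points: the support of an involution does not depend on the chamber. -/

namespace CF.Te
open Subgroup Cfsg CF.BG CF.Sig CF.GW CF.Ab2 CF.CT
open scoped commutatorElement

universe u
variable {G : Type u} [Group G] [Finite G]
variable {P B S S' T X Y : Subgroup G} {b c e f g k u v : G} {Φ Ψ : Set (Subgroup G)} {N : ℕ}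

theorem Fx_anti (l : Ψ ⊆ Φ) : Fx Φ ≤ Fx Ψ := fun _ a => mem_Fx.2 fun X x => mem_Fx.1 a X (l x)

theorem Iu_sub : Iu Φ u ⊆ Φ := fun _ x => x.1

theorem Iu.cen (c : k ∈ 𝐂₁ u) : cj k '' Iu Φ u = Iu (cj k '' Φ) u := by rw [cj_Iu, conj_eq_of_comm (mem_cent1.1 c)]

theorem WF.rl (h : WF P) (a : Syl 2 S ⊤) (p : P2 B) (l : B ≤ Sb (Sg (Conj P) S)) :
    ∃ T, Syl 2 T ⊤ ∧ B ≤ T ∧ Sg (Conj P) T = Sg (Conj P) S :=
  let ⟨g, _, q, e⟩ := h.ch.ex a p (le_inf le_top l)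
  ⟨_, cj_top g ▸ a.cj g, q, e⟩

theorem WF.cjs (h : WF P) (a : Syl 2 S ⊤) (g : G) : Syl 2 (cj g S) ⊤ ∧ Sg (Conj P) (cj g S) = cj g '' Sg (Conj P) S :=
  ⟨cj_top g ▸ a.cj g, h.ch.cjs (mem_top g)⟩

theorem WF.tr2 (h : WF P) (a : Syl 2 S ⊤) (a' : Syl 2 S' ⊤) (i : Iv u) (m : u ∈ Ps (Sg (Conj P) S)) (m' : u ∈ Ps (Sg (Conj P) S'))
    (l : Fx (Sg (Conj P) S) ≤ B) (l' : Fx (Sg (Conj P) S') ≤ B) : ∃ k ∈ 𝐂₁ u ⊓ B, Sg (Conj P) S = cj k '' Sg (Conj P) S' :=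
  h.ch.tr2 a a' i.piGrp (le_inf le_top (zpowers_le.2 (Ps_le m))) (zpowers_le.2 (Ps_le m')) le_top
    (inf_le_inf (inf_le_right.trans (cent_zpowers u).le) l) (inf_le_inf (inf_le_right.trans (cent_zpowers u).le) l')

namespace Eb
theorem dih (a : f * f = 1) (d : b * b = 1) : ∃ c ∈ zpowers (f * b), ∃ ζ ∈ zpowers (f * b), E2 ζ ∧ c * b * c⁻¹ = f * ζ := by
  obtain ⟨y, z, hy, hz, p, q, e⟩ := exists_piPart {2} (f * b)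
  obtain ⟨j, o⟩ := eo_iff.2 q
  have c : Commute y z := (abel_zpowers _).mul_comm hy hz
  have s : SemiconjBy f (f * b)⁻¹ (f * b) := by
    simp [SemiconjBy, inv_eq_of_mul_eq_one_right a, inv_eq_of_mul_eq_one_right d, mul_assoc]
  refine ⟨((f * b) ^ j)⁻¹, inv_mem (pow_mem (mem_zpowers _) j), (f * b) ^ (2 * j + 1), pow_mem (mem_zpowers _) _, ?_, ?_⟩
  · rw [← e, c.mul_pow, ← o, pow_orderOf_eq_one, mul_one]; exact p.pow _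
  · have := (s.pow_right j).eq
    rw [inv_pow] at this
    calc _ = f * (f * ((f * b) ^ j)⁻¹) * (f * (f * b)) * (f * b) ^ j := by simp [← mul_assoc, a]
      _ = f * ((f * b) ^ j * (f * f) * (f * b) * (f * b) ^ j) := by rw [this]; group
      _ = _ := by rw [a]; generalize f * b = ρ; group

/-- `e` is a component of `u` at `Y` -/
structure U (u e : G) (Y : Subgroup G) : Prop where
  m : e ∈ Y
  i : Iv e
  c : e ∈ 𝐂₁ u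
  z : e * u ∈ CZ 2 Y

theorem U.cj (h : U u e Y) (a : c ∈ 𝐂₁ u) : U u (c * e * c⁻¹) (cj c Y) :=
  ⟨conj_mem_cj.2 h.m, h.i.conj c, mul_mem (mul_mem a h.c) (inv_mem a), by
    rw [← cj_CZ, ← conj_eq_of_comm (mem_cent1.1 a), conj_mul, conj_mem_cj]; exact h.z⟩

theorem U.mul (h : U u e X) (k : U u f X) (i : Iv u) : e * f ∈ X ⊓ CZ 2 X ⊓ 𝐂₁ u :=
  ⟨⟨mul_mem h.m k.m, by simpa [mul_assoc, ← mul_assoc u, k.i.inv_eq] using mul_mem h.z (inv_mem k.z)⟩, mul_mem h.c k.c⟩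

variable (h : WF P) (z : Z1 P)
include h z

theorem cp (a : Syl 2 S ⊤) (i : Iv u) (hu : u ∈ S) (m : u ∈ Ps (Sg (Conj P) S)) (x : X ∈ Sg (Conj P) S) :
    ∃ b ∈ S ⊓ X, b * b = 1 ∧ b ∈ 𝐂₁ u ∧ b * u ∈ 𝐂 (S ⊓ X) ⊓ CZ 2 X := by
  obtain ⟨b, j, -, q⟩ := h.dec a subset_rfl x ((h.ww a).le ⟨hu, m⟩)
  have c : u * b = b * u := by simpa [mul_assoc, eq_inv_mul_iff_mul_eq, ← mul_assoc b b⁻¹, eq_comm] using q.1 b j
  have s : b * b = 1 := (z.conj x.1).one (a.pi.elt (mul_mem j.1 j.1)) (mul_mem j.2 j.2) (by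
    have := inv_mem (mul_mem (mem_inf.1 q).2 (mem_inf.1 q).2)
    rwa [mul_inv_rev, mul_inv_rev, inv_inv, i.inv_eq, c, mul_assoc, ← mul_assoc u, c, mul_assoc, i.sq, mul_one] at this)
  exact ⟨b, j, s, mem_cent1.2 c.symm, inv_eq_of_mul_eq_one_right s ▸ q⟩

theorem cu (a : Syl 2 S ⊤) (i : Iv u) (hu : u ∈ S) (m : u ∈ Ps (Sg (Conj P) S)) (x : X ∈ Iu (Sg (Conj P) S) u) :
    ∃ b ∈ S, U u b X ∧ b * u ∈ 𝐂 (S ⊓ X) :=
  let ⟨b, j, s, c, q⟩ := cp h z a i hu m x.1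
  ⟨b, j.1, ⟨j.2, .mk' (fun e => x.2 (by simpa [e] using q.2)) s, c, q.2⟩, q.1⟩

omit z in
theorem cz (a : Syl 2 S ⊤) (x : X ∈ Sg (Conj P) S) (y : Y ∈ Sg (Conj P) S) (n : X ≠ Y) (p : b ∈ S) (q : b ∈ Y) : b ∈ CZ 2 X :=
  (h.cm a x y n ⟨p, q⟩).2

omit z in
theorem ps (a : Syl 2 S ⊤) (x : X ∈ Sg (Conj P) S) (p : b ∈ S) (q : b ∈ X) : b ∈ Ps (Sg (Conj P) S) :=
  mem_Ps x q ((h.syl a x).2 ⟨p, q⟩)

omit z in
theorem fp (a : Syl 2 S ⊤) (x : X ∈ Sg (Conj P) S) (p : b ∈ S ⊓ X) (i : Iv b) (c : b ∈ 𝐂₁ u) (q : b * u ∈ 𝐂 (S ⊓ X)) :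
    ∃ f ∈ S ⊓ X ⊓ 𝐂₁ u, FP b f := by
  obtain ⟨f, j, k⟩ := ((h.four.conj x.1).syl (h.syl a x).1).cen a.pi.inf_left p i
  exact ⟨f, ⟨j, mem_cent1.2 (mul_left_cancel (a := b) (by rw [← mul_assoc, k.comm, mul_assoc, q f j, mul_assoc]))⟩, k⟩

theorem ofx (a : Syl 2 S ⊤) (i : Iv u) (hu : u ∈ S) (m : u ∈ Ps (Sg (Conj P) S)) (x : X ∈ Sg (Conj P) S) :
    Od (X ⊓ CZ 2 X ⊓ 𝐂₁ u) ∧ X ⊓ CZ 2 X ⊓ 𝐂₁ u ≤ Fx (Sg (Conj P) S) := by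
  have o : Od (X ⊓ CZ 2 X ⊓ 𝐂₁ u) := od_iff.1 (by_contra fun n => let ⟨r, p, j⟩ := exists_iv n; z.conj x.1 r p.1.1 j p.1.2)
  refine ⟨o, fun g hg => mem_Fx.2 fun Y y => ?_⟩
  by_cases e : Y = X
  · exact e ▸ le_norm_self X hg.1.1
  obtain ⟨c, hc, d, hd, k⟩ : ∃ c ∈ S ⊓ Y ⊓ 𝐂₁ u, ∃ d ∈ S ⊓ Y ⊓ 𝐂₁ u, FP c d := by
    obtain ⟨b, j, s, c, q⟩ := cp h z a i hu m y
    by_cases b1 : b = 1
    · obtain ⟨c, hc, d, hd, k⟩ := (h.four.conj y.1).syl (h.syl a y).1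
      rw [b1, one_mul] at q
      exact ⟨c, ⟨hc, mem_cent1.2 (q.1 c hc)⟩, d, ⟨hd, mem_cent1.2 (q.1 d hd)⟩, k⟩
    · exact ⟨b, ⟨j, c⟩, fp h a y j (.mk' b1 s) c q.1⟩
  have n : S ⊓ Y ⊓ 𝐂₁ u ≤ 𝐍 (X ⊓ CZ 2 X ⊓ 𝐂₁ u) :=
    have : S ⊓ Y ⊓ 𝐂₁ u ≤ 𝐍 X := fun r p => mem_Fx.1 ((h.syl a y).2 p.1) X x
    norm_inf (norm_inf this (norm_CZ this)) (norm_of_le inf_le_right)
  have t : ∀ {r}, Iv r → r ∈ Y → X ⊓ CZ 2 X ⊓ 𝐂₁ u ⊓ 𝐂₁ r ≤ 𝐍 Y := fun j p => inf_le_right.trans (h.ti.cen y.1 j.piElt j.ne_one p)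
  exact odd_gen o k (n hc) (n hd) (t k.l hc.1.2) (t k.r hd.1.2) (t k.iv (mul_mem hc hd).1.2) hg

/-- the induction hypothesis -/
def IH (P : Subgroup G) (N : ℕ) : Prop := ∀ v T T', Syl 2 T ⊤ → Syl 2 T' ⊤ → Iv v → v ∈ Ps (Sg (Conj P) T) → v ∈ Ps (Sg (Conj P) T') →
  (Iu (Sg (Conj P) T) v).ncard < N → Iu (Sg (Conj P) T) v = Iu (Sg (Conj P) T') v

theorem s1 (ih : IH P N) (a : Syl 2 S ⊤) (i : Iv u) (m : u ∈ Ps (Sg (Conj P) S)) (n : (Iu (Sg (Conj P) S) u).ncard ≤ N)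
    (x : X ∈ Iu (Sg (Conj P) S) u) (k : c ∈ 𝐂₁ u ⊓ 𝐍 X) : c ∈ Sb (Iu (Sg (Conj P) S) u) := by
  obtain ⟨S, a, hu, e⟩ := h.rl a i.piGrp (zpowers_le.2 (Fx_le (Ps_le m)))
  rw [← e] at m n x ⊢
  rw [zpowers_le] at hu
  obtain ⟨b, j, p, -⟩ := cu h z a i hu m x
  have q := cj_of_norm k.2 ▸ p.cj k.1
  obtain ⟨od, fx⟩ := ofx h z a i hu m x.1
  have l := zpowers_le.2 (q.mul p i)
  obtain ⟨o, ho, ζ, hζ, r, s⟩ := dih q.i.sq p.i.sq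
  rw [r.eq_one (od.elt (l hζ)), mul_one] at s
  have y1 : o⁻¹ * c ∈ 𝐂₁ (b * u) := cent1_mul_of (mem_cent1.2 (by
    rw [mul_assoc, inv_mul_eq_iff_eq_mul, ← mul_assoc, ← mul_assoc, s, inv_mul_cancel_right])) (mul_mem (inv_mem (l ho).2) k.1)
  have y2 : o⁻¹ * c ∈ 𝐍 X := mul_mem (inv_mem (le_norm_self X (l ho).1.1)) k.2
  have d : Iu (Sg (Conj P) S) (b * u) = Iu (Sg (Conj P) S) u \ {X} := Set.ext fun Y => by
    by_cases e : Y = X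
    · simp [e, mem_Iu, p.z]
    · simpa [e, mem_Iu] using fun y => not_congr (mul_mem_cancel_left (cz h a y x.1 e j p.m))
  have f : cj (o⁻¹ * c) '' Iu (Sg (Conj P) S) (b * u) = Iu (Sg (Conj P) S) (b * u) := by
    by_cases b1 : b * u = 1
    · simp [b1, Iu]
    have w := mul_mem (ps h a x.1 j p.m) m
    rw [Iu.cen y1, ← (h.cjs a _).2, ← ih _ S _ a (h.cjs a _).1 (.mk' b1 (by
      rw [mul_assoc, ← mul_assoc u, ← mem_cent1.1 p.c, mul_assoc, i.sq, mul_one, p.i.sq])) w ((h.cjs a _).2 ▸ Ps.cen y1 w)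
      (d ▸ (Set.ncard_diff_singleton_lt_of_mem x).trans_le n)]
  have : o⁻¹ * c ∈ Sb (Iu (Sg (Conj P) S) u) := mem_Sb.2 (by
    rw [← Set.insert_diff_self_of_mem x, ← d, Set.image_insert_eq, f, cj_of_norm y2])
  simpa using mul_mem (Fx_le (Fx_anti Iu_sub (fx (l ho)))) this

theorem s1' (ih : IH P N) (a : Syl 2 S ⊤) (a' : Syl 2 S' ⊤) (i : Iv u) (m : u ∈ Ps (Sg (Conj P) S)) (m' : u ∈ Ps (Sg (Conj P) S'))
    (n : (Iu (Sg (Conj P) S') u).ncard ≤ N) (x : X ∈ Iu (Sg (Conj P) S) u) (x' : X ∈ Sg (Conj P) S') :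
    Iu (Sg (Conj P) S) u = Iu (Sg (Conj P) S') u := by
  obtain ⟨k, p, e⟩ := h.tr2 a a' i m m' (fun _ f => mem_Fx.1 f X x.1) fun _ f => mem_Fx.1 f X x'
  rw [e, ← Iu.cen p.1, mem_Sb.1 (s1 h z ih a' i m' n ⟨x', x.2⟩ p)]

theorem su (ih : IH P N) (a' : Syl 2 S' ⊤) (a : Syl 2 T ⊤) (i : Iv u) (m' : u ∈ Ps (Sg (Conj P) S')) (j : Iv v) (c : v ∈ 𝐂₁ u)
    (m : v ∈ Ps (Sg (Conj P) T)) (n : (Iu (Sg (Conj P) T) v).ncard < N) (x : X ∈ Iu (Sg (Conj P) T) v) (y : u ∉ CZ 2 X)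
    (s : v ∈ Sb (Iu (Sg (Conj P) S') u)) : X ∈ Iu (Sg (Conj P) S') u := by
  obtain ⟨k, p, R, b, l, e⟩ := h.ch.tr (H := 𝐂₁ u ⊓ Sb (Iu (Sg (Conj P) S') u)) a' i.piGrp (le_inf le_top (zpowers_le.2 (Ps_le m'))) le_top
    (inf_le_inf (inf_le_right.trans (cent_zpowers u).le) ((Fx_anti Iu_sub).trans Fx_le)) j.piGrp (zpowers_le.2 ⟨c, s⟩)
  rw [ih v T R a b j m (h.nm z b a j (zpowers_le.1 l) m) n] at x
  rw [← mem_Sb.1 p.2, Iu.cen p.1, ← e]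
  exact ⟨x.1, y⟩

theorem ne (a : Syl 2 S ⊤) (i : Iv u) (hu : u ∈ S) (m : u ∈ Ps (Sg (Conj P) S)) : ∃ X, X ∈ Iu (Sg (Conj P) S) u := by_contra fun n =>
  i.ne_one (h.one z a subset_rfl ((h.ww a).le ⟨hu, m⟩) fun X x => by_contra fun c => n ⟨X, x, c⟩)

theorem all (N : ℕ) : IH P N := by
  induction N with
  | zero => exact fun _ _ _ _ _ _ _ _ n => absurd n (Nat.not_lt_zero _)
  | succ N ih =>
  intro u S S' a a' i m m' n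
  obtain ⟨S, a, hu, e⟩ := h.rl a i.piGrp (zpowers_le.2 (Fx_le (Ps_le m)))
  obtain ⟨S', a', hu', e'⟩ := h.rl a' i.piGrp (zpowers_le.2 (Fx_le (Ps_le m')))
  rw [← e] at m n ⊢
  rw [← e'] at m' ⊢
  rw [zpowers_le] at hu hu'
  clear e e'
  have cd : ∀ {T}, Syl 2 T ⊤ → u ∈ Ps (Sg (Conj P) T) → (Iu (Sg (Conj P) T) u).ncard ≤ N := fun b p => by
    obtain ⟨k, p, e⟩ := h.tr2 b a i p m le_top le_top
    rw [e, ← Iu.cen p.1]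
    exact (Set.ncard_image_le (Set.toFinite _)).trans (Nat.lt_succ_iff.1 n)
  obtain ⟨X, x⟩ := ne h z a i hu m
  refine s1' h z ih a a' i m m' (cd a' m') x (by_contra fun nx => ?_)
  obtain ⟨Y', y'⟩ := ne h z a' i hu' m'
  obtain ⟨b, j, p, q⟩ := cu h z a i hu m x
  obtain ⟨f, hf, k⟩ := fp h a x.1 ⟨j, p.m⟩ p.i p.c q
  obtain ⟨b', -, p', -⟩ := cu h z a' i hu' m' y'
  have nf : f * u ∉ CZ 2 X := fun w => z.conj x.1.1 _ (mul_mem p.m hf.1.2) k.iv (p.mul ⟨hf.1.2, k.r, hf.2, w⟩ i).1.2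
  obtain ⟨c, hc, ζ, hζ, r, s⟩ := dih k.r.sq p'.i.sq
  have l := zpowers_le.2 (mul_mem hf.2 p'.c)
  have w := s ▸ p'.cj (l hc)
  have y : Conj P (cj c Y') := conj_cj_right.2 y'.1.1
  have iz : f * ζ * f⁻¹ = ζ⁻¹ := inv_zpowers (by simp [mul_assoc, k.r.inv_eq, p'.i.inv_eq, ← mul_assoc f f, k.r.sq]) ζ hζ
  obtain ⟨T, t, le⟩ := exists_syl_le (p := 2) le_top ((k.r.piGrp.sup (piGrp_zpowers.2 r)
    (.inl (zp_le_norm ((inv_zpowers iz).norm le_rfl)))).sup i.piGrp (.inl (norm_of_cent (cent_zpowers u ▸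
      sup_le (zpowers_le.2 hf.2) (zpowers_le.2 (l hζ))))))
  simp only [sup_le_iff, zpowers_le] at le
  obtain ⟨⟨tf, tz⟩, tu⟩ := le
  have cm : f * (f * ζ) = f * ζ * f := by
    by_cases e : X = cj c Y'
    · have := cz_cent t.pi (mul_mem (mul_mem tf tz) tu) tf hf.1.2 (e ▸ w.z)
      rw [mul_assoc, ← mem_cent1.1 hf.2, ← mul_assoc, ← mul_assoc] at this
      exact (mul_right_cancel this).symm
    · exact h.dc x.1.1 y e k.r w.i hf.1.2 w.m t.pi tf (mul_mem tf tz)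
  rw [mul_assoc, mul_right_inj] at cm
  have z1 : ζ ≠ 1 := fun e => nf (by
    rw [e, mul_one] at w
    exact h.ti.eq y x.1.1 k.r.piElt k.r.ne_one w.m hf.1.2 ▸ w.z)
  have iζ : Iv ζ := .mk' z1 (by rw [conj_eq_of_comm cm] at iz; exact mul_eq_one_iff_eq_inv.2 iz)
  have sb : ζ ∈ Sb (Iu (Sg (Conj P) S') u) := s1 h z ih a' i m' (cd a' m') y' ⟨l hζ, h.ti.cen y'.1.1 p'.i.piElt p'.i.ne_one p'.m (by
    simpa [← mul_assoc, k.r.sq] using cent1_mul_of (mem_cent1.2 cm.symm) (mem_cent1.2 ((abel_zpowers _).mul_comm hζ (mem_zpowers _))))⟩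
  have mt := h.nm z t a i tu m
  have xt : X ∈ Sg (Conj P) T := ⟨x.1.1, f, tf, k.r, hf.1.2⟩
  have yt : cj c Y' ∈ Sg (Conj P) T := ⟨y, _, mul_mem tf tz, w.i, w.m⟩
  have ζe : ζ = f * (f * ζ) := by rw [← mul_assoc, k.r.sq, one_mul]
  have zp : ζ ∈ Ps (Sg (Conj P) T) := ζe ▸ mul_mem (ps h t xt tf hf.1.2) (ps h t yt (mul_mem tf tz) w.m)
  have zc : ∀ {V}, V ∈ Sg (Conj P) T → V ≠ X → V ≠ cj c Y' → ζ ∈ CZ 2 V := fun v n n' =>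
    ζe ▸ mul_mem (cz h t v xt n tf hf.1.2) (cz h t v yt n' (mul_mem tf tz) w.m)
  by_cases e : X = cj c Y'
  · have zx : ζ ∈ X := ζe ▸ mul_mem hf.1.2 (e ▸ w.m)
    by_cases s1 : Iu (Sg (Conj P) T) u ⊆ {X}
    · obtain ⟨d, hd, p, -⟩ := cu h z t i tu mt ⟨xt, x.2⟩
      have : d * u = 1 := h.one z t subset_rfl ((h.ww t).le ⟨mul_mem hd tu, mul_mem (ps h t xt hd p.m) mt⟩) fun V v => by
        by_cases e : V = X
        · exact e ▸ p.z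
        · exact mul_mem (cz h t v xt e hd p.m) (by_contra fun n => e (s1 ⟨v, n⟩))
      have := h.ti.cen x.1.1 i.piElt i.ne_one (eq_inv_of_mul_eq_one_right this ▸ inv_mem p.m) (inv_mem (l hc))
      rw [← cj_eq_self] at this
      exact nx ((eq_cj_iff.1 e).symm.trans this ▸ y'.1)
    refine nx (su h z ih a' t i m' iζ (l hζ) zp ((Set.ncard_lt_ncard ?_).trans_le (cd t mt)) ⟨xt, z.conj x.1.1 ζ zx iζ⟩ x.2 sb).1
    have : Iu (Sg (Conj P) T) ζ ⊆ {X} := fun V v => by_contra fun n => v.2 (zc v.1 n (e ▸ n))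
    exact ⟨this.trans (Set.singleton_subset_iff.2 ⟨xt, x.2⟩), fun q => s1 (q.trans this)⟩
  have xz : ζ * u ∉ CZ 2 X := fun q => nf (by
    have := mul_mem (cz h t xt yt e (mul_mem tf tz) w.m) q
    rwa [mul_assoc, ← mul_assoc ζ, iζ.sq, one_mul] at this)
  have yz : ζ * u ∈ CZ 2 (cj c Y') := by
    rw [ζe, mul_assoc]
    exact mul_mem (cz h t yt xt (Ne.symm e) tf hf.1.2) w.z
  have ss : Iu (Sg (Conj P) T) (ζ * u) ⊂ Iu (Sg (Conj P) T) u := ⟨fun V v => ⟨v.1, fun q => v.2 (by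
    by_cases e : V = cj c Y'
    · exact e ▸ yz
    · exact mul_mem (zc v.1 (fun e => x.2 (e ▸ q)) e) q)⟩,
    fun q => (q ⟨yt, fun q => z.conj y _ w.m w.i ((mul_mem_cancel_right q).1 w.z)⟩).2 yz⟩
  refine nx (su h z ih a' t i m' (.mk' (fun q => xz (by rw [q]; exact one_mem _)) ?_) (mul_mem (l hζ) (self_mem_cent1 u)) (mul_mem zp mt)
    ((Set.ncard_lt_ncard ss).trans_le (cd t mt)) ⟨xt, xz⟩ x.2 (mul_mem sb (Fx_le (Fx_anti Iu_sub (Ps_le m'))))).1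
  rw [mul_assoc, ← mul_assoc u, ← mem_cent1.1 (l hζ), mul_assoc, i.sq, mul_one, iζ.sq]
end Eb

theorem WF.sup (h : WF P) (z : Z1 P) (a : Syl 2 S ⊤) (a' : Syl 2 S' ⊤) (i : Iv u) (m : u ∈ Ps (Sg (Conj P) S))
    (m' : u ∈ Ps (Sg (Conj P) S')) : Iu (Sg (Conj P) S) u = Iu (Sg (Conj P) S') u :=
  Eb.all h z _ u S S' a a' i m m' (Nat.lt_succ_self _)

end CF.Te
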