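/-
Tightly embedded subgroups: dihedral reduction and the four-group trick.
-/
import Cfsg.Agent.Te.B0
set_option autoImplicit false
set_option linter.unusedSectionVars false

namespace CF.Te
open Subgroup Cfsg CF.BG CF.Sig CF.GW CF.Ab2 CF.CT
open scoped commutatorElement

universe u
variable {G : Type u} [Group G] [Finite G]
variable {H J L P R S T X Y : Subgroup G} {d e r t t' v : G}

namespace FG

theorem ex_max (p : P2 S) (he : e ∈ S) (hd : d ∈ S) (n : d * e ≠ e * d) : ∃ K, e ∈ K ∧ K < S ∧ S ≤ 𝐍 K := by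
  obtain ⟨K, l, k, m⟩ := exists_maximal (P := (· < S)) (H := zpowers e) (lt_of_le_of_ne (zpowers_le.2 he) fun z =>
    n ((abel_zpowers e).mul_comm (z.ge hd) (mem_zpowers e)))
  have lt := p.nil.lt_inf_norm k
  refine ⟨K, l (mem_zpowers e), k, inf_eq_left.1 (by_contra fun z => lt.ne' (m _ (lt_of_le_of_ne inf_le_left z) lt.le))⟩

theorem cj2 (i : d * d = 1) (X : Subgroup G) : cj d (cj d X) = X := by rw [cj_cj, i, cj_one]

theorem el_closure {D : Set G} (s : ∀ x ∈ D, x * x = 1) (c : ∀ x ∈ D, ∀ y ∈ D, x * y = y * x) : Abelem 2 (closure D) := by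
  have a : Abel (closure D) := (closure_le _).2 fun x m => by rw [centralizer_closure]; exact fun y k => c y k x m
  refine .mk' p2 a fun x m => ?_
  rw [pow_two]
  induction m using closure_induction with
  | mem x m => exact s x m
  | one => exact one_mul 1
  | mul x y m k a1 a2 => rw [(show Commute x y from a.mul_comm m k).symm.mul_mul_mul_comm, a1, a2, one_mul]
  | inv x _ a1 => rw [← mul_inv_rev, a1, inv_one]

end FG
open FG

theorem TI.d8 (h : TI P) (c : C0 P) (n : ¬ DC1 P) : ∃ J L t d, D8 P J L t d := by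
  by_contra! z
  refine n fun X Y S => ?_
  induction S using card_induction generalizing X Y with
  | h S ih =>
    intro d e a b ne id ie hd he p md me
    by_contra k
    obtain ⟨K, m, lt, nK⟩ := ex_max p me md k
    have e' : d * e * d = d * e * d⁻¹ := by rw [id.inv_eq]
    exact z Y X e d ⟨b, a, ne.symm, ie, id, he, hd, e' ▸ ih K (card_lt lt) Y (cj d Y) b (conj_cj_right.2 b)
      (fun q => k (c b a ne.symm id ie hd (cj_eq_self.1 q.symm) he p md me)) ie (ie.conj d) he (conj_mem_cj.2 he) (p.le lt.le) m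
      (conj_mem_of_norm (nK md) m), fun q => k q.symm⟩

theorem D8.sw (k : D8 P J L t d) (h : TI P) (c : C0 P) : d ∉ 𝐍 J ∧ ∃ T, Syl 2 T (J ⊓ 𝐍 (cj d J)) ∧ t ∈ T ∧
    T ≤ 𝐂 (cj d T) ∧ P2 (T ⊔ zpowers d) ∧ ∀ v ∈ T, v ≠ 1 → v ∉ 𝐍 L := by
  have cm : t * (d * t * d⁻¹) = d * t * d⁻¹ * t := by rw [k.id.inv_eq]; exact k.cm
  have j' : Conj P (cj d J) := conj_cj_right.2 k.j
  have it' := k.it.conj d
  have p : P2 (zpowers t ⊔ cj d (zpowers t) ⊔ zpowers d) := (k.it.piGrp.sup (piGrp_cj.2 k.it.piGrp) (.inl (norm_of_cent (by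
    rw [cj_zpowers, cent_zpowers]; exact zpowers_le.2 (mem_cent1.2 cm))))).sup k.id.piGrp
      (.inr (zp_le_norm (cj_eq_self.1 (by rw [cj_sup, cj2 k.id.sq, sup_comm]))))
  have mt : t ∈ zpowers t ⊔ cj d (zpowers t) ⊔ zpowers d := mem_sup_left (mem_sup_left (mem_zpowers t))
  have md : d ∈ zpowers t ⊔ cj d (zpowers t) ⊔ zpowers d := mem_sup_right (mem_zpowers d)
  have n : d ∉ 𝐍 J := fun m => k.nc (c k.j k.l k.ne k.id k.it k.dl m k.tj p md mt).symm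
  have nM : d ∈ 𝐍 (𝐍 J ⊓ 𝐍 (cj d J)) := cj_eq_self.1 (by rw [cj_inf, cj_norm, cj_norm, cj2 k.id.sq, inf_comm])
  have tM : t ∈ 𝐍 J ⊓ 𝐍 (cj d J) := ⟨le_norm_self J k.tj, h.cen j' it'.piElt it'.ne_one (conj_mem_cj.2 k.tj) (mem_cent1.2 cm)⟩
  obtain ⟨S, s, l⟩ := exists_syl_le (M := (𝐍 J ⊓ 𝐍 (cj d J)) ⊔ zpowers d) (sup_le_sup_right
    (sup_le (zpowers_le.2 tM) (cj_le_of_norm nM (zpowers_le.2 tM))) _) p
  have s' := (s.inf_normal (normalIn_sup_left (zp_le_norm nM))).inf_normal (normalIn_inf_right (H := J) inf_le_left)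
  have e1 : J ⊓ (𝐍 J ⊓ 𝐍 (cj d J)) = J ⊓ 𝐍 (cj d J) := by rw [← inf_assoc, inf_eq_left.2 (le_norm_self J)]
  rw [e1] at s'
  have tl := s'.le
  refine ⟨n, _, s', ⟨⟨l mt, tM⟩, k.tj, tM.2⟩, fun x hx y hy => ?_,
    s.pi.le (sup_le (inf_le_left.trans inf_le_left) (zpowers_le.2 (l md))), fun v m v1 nv => ?_⟩
  · obtain ⟨y, my, rfl⟩ := mem_cj_iff.1 (show y ∈ cj d _ from hy)
    exact (h.cm k.j j' (fun q => n (cj_eq_self.1 q.symm)) s.pi ⟨⟨hx.1.1, hx.2.1⟩, hx.2.2⟩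
      ⟨⟨conj_mem_of_norm (le_norm_self S (l md)) my.1.1, conj_mem_cj.2 my.2.1⟩, (conj_mem_of_norm nM my.1.2).1⟩).symm
  · obtain ⟨u, hu, i⟩ := ex_iv (s'.pi.elt m) v1
    have mu := zpowers_le.2 m hu
    exact n (h.cen k.j i.piElt i.ne_one mu.2.1 (mem_cent1.2
      (c k.l k.j k.ne.symm i k.id mu.2.1 (zpowers_le.2 nv hu) k.dl s.pi mu.1.1 (l md)).symm))

theorem TI.fg (h : TI P) (c : C0 P) (a : Conj P J) (b : Conj P L) (f : FP t t') (l : V4 t t' ≤ J) (i : Iv d) (m : d ∈ L)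
    (cm : V4 t t' ≤ 𝐂 (cj d (V4 t t'))) (mv : ∀ v ∈ V4 t t', v ≠ 1 → v ∉ 𝐍 L)
    (hc : ∀ v ∈ V4 t t', v ≠ 1 → ∀ R, Syl 2 R L → v * d * v⁻¹ ∈ 𝐍 R → v * d * v⁻¹ ∈ 𝐂 R) :
    ∃ R, Syl 2 R L ∧ (∀ r ∈ R, r * r = 1) ∧
      ∀ H : Subgroup G, (∀ v ∈ V4 t t', v ≠ 1 → ∀ y ∈ cj v L, E2 y → y ∈ 𝐍 L → y ∈ H) → R ≤ H := by
  have ht := left_mem_V4 t t'
  have ht' := right_mem_V4 t t'
  have ab := f.abel
  have sq : ∀ {x}, x ∈ V4 t t' → x * x = 1 := f.sq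
  have pV := f.pi
  generalize V4 t t' = V at *
  have c1 : ∀ v ∈ V, d * (v * d * v⁻¹) = v * d * v⁻¹ * d := fun v hv => by
    have := cm hv _ (conj_mem_cj.2 hv)
    rw [i.inv_eq] at this
    rw [inv_eq_of_mul_eq_one_right (sq hv)]
    simpa only [mul_assoc] using this
  have c2 : ∀ u ∈ V, ∀ v ∈ V, v * d * v⁻¹ * (u * d * u⁻¹) = u * d * u⁻¹ * (v * d * v⁻¹) := fun u hu v hv => by
    have := congrArg (v * · * v⁻¹) (c1 _ (mul_mem (inv_mem hv) hu))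
    simpa [mul_assoc] using this
  obtain ⟨R0, s0, -, n0⟩ := ex_inv (S := closure ((fun v => v * d * v⁻¹) '' V)) (X := L)
    (el_closure (by rintro _ ⟨v, -, rfl⟩; exact (i.conj v).sq)
      (by rintro _ ⟨v, hv, rfl⟩ _ ⟨u, hu, rfl⟩; exact c2 u hu v hv)).pi
    ((closure_le _).2 (by rintro _ ⟨v, hv, rfl⟩; exact h.cen b i.piElt i.ne_one m (mem_cent1.2 (c1 v hv).symm)))
  have bv : ∀ v, Conj P (cj v L) := fun v => conj_cj_right.2 b
  have nv : ∀ v ∈ V, v ≠ 1 → L ≠ cj v L := fun v hv v1 e => mv v hv v1 (cj_eq_self.1 e.symm)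
  let N : Subgroup G := ⨅ v ∈ V, 𝐍 (cj v L)
  have mN : ∀ {g}, g ∈ N ↔ ∀ v ∈ V, g ∈ 𝐍 (cj v L) := by simp only [N, mem_iInf, implies_true]
  have NL : N ≤ 𝐍 L := fun g hg => by simpa using mN.1 hg 1 (one_mem _)
  have l0 : R0 ≤ L ⊓ N := le_inf s0.le fun r hr => mN.2 fun v hv => by
    by_cases v1 : v = 1
    · simpa [v1] using le_norm_self L (s0.le hr)
    exact h.cen (bv v) (i.conj v).piElt (i.conj v).ne_one (conj_mem_cj.2 m)
      (mem_cent1.2 (hc v hv v1 R0 s0 (n0 (subset_closure ⟨v, hv, rfl⟩)) r hr))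
  have nN : V ≤ 𝐍 N := le_norm_iff.2 fun u hu g hg => mN.2 fun v hv => by
    have := mN.1 hg _ (mul_mem (inv_mem hu) hv)
    rwa [← cj_cj, ← cj_norm, mem_cj_inv] at this
  obtain ⟨S, s, lS⟩ := exists_syl_le (le_sup_right : V ≤ N ⊔ V) pV
  have s' := (s.inf_normal (normalIn_sup_left nN)).inf_normal (normalIn_inf_right (H := L) NL)
  have sR := s0.of_card_le (s'.le.trans inf_le_left) s'.pi (s'.card_le l0 s0.pi)
  have rS : ∀ r ∈ S ⊓ N ⊓ (L ⊓ N), ∀ v ∈ V, v * r * v⁻¹ ∈ S ⊓ cj v L ⊓ N := fun r hr v hv =>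
    ⟨⟨conj_mem_of_norm (le_norm_self S (lS hv)) hr.1.1, conj_mem_cj.2 hr.2.1⟩, conj_mem_of_norm (nN hv) hr.1.2⟩
  generalize S ⊓ N ⊓ (L ⊓ N) = R at *
  have cm1 : ∀ r ∈ R, ∀ r' ∈ R, ∀ u ∈ V, ∀ v ∈ V, u ≠ v → Commute (u * r * u⁻¹) (v * r' * v⁻¹) := fun r hr r' hr' u hu v hv ne =>
    h.cm (bv u) (bv v) (fun e => nv _ (mul_mem (inv_mem hu) hv) (fun z => ne (inv_mul_eq_one.1 z)) (by rw [← cj_cj, ← e, cj_inv_cj]))
      s.pi ⟨(rS r hr u hu).1, mN.1 (rS r hr u hu).2 v hv⟩ ⟨(rS r' hr' v hv).1, mN.1 (rS r' hr' v hv).2 u hu⟩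
  have cm0 : ∀ r ∈ R, ∀ r' ∈ R, ∀ v ∈ V, v ≠ 1 → Commute r (v * r' * v⁻¹) := fun r hr r' hr' v hv ne => by
    simpa using cm1 r hr r' hr' 1 (one_mem _) v hv ne.symm
  have RS : R ≤ S := fun r hr => by simpa using (rS r hr 1 (one_mem _)).1.1
  obtain ⟨z, hz, iz, cz, -⟩ := ex_fix sR.pi (h.syl_ne b sR) sR.pi (le_norm_self R)
  have key : ∀ u ∈ V, ∀ v ∈ V, FP u v → ∀ r ∈ R, r * (u * r * u⁻¹) = v * r * v⁻¹ * (u * v * r * (u * v)⁻¹) := by
    intro u hu v hv f r hr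
    have huv := mul_mem hu hv
    have y : r * (u * r * u⁻¹) ∈ 𝐍 J := h.cen a f.l.piElt f.l.ne_one (l hu) (mem_cent1.2 (by
      rw [mul_assoc, inv_mul_cancel_right, (cm0 r hr r hr u hu f.l.ne_one).eq, f.l.inv_eq]
      simp only [mul_assoc]
      rw [← mul_assoc u u, f.l.sq, one_mul]))
    have e : v * r * v⁻¹ * (u * v * r * (u * v)⁻¹) = v * (r * (u * r * u⁻¹)) * v⁻¹ := by rw [f.comm]; group
    have yS := mul_mem (RS hr) (rS r hr u hu).1.1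
    by_contra ne
    have w : z ∈ 𝐍 J := h.cen a (s.pi.elt (mul_mem yS (inv_mem (conj_mem_of_norm (le_norm_self S (lS hv)) yS))))
      (fun q => ne (e ▸ mul_inv_eq_one.1 q)) (by
        rw [show ∀ y : G, y * (v * y * v⁻¹)⁻¹ = y * v * y⁻¹ * v⁻¹ from fun y => by group]
        exact mul_mem (conj_mem_of_norm y (l hv)) (inv_mem (l hv))) (mem_cent1.2 (by
        rw [← e]
        exact ((Commute.mul_right (cz r hr).symm (cm0 z hz r hr u hu f.l.ne_one)).mul_right (Commute.mul_right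
          (cm0 z hz r hr v hv f.r.ne_one) (cm0 z hz r hr _ huv f.iv.ne_one)).inv_right).eq))
    exact mv u hu f.l.ne_one (h.cen b iz.piElt iz.ne_one (sR.le hz) (mem_cent1.2 (c a b
      (fun e => mv u hu f.l.ne_one (e ▸ le_norm_self J (l hu))) iz f.l (sR.le hz) w (l hu) s.pi (RS hz) (lS hu)).symm))
  refine ⟨R, sR, fun r hr => by_contra fun r1 => ?_, fun H k r hr => ?_⟩
  · have e1 := key t ht t' ht' f r hr
    have e2 := key t' ht' t ht f.symm r hr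
    have c3 := cm1 r hr r hr t ht t' ht' f.ne
    have c4 := cm1 r hr r hr t ht _ (mul_mem ht ht') f.mul.ne
    have c5 := cm1 r hr r hr t' ht' _ (mul_mem ht ht') f.mul'.ne
    rw [← f.comm] at e2
    have : t * r * t⁻¹ * (t * r * t⁻¹) = t' * r * t'⁻¹ * (t' * r * t'⁻¹) := by
      generalize t * r * t⁻¹ = b, t' * r * t'⁻¹ = c, t * t' * r * (t * t')⁻¹ = e at *
      rw [← eq_mul_inv_iff_mul_eq] at e1 e2
      rw [e1, c4.eq, c5.eq, mul_assoc, mul_assoc, mul_left_cancel_iff, mul_inv_eq_iff_eq_mul, mul_assoc, ← c3.inv_right.eq,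
        ← mul_assoc, eq_mul_inv_iff_mul_eq] at e2
      exact e2.symm
    refine mv _ (mul_mem (inv_mem ht') ht) (fun z => f.ne (inv_mul_eq_one.1 z).symm)
      (h.cen b (sR.pi.elt (mul_mem hr hr)) r1 (sR.le (mul_mem hr hr)) (mem_cent1.2 ?_))
    calc _ = t'⁻¹ * (t * r * t⁻¹ * (t * r * t⁻¹)) * t := by group
      _ = _ := by rw [this]; group
  · have k' : ∀ v ∈ V, v ≠ 1 → v * r * v⁻¹ ∈ H := fun v hv v1 =>
      k v hv v1 _ (rS r hr v hv).1.2 (s.pi.elt (rS r hr v hv).1.1) (NL (rS r hr v hv).2)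
    rw [eq_mul_inv_of_mul_eq (key t ht t' ht' f r hr)]
    exact mul_mem (mul_mem (k' _ ht' f.r.ne_one) (k' _ (mul_mem ht ht') f.iv.ne_one)) (inv_mem (k' _ ht f.l.ne_one))

theorem WF.c0 (h : WF P) : C0 P := fun _ _ _ _ _ a b ne id _ hd n he p md me =>
  cz_cent p md me he (h.cb a b ne hd n id.piElt)

theorem WF.dc (h : WF P) : DC1 P := by
  by_contra n
  obtain ⟨J, L, t, d, k⟩ := h.ti.d8 h.c0 n
  obtain ⟨n, T, s, ht, c, -, mv⟩ := k.sw h.ti h.c0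
  have j' : Conj P (cj d J) := conj_cj_right.2 k.j
  have ne : cj d J ≠ J := fun e => n (cj_eq_self.1 e)
  obtain ⟨R, r, -, nR⟩ := ex_inv s.pi (s.le.trans inf_le_right)
  have f : Fr P (cj d J) J R T := ⟨h.ti, j', k.j, ne, r, s, ne_bot_of_mem ht k.it.ne_one, nR⟩
  obtain ⟨a, ha, b, hb, q⟩ := (h.four.conj k.j).syl (f.full fun x hx y hy => cz_cent f.pi (mem_sup_left hy) (mem_sup_right hx)
    (r.le hx) (h.cb j' k.j ne (f.ty hy) (f.nx hy) (s.pi.elt hy)))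
  have l := V4_le.2 ⟨ha, hb⟩
  have nv : ∀ v ∈ V4 a b, v ≠ 1 → L ≠ cj v L := fun v hv v1 e => mv v (l hv) v1 (cj_eq_self.1 e.symm)
  obtain ⟨R, r, sq, cz⟩ := h.ti.fg h.c0 k.j k.l q (l.trans f.ty) k.id k.dl (cent_mono c l (cj_mono d l)) (fun v hv => mv v (l hv))
    fun v hv v1 R r m x hx => (cz_cent (r.pi.sup (k.id.conj v).piGrp (.inr (zp_le_norm m))) (mem_sup_right (mem_zpowers _))
      (mem_sup_left hx) (r.le hx) (h.cb k.l (conj_cj_right.2 k.l) (nv v hv v1) (conj_mem_cj.2 k.dl)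
        (h.ti.nor k.l r.pi (h.ti.syl_ne k.l r) r.le m) (k.id.conj v).piElt)).symm
  have cz := cz _ fun v hv v1 y m p n => h.cb k.l (conj_cj_right.2 k.l) (nv v hv v1) m n p
  obtain ⟨x, hx, p, o⟩ := h.nd
  obtain ⟨g, rfl⟩ := k.l
  obtain ⟨u, hu, e⟩ := r.syl_cj_le (zpowers_le.2 (conj_mem_cj.2 hx)) (piGrp_zpowers.2 (p.conj g))
  have m := e (conj_mem_cj.2 (mem_zpowers _))
  refine o.elim (fun o => o ?_) fun o => o ?_
  · simpa only [conj_mul, conj_eq_one_iff] using sq _ m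
  · have := cz m
    rwa [← cj_of_norm (norm_CZ (le_norm_self _) hu), conj_mem_cj, ← cj_CZ, conj_mem_cj] at this

end CF.Te
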