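/-
Tightly embedded subgroups: the case of non-abelian Sylow subgroups with all pairs full.
-/
import Cfsg.Agent.Te.B0
set_option autoImplicit false
set_option linter.unusedSectionVars false
set_option linter.unusedVariables false

namespace CF.Te
open Subgroup Cfsg CF.BG CF.Sig CF.GW CF.Ab2 CF.CT
open scoped commutatorElement

universe u
variable {G : Type u} [Group G] [Finite G]
variable {A B H K L N P Q R R' S T U X Y : Subgroup G} {a b g k r s t u x y : G}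

/-- an element `k r` normalising `R` acts on `R` like `r` -/
theorem act_eq (n : R ≤ 𝐍 K) (d : R ⊓ K = ⊥) (hk : k ∈ K) (hr : r ∈ R) (m : k * r ∈ 𝐍 R) (hx : x ∈ R) :
    k * r * x * (k * r)⁻¹ = r * x * r⁻¹ := by
  have y := R.mul_mem (R.mul_mem hr hx) (R.inv_mem hr)
  refine mul_inv_eq_one.1 (eq_one_of_mem_bot d ⟨R.mul_mem (conj_mem_of_norm m hx) (R.inv_mem y), ?_⟩)
  rw [show k * r * x * (k * r)⁻¹ * (r * x * r⁻¹)⁻¹ = k * (r * x * r⁻¹ * k⁻¹ * (r * x * r⁻¹)⁻¹) by group]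
  exact K.mul_mem hk (conj_mem_of_norm (n y) (K.inv_mem hk))

theorem Fr.tyo (f : Fr P X Y R U) (n : K ⊴ ⊤) (d : R ⊓ K = ⊥) (d' : U ⊓ K = ⊥) (e : ⊤ ≤ K ⊔ R) : Abel R := by
  have nR : R ≤ 𝐍 K := le_top.trans n.norm
  have nU : U ≤ 𝐍 K := le_top.trans n.norm
  have act : ∀ u ∈ U, ∃ k ∈ K, ∃ r ∈ R, k * r = u ∧ ∀ x ∈ R, u * x * u⁻¹ = r * x * r⁻¹ := fun u hu => by
    obtain ⟨k, hk, r, hr, rfl⟩ := (mem_sup_norm' nR).1 (e (mem_top u))
    exact ⟨k, hk, r, hr, rfl, fun x hx => act_eq nR d hk hr (f.n hu) hx⟩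
  have l : K ⊔ U ≤ K ⊔ R ⊓ 𝐂 U := sup_le le_sup_left fun u hu => by
    by_cases u1 : u = 1
    · exact u1 ▸ one_mem _
    obtain ⟨k, hk, r, hr, e, c⟩ := act u hu
    refine e ▸ mul_mem_sup hk (f.cen hu u1 ▸ ⟨hr, mem_cent1.2 ?_⟩)
    have := c r hr
    rw [mul_inv_cancel_right, mul_inv_eq_iff_eq_mul] at this
    exact this.symm
  have l' := eq_of_card_le l (by
    rw [card_sup_of_inf_bot (.inr nU) (by rw [inf_comm, d']), card_sup_of_inf_bot (.inr (inf_le_left.trans nR))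
      (eq_bot_mono d (le_inf (inf_le_right.trans inf_le_left) inf_le_left)), f.card])
  have back : ∀ r ∈ R ⊓ 𝐂 U, ∃ u ∈ U, (u = 1 → r = 1) ∧ ∀ x ∈ R, u * x * u⁻¹ = r * x * r⁻¹ := fun r hr => by
    obtain ⟨k, hk, u, hu, e⟩ := (mem_sup_norm' nU).1 (l'.ge (mem_sup_right hr))
    have e' : u = k⁻¹ * r := by rw [← e]; group
    refine ⟨u, hu, fun u1 => eq_one_of_mem_bot d ⟨hr.1, by rw [← e, u1, mul_one]; exact hk⟩, fun x hx => ?_⟩
    rw [e']
    exact act_eq nR d (K.inv_mem hk) hr.1 (e' ▸ f.n hu) hx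
  obtain ⟨z, hz, i, -, c⟩ := ex_fix f.r.pi (f.ti.syl_ne f.x f.r) f.r.pi (le_norm_self R)
  obtain ⟨u, hu, u1, k⟩ := back z ⟨hz, fun u hu => by
    obtain ⟨k, hk, r, hr, e, k⟩ := act u hu
    have := k z hz
    rwa [c r hr, mul_inv_cancel_right, mul_inv_eq_iff_eq_mul] at this⟩
  have c' : R ≤ 𝐂 U := fun x hx => (f.cen hu (fun e => i.ne_one (u1 e))).le ⟨hx, mem_cent1.2 (by
    have := k x hx
    rw [← c x hx, mul_inv_cancel_right, mul_inv_eq_iff_eq_mul] at this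
    exact this.symm)⟩ |>.2
  intro r hr x hx
  obtain ⟨u, hu, -, k⟩ := back r ⟨hr, c' hr⟩
  have := k x hx
  rw [c' hx u hu, mul_inv_cancel_right, eq_mul_inv_iff_mul_eq] at this
  exact this

theorem TI.tyo (h : TI P) (n : K ⊴ ⊤) (hT : Syl 2 T P) (d : T ⊓ K = ⊥) (e : ⊤ ≤ K ⊔ T) (ha : a ∈ K) (i : Iv a)
    (ne : 𝐍 P ≠ ⊤) (nc : normalClosure (P : Set G) = ⊤) : Abel T := by
  have dj : ∀ {X S : Subgroup G}, Conj P X → S ≤ X → P2 S → S ⊓ K = ⊥ := fun ⟨g, e⟩ l p => by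
    obtain ⟨k, -, m⟩ := (hT.cj g).syl_le_cj (e ▸ l) p
    refine BG.eq_bot_mono (show cj (k * g) (T ⊓ K) = ⊥ by rw [d, cj_bot]) ?_
    rw [cj_inf, cj_eq_self.2 (n.norm (mem_top _)), ← cj_cj]
    exact inf_le_inf_right _ m
  by_cases c : ∃ Y, Conj P Y ∧ Ad P Y
  · obtain ⟨Y, b, k⟩ := c
    obtain ⟨R, U, f⟩ := h.fr1 (.refl P) b k
    obtain ⟨g, -, rfl⟩ := hT.syl_conj f.r
    refine abel_cj.1 (f.tyo n (dj f.x f.r.le f.r.pi) (dj b f.ty f.t.pi) ?_)
    have := cj_mono g e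
    rwa [cj_top, cj_sup, cj_eq_self.2 (n.norm (mem_top _))] at this
  push Not at c
  have k := CF.ZD.tight_se h.tight.1 (fun g hg => od_iff.2 ((piNat_compl_single p2).2 fun d =>
    let ⟨t, m, i⟩ := BG.exists_mem_orderOf_eq p2 d
    c _ (conj_cj P g) ⟨fun e => hg (cj_eq_self.1 e.symm), t, m.1, i, m.2⟩)) ne
  rw [nc] at k
  obtain ⟨H, s⟩ := SEs.top ⟨_, k⟩
  obtain ⟨t, m, j⟩ := ex_iv' hT.pi (h.syl_ne (.refl P) hT)
  obtain ⟨g, rfl⟩ := isConj_iff.1 (CF.Invol.se_isConj s i j)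
  exact absurd (eq_one_of_mem_bot d ⟨m, n.conj_mem (mem_top g) ha⟩) j.ne_one

theorem cj_sub (g : H) : cj g (Y.subgroupOf H) = (cj (g : G) Y).subgroupOf H := by
  ext x; simp only [mem_cj, mem_subgroupOf]; rfl

theorem St.kq (h : St K Q) : K ≤ 𝐂 Q := h.cq ▸ cent_symm le_rfl

theorem St.tyo (h : St K Q) (f : Fr Q Q Y R T) (d : T ⊓ K = ⊥) : Abel T := by
  have nK : T ≤ 𝐍 K := f.nx.trans h.nq
  have kq : K ≤ 𝐍 Q := norm_of_cent h.kq
  obtain ⟨a, ha, b, -, j⟩ := h.four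
  have e : ⁅K, T⁆ = K := (qs_comm_eq_or h.qs nK).resolve_right fun c =>
    f.t1 (eq_bot_mono f.dj (le_inf le_rfl (h.cq ▸ c)))
  have ky : ¬ K ≤ Y := fun l => by
    have := f.t.inf_normal (N := K) ⟨le_inf l kq, inf_le_right.trans h.nq⟩
    exact this.syl_ne_bot p2 (j.l ▸ orderOf_dvd_card' ha) d
  set H := K ⊔ T with hH
  have lK : K ≤ H := le_sup_left
  have lT : T ≤ H := le_sup_right
  have nH : K ⊴ H := ⟨lK, sup_le (le_norm_self K) nK⟩
  have sT : Syl 2 (T.subgroupOf H) (Y.subgroupOf H) := by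
    have := hall_subgroupOf (f.t.of_le (le_inf f.ty lT) (inf_le_inf_left _ (sup_le kq f.nx))) (L := H) inf_le_right
    rwa [inf_subgroupOf_right] at this
  obtain ⟨t, m, i⟩ := ex_iv' f.t.pi f.t1
  have ti : TI (Y.subgroupOf H) := ⟨⟨⟨t, lT m⟩, f.ty m, by rw [Iv, ← orderOf_coe]; exact i⟩,
    fun {g s} is h1 h2 => by
      rw [cj_sub] at h2 ⊢
      rw [(f.ti.conj f.y).ti (t := s) (by rw [Iv, orderOf_coe]; exact is) h1 h2]⟩
  have key := ti.tyo (K := K.subgroupOf H) ⟨le_top, normalizer_eq_top_iff.2 nH.normal |>.ge⟩ sT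
    (by rw [subgroupOf, subgroupOf, ← comap_inf, d]; exact bot_subgroupOf H) (by rw [← subgroupOf_sup lK lT, subgroupOf_self]) (a := ⟨a, lK ha⟩) ha
    (by rw [Iv, ← orderOf_coe]; exact j.l) (fun c => ky ?_) ?_
  · have := key.map H.subtype
    rwa [map_subgroupOf lT] at this
  · have ny : K ≤ 𝐍 Y := fun k hk => by
      have := cj_eq_self.2 (c.ge (mem_top (⟨k, lK hk⟩ : H)))
      rw [cj_sub] at this
      exact cj_eq_self.1 ((f.ti.conj f.y).ti i (f.ty m) (this.ge (show (⟨t, lT m⟩ : H) ∈ Y.subgroupOf H from f.ty m)))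
    exact e ▸ (commutator_mono le_rfl f.ty).trans (comm_le_right ny)
  · have lt : T.subgroupOf H ≤ normalClosure (Y.subgroupOf H : Set H) :=
      (subgroupOf_mono H f.ty).trans le_normalClosure
    have lk : (⁅K, T⁆).subgroupOf H ≤ normalClosure (Y.subgroupOf H : Set H) := by
      rw [subgroupOf_comm lK lT]
      exact (commutator_mono le_rfl lt).trans (commutator_le_right _ _)
    rw [e] at lk
    rw [eq_top_iff, ← subgroupOf_self]
    exact (subgroupOf_sup lK lT).le.trans (sup_le lk lt)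

theorem St.nf (h : St K Q) (a : ∀ {Y R T}, Fr Q Q Y R T → R ≤ 𝐂 T) (hR : Syl 2 R Q) (n : ¬ Abel R) : WF Q := by
  have cb : ∀ {Y : Subgroup G} {y : G}, Conj Q Y → Q ≠ Y → y ∈ Y → y ∈ 𝐍 Q → E2 y → y ∈ CZ 2 Q :=
    fun {Y y} b ne hy m p => by
      by_cases y1 : y = 1
      · exact y1 ▸ one_mem _
      obtain ⟨R1, T, f, l⟩ := h.ti.fr (.refl Q) b ne p.zpowers (ne_bot_of_mem (mem_zpowers y) y1)
        (zpowers_le.2 ⟨hy, m⟩)
      have sT := f.full (a f)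
      obtain ⟨t, ht, i⟩ := ex_iv' (A := T ⊓ K) f.t.pi.inf_left fun d => by
        obtain ⟨g, rfl⟩ := b
        obtain ⟨k, -, e⟩ := (hR.cj g).syl_conj sT
        have := h.tyo f d
        rw [e, abel_cj, abel_cj] at this
        exact n this
      have ny : Q ≤ 𝐍 Y := (cent_symm h.kq).trans ((cent_le_cent1 ht.2).trans (h.ti.cen b i.piElt i.ne_one (f.ty ht.1)))
      refine zpowers_le.1 (CT.le_CZ (zpowers_le.2 m) (le_trans (le_inf (comm_le_right (zpowers_le.2 m))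
        ((commutator_mono (zpowers_le.2 hy) le_rfl).trans (comm_le_left ny))) (le_O ?_ (h.ti.odd (.refl Q) b ne))))
      exact ⟨inf_le_left, norm_inf (le_norm_self Q) ny⟩
  refine ⟨h.ti, h.h1, h.ne, h.nse, fun {X Y y} ⟨g, e⟩ b ne hy m p => ?_, ?_⟩
  · subst e
    rw [← cj_CZ, mem_cj]
    refine cb (Y := cj g⁻¹ Y) (conj_cj_right.2 b) (fun e => ne (by rw [e, cj_cj_inv])) (by simpa using (conj_mem_cj (g := g⁻¹)).2 hy)
      (by rwa [← mem_cj, cj_norm]) (by simpa using p.conj g⁻¹)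
  · by_contra! c
    refine n fun x hx y hy => ?_
    have sq : ∀ r ∈ R, r * r = 1 := fun r hr => (c r (hR.le hr) (hR.pi.elt hr)).1
    have := sq _ (R.mul_mem hy hx)
    rw [← inv_eq_iff_mul_eq_one, mul_inv_rev, inv_eq_of_mul_eq_one_right (sq x hx),
      inv_eq_of_mul_eq_one_right (sq y hy)] at this
    exact this.symm

end CF.Te
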