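/-
Tightly embedded subgroups, world V: basics.
-/
import Cfsg.Agent.Te.BX
set_option autoImplicit false
set_option linter.unusedSectionVars false
set_option linter.unusedVariables false

namespace CF.Te
open Subgroup Cfsg CF.BG CF.Sig CF.GW CF.Ab2 CF.CT
open scoped commutatorElement

universe u
variable {G : Type u} [Group G] [Finite G]
variable {A A' B B' H J K L M N P Q R R' S S' T T' U V V' W X X' Y Y' Z Z' : Subgroup G}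
  {a b c d e g h k n r s t t' u v w x x' y z : G}

namespace V1

theorem sq2 (e : Abelem 2 V) (hx : x ∈ V) : x * x = 1 := by
  have := e.pow x hx
  rwa [pow_two] at this

theorem inO (hx : x ∈ R) (q : x * x = 1) : x ∈ 𝛀 2 R := mem_Om hx (by rw [pow_two]; exact q)

theorem om_le (k : ∀ x ∈ R, x * x = 1 → x ∈ H) : 𝛀 2 R ≤ H :=
  Om_le_iff.2 fun x hx q => k x hx (by rw [← pow_two]; exact q)

theorem inv_eq (q : x * x = 1) : x⁻¹ = x := inv_eq_of_mul_eq_one_right q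

theorem e2 (q : x * x = 1) : E2 x := piElt_of_pow_eq_one Nat.prime_two (by rw [pow_two]; exact q)

theorem iv_of (k : Four V) : ∃ v ∈ V, Iv v := by
  obtain ⟨a, ha, b, hb, f⟩ := k
  exact ⟨a, ha, f.l⟩

theorem ne_bot (k : Four V) : V ≠ ⊥ := by
  obtain ⟨v, hv, i⟩ := iv_of k
  exact ne_bot_of_mem hv i.ne_one

/-- a 2-group `B` normalising `X` and its Sylow subgroup `R` -/
theorem syl_sup (s : Syl 2 R X) (p : P2 B) (n : B ≤ 𝐍 X) (m : B ≤ 𝐍 R) : Syl 2 (R ⊔ B) (X ⊔ B) := by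
  obtain ⟨S, hS, l⟩ := exists_syl_le (sup_le_sup_right s.le B) (s.pi.sup p (.inr m))
  have k : S ⊓ X = R := (s.eq_of_le (le_inf (le_sup_left.trans l) s.le) inf_le_right hS.pi.inf_left).symm
  have : S = R ⊔ B := by
    rw [← k, ← inf_sup_right (le_sup_right.trans l) (.inr n)]
    exact (inf_eq_left.2 hS.le).symm
  rwa [← this]

theorem sup_inf (s : Syl 2 R X) (p : P2 B) (m : B ≤ 𝐍 R) : (R ⊔ B) ⊓ X = R :=
  (s.eq_of_le (le_inf le_sup_left s.le) inf_le_right (s.pi.sup p (.inr m)).inf_left).symm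

/-- two `B`-invariant Sylow subgroups -/
theorem lc (s : Syl 2 R X) (s' : Syl 2 R' X) (p : P2 B) (n : B ≤ 𝐍 X) (m : B ≤ 𝐍 R) (m' : B ≤ 𝐍 R') :
    ∃ y ∈ X, cj y R = R' ∧ cj y B ≤ R' ⊔ B := by
  obtain ⟨g, hg, e⟩ := (syl_sup s p n m).syl_conj (syl_sup s' p n m')
  obtain ⟨y, hy, b, hb, rfl⟩ := (mem_sup_norm' n).1 hg
  rw [← cj_cj, cj_of_mem (mem_sup_right hb)] at e
  refine ⟨y, hy, ?_, e ▸ cj_mono y le_sup_right⟩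
  rw [← sup_inf s p m, cj_inf, ← e, cj_of_mem hy, sup_inf s' p m']

theorem le_sup_of_sq (s : Syl 2 R H) (n : H ≤ 𝐍 N) (q : ∀ y ∈ H, y * y ∈ N) : H ≤ N ⊔ R := by
  have p : P2 (qt N H) := piGrp_of_forall_elt fun z hz => by
    obtain ⟨y, hy, hn, rfl⟩ := mem_qt.1 hz
    exact e2 (by rw [← qe_mul hn hn]; exact qe_of_mem (q y hy))
  exact (qt_le_qt_iff n (s.le.trans n)).1 ((s.qt n).eq_of_pi p).ge

end V1
open V1

theorem Vg.le (v : Vg X V) : V ≤ X := by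
  obtain ⟨R, s, rfl⟩ := v
  exact (Om_le 2 R).trans s.le

theorem Vg.act (v : Vg X V) (g : G) : Vg (cj g X) (cj g V) := by
  obtain ⟨R, s, rfl⟩ := v
  exact ⟨cj g R, s.cj g, cj_Om g 2 R⟩

theorem WV.om' (h : WV P) (a : Conj P X) (p : P2 S) (l : S ≤ X) (hv : v ∈ S) (q : v * v = 1) : v ∈ 𝐂 S := by
  obtain ⟨R, s, k⟩ := exists_syl_le l p
  exact cent_anti k (h.om a s (k hv) q)

theorem WV.omc (h : WV P) (a : Conj P X) (p : P2 S) (l : S ≤ X) : 𝛀 2 S ≤ 𝐂 S :=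
  om_le fun x hx q => h.om' a p l hx q

theorem WV.el (h : WV P) (a : Conj P X) (v : Vg X V) : Abelem 2 V := by
  obtain ⟨R, s, rfl⟩ := v
  exact abelem_Om Nat.prime_two ((h.omc a s.pi s.le).trans (cent_anti (Om_le 2 R)))

theorem WV.v4 (h : WV P) (a : Conj P X) (v : Vg X V) : Four V := by
  obtain ⟨R, s, rfl⟩ := v
  obtain ⟨x, hx, y, hy, f⟩ := (h.four.conj a).syl s
  exact ⟨x, inO hx f.l.sq, y, inO hy f.r.sq, f⟩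

theorem WV.card (h : WV P) (a : Conj P X) (b : Conj P Y) (v : Vg X V) (v' : Vg Y V') : ♯V = ♯V' := by
  obtain ⟨R, s, rfl⟩ := v
  obtain ⟨R', s', rfl⟩ := v'
  obtain ⟨g, rfl⟩ := a.symm.trans b
  obtain ⟨k, -, rfl⟩ := (s.cj g).syl_conj s'
  rw [← cj_Om, ← cj_Om, card_cj, card_cj]

theorem WV.vg' (h : WV P) (a : Conj P X) (b : Conj P Y) (v : Vg Y V') (e : Abelem 2 V) (l : V ≤ X)
    (c : ♯V' ≤ ♯V) : Vg X V := by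
  obtain ⟨R, s, k⟩ := exists_syl_le l e.pi
  exact ⟨R, s, eq_of_card_le (e.le_Om k) (by rw [h.card a b ⟨R, s, rfl⟩ v]; exact c)⟩

theorem WV.mem (h : WV P) (a : Conj P X) (v : Vg X V) (p : P2 S) (l : V ≤ S) (hx : x ∈ S ⊓ X)
    (q : x * x = 1) : x ∈ V := by
  obtain ⟨R, s, k⟩ := exists_syl_le (inf_le_right : S ⊓ X ≤ X) p.inf_left
  rw [eq_of_card_eq ((h.el a v).le_Om ((le_inf l v.le).trans k)) (h.card a a v ⟨R, s, rfl⟩)]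
  exact inO (k hx) q

theorem WV.uniq (h : WV P) (a : Conj P X) (v : Vg X V) (v' : Vg X V') (p : P2 S) (l : V ≤ S) (l' : V' ≤ S) :
    V = V' :=
  le_antisymm (fun x hx => h.mem a v' p l' ⟨l hx, v.le hx⟩ (sq2 (h.el a v) hx))
    fun x hx => h.mem a v p l ⟨l' hx, v'.le hx⟩ (sq2 (h.el a v') hx)

theorem WV.vg (h : WV P) (a : Conj P X) (v : Vg X V) (l : V ≤ H) (s : Syl 2 S (X ⊓ H)) : Vg X (𝛀 2 S) := by
  obtain ⟨g, -, k⟩ := s.syl_cj_le (le_inf v.le l) (h.el a v).pi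
  have l1 : S ≤ X := s.le.trans inf_le_left
  refine h.vg' a a v (abelem_Om Nat.prime_two ((h.omc a s.pi l1).trans (cent_anti (Om_le 2 S)))) ((Om_le 2 S).trans l1) ?_
  rw [← card_cj g V]
  exact card_le (((h.el a v).cj g).le_Om k)

theorem WV.nel (h : WV P) (a : Conj P X) (s : Syl 2 R X) : ∃ r ∈ R, r * r ≠ 1 := by
  obtain ⟨r, hr, p, n⟩ := h.ne
  obtain ⟨g, rfl⟩ := a
  obtain ⟨k, -, l⟩ := s.syl_cj_le (zpowers_le.2 (conj_mem_cj.2 hr)) (p.conj g).zpowers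
  refine ⟨_, l (conj_mem_cj.2 (mem_zpowers _)), fun e => n ?_⟩
  have : r * r = (k * g)⁻¹ * (k * (g * r * g⁻¹) * k⁻¹ * (k * (g * r * g⁻¹) * k⁻¹)) * (k * g) := by group
  rw [this, e]; group

theorem WV.fr0 (h : WV P) (f : Fr P X Y R T) : 𝛀 2 R ≤ 𝐂 T :=
  (h.tc f).elim (Om_le 2 R).trans fun k => om_le k.2

theorem WV.fr (h : WV P) (f : Fr P X Y R T) : Vg Y (𝛀 2 T) ∧ 𝛀 2 R ≤ 𝐂 T := by
  refine ⟨?_, h.fr0 f⟩
  obtain ⟨R', f', e, -⟩ := f.symm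
  refine ⟨R', f'.r, Om_eq_of_le (e ▸ inf_le_left) ?_⟩
  rw [← e]
  exact le_inf (Om_le 2 R') (h.fr0 f')

theorem TI.sn (h : TI P) (a : Conj P X) (s : Syl 2 R X) : 𝐍 R ≤ 𝐍 X := h.nor a s.pi (h.syl_ne a s) s.le

theorem WV.nv (h : WV P) (a : Conj P X) (v : Vg X V) : 𝐍 V ≤ 𝐍 X :=
  h.ti.nor a (h.el a v).pi (ne_bot (h.v4 a v)) v.le

theorem WV.cv (h : WV P) (a : Conj P X) (v : Vg X V) : 𝐂 V ≤ 𝐍 X := (cent_le_norm V).trans (h.nv a v)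

theorem TI.fry (h : TI P) (a : Conj P X) (b : Conj P Y) (ne : X ≠ Y) (s : Syl 2 R X) (p : P2 B) (n : B ≠ ⊥)
    (l : B ≤ Y) (m : B ≤ 𝐍 R) :
    ∃ R' T, Fr P X Y R' T ∧ B ≤ T ∧ ∃ y ∈ X, cj y R = R' ∧ cj y B ≤ R' ⊔ B := by
  have k := m.trans (h.sn a s)
  obtain ⟨R', T, f, l'⟩ := h.fr a b ne p n (le_inf l k)
  exact ⟨R', T, f, l', lc s f.r p k m (l'.trans f.n)⟩

/-- lemma (C) -/
theorem WV.lc (h : WV P) (a : Conj P X) (b : Conj P Y) (s : Syl 2 R X) (i : Iv d) (m : d ∈ Y) (n : d ∈ 𝐍 R) :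
    d ∈ 𝐂 (𝛀 2 R) := by
  by_cases ne : X = Y
  · subst ne
    exact cent_anti (Om_le 2 R) (h.om a s (s.mem_of_norm m n i.piElt) i.sq)
  obtain ⟨R', T, f, l, y, hy, e, k⟩ := h.ti.fry a b ne s i.piGrp
    (ne_bot_of_mem (mem_zpowers d) i.ne_one) (zpowers_le.2 m) (zpowers_le.2 n)
  have : cj y (zpowers d) ≤ 𝐂 (cj y (𝛀 2 R)) := by
    rw [cj_Om, e]
    exact k.trans (sup_le (cent_symm (h.omc a f.r.pi f.r.le)) (l.trans (cent_symm (h.fr0 f))))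
  exact cj_cent_iff.1 this (mem_zpowers d)

theorem WV.c0 (h : WV P) : C0 P := by
  intro X Y S d e a b ne i j m n l p hd he
  obtain ⟨R, s, k, k'⟩ := ex_inv (p.inf_left (K := 𝐍 X)) inf_le_right
  exact (mem_cent.1 (h.lc a b s i m (k' ⟨hd, n⟩)) e (inO (k ⟨⟨he, le_norm_self X l⟩, l⟩) j.sq)).symm

theorem WV.cf (h : WV P) (a : Conj P X) (b : Conj P Y) (ne : X ≠ Y) (f : Fu X Y) (s : Syl 2 R X) (i : Iv d)
    (m : d ∈ Y) (n : d ∈ 𝐍 R) : d ∈ 𝐂 R := by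
  obtain ⟨R', T, f', l, y, hy, e, k⟩ := h.ti.fry a b ne s i.piGrp
    (ne_bot_of_mem (mem_zpowers d) i.ne_one) (zpowers_le.2 m) (zpowers_le.2 n)
  have c := cent_symm (f'.fu.1 f)
  obtain ⟨ρ, hρ, δ, hδ, e'⟩ := (mem_sup_norm' (l.trans f'.n)).1 (k (conj_mem_cj.2 (mem_zpowers d)))
  have q : δ * δ = 1 := by
    rcases i.mem_zpowers.1 hδ with rfl | rfl
    · simp
    · exact i.sq
  have c' := mem_cent.1 (c (l hδ)) ρ hρ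
  have q' : ρ * ρ = 1 := by
    have := (i.conj y).sq
    rw [← e'] at this
    calc ρ * ρ = ρ * (ρ * δ) * δ := by rw [mul_assoc, mul_assoc, q, mul_one]
      _ = 1 := by rw [c', ← this]; group
  rw [← conj_mem_cj (g := y), cj_cent, e, ← e']
  exact mul_mem (h.om a f'.r hρ q') (c (l hδ))

theorem Vf.act (f : Vf P X Y R V) (g : G) : Vf P (cj g X) (cj g Y) (cj g R) (cj g V) :=
  ⟨f.w, conj_cj_right.2 f.x, conj_cj_right.2 f.y, fun e => f.ne (cj_inj.1 e), f.r.cj g, f.v.act g,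
    cj_norm_iff.2 f.n⟩

theorem Vf.vg (f : Vf P X Y R V) : Vg X (𝛀 2 R) := ⟨R, f.r, rfl⟩

theorem Vf.ev (f : Vf P X Y R V) : Abelem 2 V := f.w.el f.y f.v

theorem Vf.eo (f : Vf P X Y R V) : Abelem 2 (𝛀 2 R) := f.w.el f.x f.vg

theorem Vf.rc (f : Vf P X Y R V) : R ≤ 𝐂 (𝛀 2 R) := cent_symm (f.w.omc f.x f.r.pi f.r.le)

theorem Vf.vn (f : Vf P X Y R V) : V ≤ 𝐍 X := f.n.trans (f.w.ti.sn f.x f.r)

theorem Vf.cv (f : Vf P X Y R V) : V ≤ 𝐂 (𝛀 2 R) := fun v hv => by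
  by_cases n : v = 1
  · exact n ▸ one_mem _
  · exact f.w.lc f.x f.y f.r (.mk' n (sq2 f.ev hv)) (f.v.le hv) (f.n hv)

theorem Vf.el (f : Vf P X Y R V) : Abelem 2 (V ⊔ 𝛀 2 R) := f.ev.sup f.eo f.cv

theorem Vf.dj (f : Vf P X Y R V) : V ⊓ X = ⊥ :=
  f.w.ti.bot f.x f.y f.ne f.ev.pi.inf_left inf_le_right (inf_le_left.trans f.v.le)

theorem Vf.fu (f : Vf P X Y R V) : Fu X Y ↔ R ≤ 𝐂 V := by
  refine ⟨fun k => cent_symm fun v hv => ?_, fun k => f.w.ti.fu_symm f.y f.x ⟨R, f.r, k.trans (f.w.cv f.y f.v)⟩⟩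
  by_cases n : v = 1
  · exact n ▸ one_mem _
  · exact f.w.cf f.x f.y f.ne k f.r (.mk' n (sq2 f.ev hv)) (f.v.le hv) (f.n hv)

theorem WV.bx (h : WV P) (f : Fr P X Y R T) (n : ¬ R ≤ 𝐂 T) : BX T (R ⊓ 𝐂 T) R := by
  have := f.bx n
  rwa [show Xo R T = R from le_antisymm inf_le_left ((h.tc f).resolve_left n).1] at this

theorem V1.sq_cm (c : t * s = s * t) (q : t * t = 1) (e : x * t * x⁻¹ = t * s) : s * s = 1 :=
  calc s * s = t * (t * s) * s := by rw [← mul_assoc t t, q, one_mul]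
    _ = x * t * x⁻¹ * (x * t * x⁻¹) := by rw [e]; nth_rw 1 [c]; group
    _ = x * (t * t) * x⁻¹ := by group
    _ = 1 := by rw [q]; group

theorem WV.cm0 (h : WV P) (f : Fr P X Y R T) (n : ¬ R ≤ 𝐂 T) (e : Abelem 2 V) (k : Four V) (d : V ⊓ X = ⊥)
    (c : V ≤ 𝐂 (𝛀 2 R)) (l : ∀ v ∈ V, ∃ t ∈ T, t * t = 1 ∧ ∃ ρ ∈ R, t * ρ = v) (hx : x ∈ R) (hv : v ∈ V) :
    v⁻¹ * (x * v * x⁻¹) ∈ 𝛀 2 R := by
  have b := h.bx f n
  have tc : ∀ t ∈ T, ∀ s ∈ R ⊓ 𝐂 T, t * s = s * t := fun t ht s hs => mem_cent.1 hs.2 t ht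
  have h2 : ∀ t ∈ T, t * t = 1 → ∀ ρ ∈ R, ρ⁻¹ * (x * ρ * x⁻¹) ∈ 𝛀 2 R →
      (t * ρ)⁻¹ * (x * (t * ρ) * x⁻¹) ∈ 𝛀 2 R := fun t ht q ρ hρ k => by
    have : (t * ρ)⁻¹ * (x * (t * ρ) * x⁻¹) =
      ρ⁻¹ * (t⁻¹ * (x * t * x⁻¹)) * ρ * (ρ⁻¹ * (x * ρ * x⁻¹)) := by group
    rw [this]
    have k' := b.cm x hx t ht
    exact mul_mem ((Om_normal 2 R).conj_mem' hρ
      (inO k'.1 (sq_cm (x := x) (tc t ht _ k') q (by group)))) k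
  by_cases el : Abelem 2 T
  · obtain ⟨t, ht, q, ρ, hρ, rfl⟩ := l v hv
    refine h2 t ht q ρ hρ ((b.el.2 el).le_Om inf_le_left ?_)
    have : ρ⁻¹ * (x * ρ * x⁻¹) = ρ⁻¹ * x * (ρ⁻¹ * x) * (x⁻¹ * ρ * x * (x⁻¹ * ρ * x)) * (x⁻¹ * x⁻¹) := by group
    rw [this]
    exact mul_mem (mul_mem (b.sq _ (mul_mem (inv_mem hρ) hx))
      (b.sq _ (mul_mem (mul_mem (inv_mem hx) hρ) hx))) (b.sq _ (inv_mem hx))
  have h3 : ∀ t ∈ T, t * t = 1 → ∀ ρ ∈ R ⊓ 𝐂 T, t * ρ ∈ V →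
      (t * ρ)⁻¹ * (x * (t * ρ) * x⁻¹) ∈ 𝛀 2 R := fun t ht q ρ hρ m => by
    refine h2 t ht q ρ hρ.1 ?_
    have : ρ * ρ = 1 :=
      calc ρ * ρ = t * (t * ρ) * ρ := by rw [← mul_assoc t t, q, one_mul]
        _ = 1 := by rw [← sq2 e m]; nth_rw 1 [tc t ht ρ hρ]; group
    rw [mem_cent.1 (h.om f.x f.r hρ.1 this) x hx]
    simp
  have h4 : ∀ t ∈ T, t * t = 1 → ∀ ρ ∈ R, ρ ∉ R ⊓ 𝐂 T → t * ρ ∈ V → ∀ t' ∈ T, t' * t' = 1 →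
      ∀ ρ' ∈ R, ρ' ∉ R ⊓ 𝐂 T → t' * ρ' ∈ V → t * ρ = t' * ρ' := fun t ht q ρ hρ n m t' ht' q' ρ' hρ' n' m' => by
    have hs := b.idx el ρ⁻¹ (inv_mem hρ) ρ' hρ' (fun k => n (by simpa using inv_mem k)) n'
    obtain ⟨s, rfl⟩ : ∃ s, ρ' = ρ * s := ⟨ρ⁻¹ * ρ', by group⟩
    rw [inv_mul_cancel_left] at hs
    have i := b.inv ρ hρ n s hs
    have a1 := sq2 e m
    have a2 := sq2 e m'
    have : t⁻¹ * t' = 1 := b.inj ρ hρ n _ (mul_mem (inv_mem ht) ht') (by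
      have u1 : ρ * t = t * ρ⁻¹ := by
        calc ρ * t = t * (t * t)⁻¹ * (t * ρ * (t * ρ)) * ρ⁻¹ := by group
          _ = _ := by rw [q, a1]; group
      have u2 : ρ * t' = t' * ρ⁻¹ * (ρ * s⁻¹ * ρ⁻¹ * s⁻¹) := by
        calc ρ * t' = t' * (t' * t')⁻¹ * (t' * ρ * (t' * s) * ρ * s) * (s⁻¹ * ρ⁻¹ * s⁻¹) := by group
          _ = t' * (t' * t')⁻¹ * (t' * (ρ * s) * (t' * (ρ * s))) * (s⁻¹ * ρ⁻¹ * s⁻¹) := by
            rw [tc t' ht' s hs]; group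
          _ = _ := by rw [q', a2]; group
      have u3 : ρ * s⁻¹ * ρ⁻¹ * s⁻¹ = 1 := by
        calc _ = (ρ * s * ρ⁻¹)⁻¹ * s⁻¹ := by group
          _ = 1 := by rw [i]; group
      rw [u3, mul_one] at u2
      rw [inv_eq q]
      calc ρ * (t * t') = t * (ρ⁻¹ * t') := by rw [← mul_assoc, u1]; group
        _ = t * (ρ⁻¹ * (t' * ρ⁻¹) * ρ) := by group
        _ = _ := by rw [← u2]; group)
    obtain rfl : t = t' := inv_mul_eq_one.1 this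
    have : (t * ρ)⁻¹ * (t * (ρ * s)) = 1 := eq_one_of_mem_bot d <| mem_inf.2 ⟨mul_mem (inv_mem m) m', by
      have : (t * ρ)⁻¹ * (t * (ρ * s)) = s := by group
      rw [this]; exact f.r.le hs.1⟩
    exact inv_mul_eq_one.1 this
  obtain ⟨t, ht, q, ρ, hρ, rfl⟩ := l v hv
  by_cases m : ρ ∈ R ⊓ 𝐂 T
  · exact h3 t ht q ρ m hv
  have h5 : ∀ w ∈ V, w ≠ t * ρ → w⁻¹ * (x * w * x⁻¹) ∈ 𝛀 2 R := fun w hw ne => by
    obtain ⟨t', ht', q', ρ', hρ', rfl⟩ := l w hw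
    refine h3 t' ht' q' ρ' (by_contra fun m' => ne ?_) hw
    exact h4 t' ht' q' ρ' hρ' m' hw t ht q ρ hρ m hv
  obtain ⟨w, hw, i, ne⟩ := k.third (t * ρ)
  generalize t * ρ = v at *
  have : v⁻¹ * (x * v * x⁻¹) =
    w * ((v * w)⁻¹ * (x * (v * w) * x⁻¹)) * w⁻¹ * (w⁻¹⁻¹ * (x * w⁻¹ * x⁻¹)) := by group
  rw [this]
  exact mul_mem (conj_mem_of_norm (cent_le_norm _ (c hw)) (h5 _ (mul_mem hv hw) (by simpa using i.ne_one)))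
    (by rw [inv_inv, i.inv_eq]; nth_rw 1 [← i.inv_eq]; exact h5 w hw ne)

theorem Vf.cm (f : Vf P X Y R V) (hx : x ∈ R) (ht : t ∈ V) : t⁻¹ * (x * t * x⁻¹) ∈ 𝛀 2 R := by
  by_cases n : Fu X Y
  · rw [← mem_cent.1 (f.fu.1 n hx) t ht]
    simp
  obtain ⟨R', T, f', l, y, hy, e, k⟩ := f.w.ti.fry f.x f.y f.ne f.r f.ev.pi (ne_bot (f.w.v4 f.y f.v)) f.v.le f.n
  have g := f.act y
  rw [cj_of_mem hy, e] at g
  have := f.w.cm0 f' (fun c => n (f'.fu.2 c)) g.ev (f.w.v4 g.y g.v) g.dj g.cv (fun v hv => by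
    obtain ⟨t, ht, ρ, hρ, e⟩ := (mem_sup_norm (l.trans f'.n)).1 (sup_comm R' V ▸ k hv)
    exact ⟨t, l ht, sq2 f.ev ht, ρ, hρ, e⟩) (e ▸ conj_mem_cj.2 hx) (conj_mem_cj.2 ht)
  rw [← conj_mem_cj (g := y), cj_Om, e]
  convert this using 1
  group

theorem Vf.nw (f : Vf P X Y R V) : R ≤ 𝐍 (V ⊔ 𝛀 2 R) :=
  le_norm_of_cj_le fun x hx => by
    rw [cj_sup, cj_of_cent (f.rc hx)]
    refine sup_le (fun v hv => ?_) le_sup_right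
    obtain ⟨t, ht, rfl⟩ := mem_cj_iff.1 hv
    rw [← mul_inv_cancel_left t (x * t * x⁻¹)]
    exact mul_mem (mem_sup_left ht) (mem_sup_right (f.cm hx ht))

theorem Vf.pi (f : Vf P X Y R V) : P2 (R ⊔ V) := f.r.pi.sup f.ev.pi (.inr f.n)

theorem Vf.inj (f : Vf P X Y R V) (hx : x ∈ R) (n : x ∉ 𝐂 V) (ht : t ∈ V) (c : x * t = t * x) : t = 1 := by
  by_contra n1
  have := f.w.ti.cen f.y (f.ev.pi.elt ht) n1 (f.v.le ht) (mem_cent1.2 c)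
  exact n (mem_cent.2 fun v hv => (f.w.ti.cm f.x f.y f.ne f.pi ⟨⟨mem_sup_left hx, f.r.le hx⟩, this⟩
    ⟨⟨mem_sup_right hv, f.v.le hv⟩, f.vn hv⟩).symm)

theorem Vf.card (f : Vf P X Y R V) : ♯V = ♯(𝛀 2 R) := f.w.card f.y f.x f.v f.vg

theorem Vf.sur (f : Vf P X Y R V) (hx : x ∈ R) (n : x ∉ 𝐂 V) (hs : s ∈ 𝛀 2 R) :
    ∃ t ∈ V, x * t * x⁻¹ = t * s := by
  let φ : V → 𝛀 2 R := fun t => ⟨_, f.cm hx t.2⟩
  have i : Function.Injective φ := fun t t' e => by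
    have e' : (t : G)⁻¹ * (x * t * x⁻¹) = (t' : G)⁻¹ * (x * t' * x⁻¹) := congrArg Subtype.val e
    have := f.inj hx n (mul_mem t'.2 (inv_mem t.2)) (by
      calc x * ((t' : G) * (t : G)⁻¹)
          = t' * ((t' : G)⁻¹ * (x * t' * x⁻¹)) * ((t : G)⁻¹ * (x * t * x⁻¹))⁻¹ * (t : G)⁻¹ * x := by group
        _ = _ := by rw [e']; group)
    exact Subtype.ext (mul_inv_eq_one.1 this).symm
  obtain ⟨t, e⟩ := ((Nat.bijective_iff_injective_and_card φ).2 ⟨i, f.card⟩).2 ⟨s, hs⟩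
  exact ⟨t, t.2, by rw [← show (t : G)⁻¹ * (x * t * x⁻¹) = s from congrArg Subtype.val e]; group⟩

theorem Vf.cw (f : Vf P X Y R V) : R ⊓ 𝐂 (V ⊔ 𝛀 2 R) = R ⊓ 𝐂 V := by
  rw [cent_sup, inf_comm (𝐂 V), ← inf_assoc, inf_eq_left.2 f.rc]

theorem Vf.syl (f : Vf P X Y R V) : Syl 2 (R ⊓ 𝐂 V) (X ⊓ 𝐍 Y) := by
  have cy := f.w.cv f.y f.v
  have s := (f.r.of_le (le_inf f.r.le f.nw) inf_le_left).inf_normal (N := X ⊓ 𝐂 (V ⊔ 𝛀 2 R))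
    ⟨inf_le_inf_left _ (cent_le_norm _), norm_inf_cent (inf_le_left.trans (le_norm_self X)) inf_le_right⟩
  rw [← inf_assoc, inf_eq_left.2 f.r.le, f.cw] at s
  obtain ⟨R', T, f', l, m⟩ := f.w.ti.fr2 f.x f.y f.ne f.ev.pi (ne_bot (f.w.v4 f.y f.v)) (le_inf f.v.le f.vn)
    f.eo.pi (le_inf f.vg.le ((cent_symm f.cv).trans cy)) f.cv
  refine f'.syl.of_card_le (inf_le_inf f.r.le cy) f.r.pi.inf_left (s.card_le ?_ f'.r.pi.inf_left)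
  refine le_inf (inf_le_left.trans f'.r.le) (le_cent_sup (inf_le_right.trans (cent_anti l)) ?_)
  exact inf_le_left.trans (cent_symm fun v hv => f.w.om f.x f'.r (m hv).1 (sq2 f.eo hv))

theorem Vf.ou (f : Vf P X Y R V) : 𝛀 2 R ≤ R ⊓ 𝐂 V := le_inf (Om_le 2 R) (cent_symm f.cv)

theorem Vf.inv (f : Vf P X Y R V) (hx : x ∈ R) (n : x ∉ 𝐂 V) : x * x ∈ 𝛀 2 R ∧ Abel (R ⊓ 𝐂 V) ∧
    ∀ s ∈ R ⊓ 𝐂 V, x * s * x⁻¹ = s⁻¹ := by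
  obtain ⟨R', T, f', l, m⟩ := f.w.ti.fr2 f.x f.y f.ne f.ev.pi (ne_bot (f.w.v4 f.y f.v)) (le_inf f.v.le f.vn)
    f.r.pi.inf_left f.syl.le (cent_symm inf_le_right)
  have e := f.syl.eq_of_le' f'.syl m
  have b := f.w.bx f' fun c => n (f.fu.1 (f'.fu.2 c) hx)
  rw [← e] at b
  have n1 : R ≤ 𝐍 (R ⊓ 𝐂 V) := f.cw ▸ norm_inf_cent (le_norm_self R) f.nw
  have n2 : R' ≤ 𝐍 (R ⊓ 𝐂 V) := le_norm_iff.2 fun y hy s hs => by
    by_cases k : y ∈ R ⊓ 𝐂 V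
    · exact mul_mem (mul_mem k hs) (inv_mem k)
    · exact b.inv y hy k s hs ▸ inv_mem hs
  obtain ⟨g, hg, e'⟩ := (f.r.of_le (le_inf f.r.le n1) inf_le_left).syl_conj
    (f'.r.of_le (le_inf f'.r.le n2) inf_le_left)
  have hy : g * x * g⁻¹ ∈ R' := e' ▸ conj_mem_cj.2 hx
  have ny : g * x * g⁻¹ ∉ R ⊓ 𝐂 V := fun k => n ((mem_norm.1 hg.2 x).2 k).2
  have i : ∀ s ∈ R ⊓ 𝐂 V, x * s * x⁻¹ = s⁻¹ := fun s hs => by
    have := b.inv _ hy ny _ (conj_mem_of_norm hg.2 hs)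
    calc _ = g⁻¹ * (g * x * g⁻¹ * (g * s * g⁻¹) * (g * x * g⁻¹)⁻¹) * g := by group
      _ = _ := by rw [this]; group
  refine ⟨inO (mul_mem hx hx) ?_, b.aU, i⟩
  have := i (x * x) ((mem_norm.1 hg.2 _).2 (by convert b.sq _ hy using 1; group))
  calc _ = x * (x * x) * x⁻¹ * (x * x) := by group
    _ = 1 := by rw [this]; group

theorem Vf.dec (f : Vf P X Y R V) (hw : w ∈ V ⊔ 𝛀 2 R) : ∃ t ∈ V, ∃ s ∈ 𝛀 2 R, t * s = w :=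
  (mem_sup_norm (norm_of_cent f.cv)).1 hw

/-- translations from their action on `V` -/
theorem Vf.tl' (f : Vf P X Y R V) (c : y ∈ 𝐂 (𝛀 2 R)) (cm : ∀ t ∈ V, t⁻¹ * (y * t * y⁻¹) ∈ 𝛀 2 R) (n : y ∉ 𝐂 V) :
    Tl (V ⊔ 𝛀 2 R) (𝛀 2 R) y := by
  have k : ∀ w ∈ V ⊔ 𝛀 2 R, w⁻¹ * (y * w * y⁻¹) ∈ 𝛀 2 R := fun w hw => by
    obtain ⟨t, ht, s, hs, rfl⟩ := f.dec hw
    have : (t * s)⁻¹ * (y * (t * s) * y⁻¹) = s⁻¹ * (t⁻¹ * (y * t * y⁻¹)) * (y * s * y⁻¹) := by group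
    rw [this]
    exact mul_mem (mul_mem (inv_mem hs) (cm t ht)) (conj_mem_of_norm (cent_le_norm _ c) hs)
  refine ⟨mem_norm_of_cj_le fun v hv => ?_, c, k, fun m => n (cent_anti le_sup_left m)⟩
  obtain ⟨w, hw, rfl⟩ := mem_cj_iff.1 hv
  rw [← mul_inv_cancel_left w (y * w * y⁻¹)]
  exact mul_mem hw (mem_sup_right (k w hw))

theorem Vf.tl (f : Vf P X Y R V) (hx : x ∈ R) (n : x ∉ 𝐂 V) : Tl (V ⊔ 𝛀 2 R) (𝛀 2 R) x :=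
  f.tl' (f.rc hx) (fun _ ht => f.cm hx ht) n

theorem WV.ln (h : WV P) (a : Conj P X) (v : Vg X V) (e : Abelem 2 W) (l : V ≤ W) (c : ♯V * ♯V = ♯W) :
    Ln P W V :=
  ⟨X, a, le_antisymm (le_inf l v.le) fun x hx => h.mem a v e.pi l hx (sq2 e hx.1), c⟩

theorem Vf.cardW (f : Vf P X Y R V) : ♯V * ♯V = ♯(V ⊔ 𝛀 2 R) := by
  rw [card_sup_of_inf_bot (.inl (norm_of_cent f.cv)) (eq_bot_mono f.dj (inf_le_inf_left V f.vg.le)), f.card]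

theorem Vf.ln (f : Vf P X Y R V) : Ln P (V ⊔ 𝛀 2 R) V ∧ Ln P (V ⊔ 𝛀 2 R) (𝛀 2 R) :=
  ⟨f.w.ln f.y f.v f.el le_sup_left f.cardW, f.w.ln f.x f.vg f.el le_sup_right (f.card ▸ f.cardW)⟩

/-- a frame with given `V`-groups -/
theorem WV.vf (h : WV P) (a : Conj P X) (b : Conj P Y) (ne : X ≠ Y) (v : Vg X V') (w : Vg Y V) (p : P2 S)
    (l : V ⊔ V' ≤ S) (n : S ≤ 𝐍 X) : ∃ R, Vf P X Y R V ∧ 𝛀 2 R = V' ∧ S ≤ 𝐍 R ∧ S ⊓ X ≤ R := by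
  obtain ⟨R, s, k, k'⟩ := ex_inv p n
  exact ⟨R, ⟨h, a, b, ne, s, w, (le_sup_left.trans l).trans k'⟩,
    h.uniq a ⟨R, s, rfl⟩ v s.pi (Om_le 2 R) ((le_inf (le_sup_right.trans l) v.le).trans k), k', k⟩

/-- the opposite frame, invariant under a given 2-group -/
theorem Vf.opp (f : Vf P X Y R V) (p : P2 S) (l : V ⊔ 𝛀 2 R ≤ S) (n : S ≤ 𝐍 Y) :
    ∃ R', Vf P Y X R' (𝛀 2 R) ∧ 𝛀 2 R' = V ∧ S ≤ 𝐍 R' ∧ S ⊓ Y ≤ R' :=
  f.w.vf f.y f.x f.ne.symm f.v f.vg p (sup_comm V _ ▸ l) n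

end CF.Te
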