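/-
Tightly embedded subgroups, world V: translations.
-/
import Cfsg.Agent.Te.V1
import Cfsg.Agent.Te.CL
set_option autoImplicit false
set_option linter.unusedSectionVars false
set_option linter.unusedVariables false

namespace CF.Te
open Subgroup Cfsg CF.BG CF.Sig CF.GW CF.Ab2 CF.CT V1
open scoped commutatorElement

universe u
variable {G : Type u} [Group G] [Finite G]
variable {A A' B B' H J K L M N P Q R R' S S' T T' U V V' W X X' Y Y' Z Z' : Subgroup G}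
  {a b c d e g h k n r s t t' u v w x x' y z : G}

theorem Vf.cmod (f : Vf P X Y R V) (c : y ∈ 𝐂 (𝛀 2 R)) :
    y ∈ centMod V (𝛀 2 R) ↔ ∀ t ∈ V, t⁻¹ * (y * t * y⁻¹) ∈ 𝛀 2 R := by
  have : ∀ t ∈ V, ⁅y, t⁆ ∈ 𝛀 2 R ↔ t⁻¹ * (y * t * y⁻¹) ∈ 𝛀 2 R := fun t ht => by
    rw [mem_norm.1 (cent_le_norm _ (f.cv ht)) (t⁻¹ * _), commutatorElement_def]
    congr! 1
    group
  exact ⟨fun k t ht => (this t ht).1 (k.2 t ht), fun k => ⟨cent_le_norm _ c, fun t ht => (this t ht).2 (k t ht)⟩⟩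

theorem V1.sq_tr (k1 : s * z = z * s) (k2 : s * s = 1) (e : z * t * z⁻¹ = t * s) : t * (z * z) = z * z * t :=
  calc t * (z * z) = t * s * (s * z) * z := by rw [mul_assoc t, ← mul_assoc s, k2]; group
    _ = z * (t * s) * z := by rw [k1]; nth_rw 1 [← e]; group
    _ = _ := by rw [← e]; group

theorem Vf.cov (f : Vf P X Y R V) (hy : y ∈ X) (c : y ∈ 𝐂 (𝛀 2 R)) (cm : ∀ t ∈ V, t⁻¹ * (y * t * y⁻¹) ∈ 𝛀 2 R) :
    ∃ x ∈ R, x⁻¹ * y ∈ 𝐂 V := by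
  have n : X ⊓ 𝐂 (𝛀 2 R) ⊓ centMod V (𝛀 2 R) ≤ 𝐍 (𝐂 (V ⊔ 𝛀 2 R)) := fun z hz => by
    by_cases m : z ∈ 𝐂 V
    · exact le_norm_self _ (by rw [cent_sup]; exact ⟨m, hz.1.2⟩)
    · exact norm_le_norm_cent _ (f.tl' hz.1.2 ((f.cmod hz.1.2).1 hz.2) m).n
  have l : R ≤ X ⊓ 𝐂 (𝛀 2 R) ⊓ centMod V (𝛀 2 R) :=
    le_inf (le_inf f.r.le f.rc) fun x hx => (f.cmod (f.rc hx)).2 fun t => f.cm hx
  have := le_sup_of_sq (f.r.of_le l (inf_le_left.trans inf_le_left)) n (fun z hz => by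
      rw [cent_sup]
      refine mem_inf.2 ⟨mem_cent.2 fun t ht => ?_, mul_mem hz.1.2 hz.1.2⟩
      have k := (f.cmod hz.1.2).1 hz.2 t ht
      exact sq_tr (mem_cent.1 hz.1.2 _ k) (sq2 f.eo k) (by group)) (mem_inf.2 ⟨mem_inf.2 ⟨hy, c⟩, (f.cmod c).2 cm⟩)
  rw [sup_comm] at this
  obtain ⟨x, hx, z, hz, rfl⟩ := (mem_sup_norm (f.nw.trans (norm_le_norm_cent _))).1 this
  exact ⟨x, hx, by simpa using cent_anti le_sup_left hz⟩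

theorem Vf.ex (f : Vf P X Y R V) (n : ¬ Fu X Y) : ∃ x ∈ R, x ∉ 𝐂 V := by
  by_contra! k
  exact n (f.fu.2 k)

theorem Vf.wn (f : Vf P X Y R V) : V ⊔ 𝛀 2 R ≤ 𝐍 Y := (f.el.abel.cent le_rfl le_sup_left).trans (f.w.cv f.y f.v)

/-- a translation with centre `V'` is induced from the point of `V'` -/
theorem Vf.tr (f : Vf P X Y R V) (n : ¬ Fu X Y) (a : Conj P X') (v : Vg X' V') (l : V' ≤ V ⊔ 𝛀 2 R) (ne : X' ≠ X)
    (ty : Tl (V ⊔ 𝛀 2 R) V' y) : ∃ y' ∈ X', y⁻¹ * y' ∈ 𝐂 (V ⊔ 𝛀 2 R) := by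
  obtain ⟨x, hx, nx⟩ := f.ex n
  obtain ⟨w, hw, i⟩ := iv_of (f.w.v4 f.x f.vg)
  have tx := f.tl hx nx
  obtain ⟨g, -, e, c⟩ := (f.w.ti.sp f.el).conj f.ln.2
    (f.w.ln a v f.el l (by rw [f.w.card a f.y v f.v, f.cardW]))
    (fun e => ne (f.w.ti.eq a f.x i.piElt i.ne_one (v.le (e ▸ hw)) (f.vg.le hw))) tx.n ty.n tx ty
  refine ⟨_, ?_, c⟩
  rw [← f.w.ti.mv f.x a i.piElt i.ne_one (f.vg.le hw) (v.le (e ▸ conj_mem_cj.2 hw))]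
  exact conj_mem_cj.2 (f.r.le hx)

/-- `cov` for an element acting like an element of `X` -/
theorem Vf.cov' (f : Vf P X Y R V) (hy : z ∈ X) (e : y⁻¹ * z ∈ 𝐂 (V ⊔ 𝛀 2 R)) (c : y ∈ 𝐂 (𝛀 2 R))
    (cm : ∀ t ∈ V, t⁻¹ * (y * t * y⁻¹) ∈ 𝛀 2 R) : ∃ x ∈ R, x⁻¹ * y ∈ 𝐂 V := by
  rw [cent_sup] at e
  obtain ⟨x, hx, k⟩ := f.cov hy (by simpa using mul_mem c e.2) fun t ht => by
    convert cm t ht using 2
    calc z * t * z⁻¹ = y * (y⁻¹ * z * t) * z⁻¹ := by group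
      _ = _ := by rw [← mem_cent.1 e.1 t ht]; group
  exact ⟨x, hx, by simpa [mul_assoc] using mul_mem k (inv_mem e.1)⟩

theorem Vf.th (f : Vf P X Y R V) (n : ¬ Fu X Y) (c : y ∈ 𝐂 (𝛀 2 R)) (cm : ∀ t ∈ V, t⁻¹ * (y * t * y⁻¹) ∈ 𝛀 2 R) :
    ∃ x ∈ R, x⁻¹ * y ∈ 𝐂 V := by
  by_cases m : y ∈ 𝐂 V
  · exact ⟨1, one_mem _, by simpa using m⟩
  obtain ⟨R', f', e, -⟩ := f.opp f.el.pi le_rfl f.wn
  have e' : 𝛀 2 R ⊔ 𝛀 2 R' = V ⊔ 𝛀 2 R := by rw [e, sup_comm]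
  obtain ⟨z, hz, k⟩ := f'.tr (fun k => n (f.w.ti.fu_symm f.y f.x k)) f.x f.vg le_sup_left f.ne (e' ▸ f.tl' c cm m)
  exact f.cov' hz (e' ▸ k) c cm

theorem Vf.rho (f : Vf P X Y R V) (n : ¬ Fu X Y) (p : E2 y) (c : y ∈ 𝐂 V) (i : ∀ s ∈ R ⊓ 𝐂 V, y * s * y⁻¹ = s⁻¹)
    (q : y * y ∈ 𝛀 2 R) : y * y = 1 := by
  have uc : R ⊓ 𝐂 V ≤ 𝐂 V := inf_le_right
  have cy := f.w.cv f.y f.v
  obtain ⟨R', f', e, m, -⟩ := f.opp (S := V ⊔ R ⊓ 𝐂 V ⊔ zpowers y)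
    ((f.ev.pi.sup f.r.pi.inf_left (.inr (norm_of_cent uc))).sup p.zpowers
      (.inr (norm_sup (zp_le_norm (cent_le_norm _ c)) (zp_le_norm (Inv.norm i le_rfl)))))
    ((sup_le_sup_left f.ou V).trans le_sup_left)
    (sup_le (sup_le (f.v.le.trans (le_norm_self Y)) (uc.trans cy)) (zpowers_le.2 (cy c)))
  have hy : y ∈ 𝐍 R' := m (mem_sup_right (mem_zpowers y))
  obtain ⟨w, hw, iw⟩ := iv_of (f.w.v4 f.x f.vg)
  have g : Fr P Y X R' (R ⊓ 𝐂 V) := ⟨f.w.ti, f.y, f.x, f.ne.symm, f'.r, f.syl, ne_bot_of_mem (f.ou hw) iw.ne_one,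
    (le_sup_right.trans le_sup_left).trans m⟩
  have b := f.w.bx g fun k => n (f.w.ti.fu_symm f.y f.x (g.fu.2 k))
  obtain ⟨x, hx, nx⟩ := SetLike.not_le_iff_exists.1 b.ne
  have yw : y ∈ 𝐂 (𝛀 2 R ⊔ 𝛀 2 R') := by
    rw [cent_sup, e]
    refine ⟨mem_cent.2 fun s hs => ?_, c⟩
    rw [← mul_inv_eq_iff_eq_mul.1 ((i s (f.ou hs)).trans (inv_eq (sq2 f.eo hs)))]
  have nw := norm_le_norm_cent _ (f'.nw hx)
  have k : ∀ τ ∈ R', τ ∈ 𝐂 (𝛀 2 R ⊔ 𝛀 2 R') → τ ∈ R' ⊓ 𝐂 (R ⊓ 𝐂 V) := fun τ a b =>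
    g.cen (f.ou hw) iw.ne_one ▸ ⟨a, cent_le_cent1 (mem_sup_left hw) b⟩
  have k1 := k (y⁻¹ * (x * y * x⁻¹)) (by
    simpa [mul_assoc] using mul_mem (conj_mem_of_norm' hy hx) (inv_mem hx))
    (mul_mem (inv_mem yw) (conj_mem_of_norm nw yw))
  have k2 := k (x⁻¹ * y * x * y⁻¹) (by
    simpa [mul_assoc] using mul_mem (inv_mem hx) (conj_mem_of_norm hy hx))
    (mul_mem (conj_mem_of_norm' nw yw) (inv_mem yw))
  obtain ⟨u, hu, e1⟩ := b.sur x hx nx _ k1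
  have e2 := mem_cent.1 k2.2 _ (inv_mem hu)
  have e3 := mem_cent.1 k1.2 _ hu
  have e5 := mem_cent.1 k1.2 _ (f.ou q)
  generalize hτ : y⁻¹ * (x * y * x⁻¹) = τ at *
  have e4 : y * τ * y⁻¹ = τ⁻¹ :=
    calc y * τ * y⁻¹ = (y * u * y⁻¹)⁻¹ * (y * (u * τ) * y⁻¹) := by group
      _ = u * x * (x⁻¹ * y * x * y⁻¹ * (y * u * y⁻¹)) * (x⁻¹ * y * x * y⁻¹)⁻¹ * x⁻¹ := by
        rw [← e1]; nth_rw 1 [i u hu]; group
      _ = u * (x * u * x⁻¹)⁻¹ := by rw [i u hu, ← e2]; group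
      _ = τ⁻¹ := by rw [e1, e3]; group
  refine b.inj x hx nx _ (f.ou q) ?_
  calc x * (y * y) = y * (y⁻¹ * (x * y * x⁻¹)) * y⁻¹ * (y * y * (y⁻¹ * (x * y * x⁻¹))) * x := by group
    _ = _ := by rw [hτ, e4, e5]; group

/-- an involution of the line has a fixed point -/
theorem Vf.odd (f : Vf P X Y R V) (n : ¬ Fu X Y) (hu : u ∈ 𝐍 (V ⊔ 𝛀 2 R)) (u2 : u * u = 1) :
    ∃ X' V', Conj P X' ∧ Vg X' V' ∧ V' ≤ V ⊔ 𝛀 2 R ∧ u ∈ 𝐍 V' := by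
  obtain ⟨x, hx, nx⟩ := f.ex n
  have tx := f.tl hx nx
  obtain ⟨V', ⟨X', a, e, c⟩, m⟩ := (f.w.ti.sp f.el).fix f.ln.2 tx.n tx hu (u2 ▸ one_mem _)
  have l : V' ≤ V ⊔ 𝛀 2 R := e ▸ inf_le_left
  exact ⟨X', V', a, f.w.vg' a f.y f.v (f.el.le l) (e ▸ inf_le_right)
    (Nat.mul_self_inj.1 (f.cardW.trans c.symm)).le, l, m⟩

/-- the centre of an involution `v` of a point `J` swapping a pair that is not full -/
theorem WV.ctr (h : WV P) (a : Conj P L) (b : Conj P J) (v : Vg L V) (i : Iv t) (m : t ∈ J) (mv : t ∉ 𝐍 L)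
    (c : V ≤ 𝐂 (cj t V)) (dj : (V ⊔ cj t V) ⊓ J = ⊥) (n : ¬ Fu L (cj t L)) :
    ∃ X V', Conj P X ∧ X ≠ L ∧ X ≠ J ∧ Vg X V' ∧ ¬ Fu X L ∧ V' ≤ V ⊔ cj t V ∧ V' ≤ 𝐂₁ t ∧
      (∀ r ∈ V, r * (t * r * t) ∈ V') ∧ ∀ s ∈ V', ∃ r ∈ V, r * (t * r * t) = s := by
  have ev := h.el a v
  have el := ev.sup (ev.cj t) c
  have ti := i.inv_eq
  obtain ⟨R, f, e, -⟩ := h.vf a (conj_cj_right.2 a) (fun k => mv (cj_eq_self.1 k.symm)) v (v.act t) el.pi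
    (sup_comm V _).ge ((el.abel.cent le_rfl le_sup_left).trans (h.cv a v))
  have e' : cj t V ⊔ 𝛀 2 R = V ⊔ cj t V := by rw [e, sup_comm]
  have tw : t ∈ 𝐍 (V ⊔ cj t V) := by rw [← cj_eq_self, cj_sup, cj_cj, i.sq, cj_one, sup_comm]
  obtain ⟨X, V', a', v', l, m'⟩ := f.odd n (e' ▸ tw) i.sq
  rw [e'] at l
  have ev' := h.el a' v'
  have xl : X ≠ L := by
    rintro rfl
    exact mv (h.nv a v' m')
  have xj : X ≠ J := by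
    rintro rfl
    exact ne_bot (h.v4 b v') (eq_bot_mono dj (le_inf l v'.le))
  have ct : V' ≤ 𝐂₁ t := fun s hs => by
    by_cases s1 : s = 1
    · exact s1 ▸ one_mem _
    exact mem_cent1.2 (h.c0 a' b xj i (.mk' s1 (sq2 ev' hs)) m (h.nv a' v' m') (v'.le hs)
      (ev'.pi.sup i.piGrp (.inr (zp_le_norm m'))) (mem_sup_right (mem_zpowers t)) (mem_sup_left hs)).symm
  have tv : ∀ r ∈ V, t * r * t ∈ cj t V := fun r hr => by simpa [ti] using (conj_mem_cj (g := t)).2 hr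
  have ex : ∀ s ∈ (V ⊔ cj t V) ⊓ 𝐂₁ t, ∃ r ∈ V, r * (t * r * t) = s := fun s hs => by
    obtain ⟨r, hr, _, hq, rfl⟩ := (mem_sup_norm (norm_of_cent c)).1 hs.1
    obtain ⟨r', hr', e⟩ := mem_cj_iff.1 hq
    rw [ti] at e
    subst e
    have k := mem_cent1.1 hs.2
    have : r'⁻¹ * r = 1 := eq_one_of_mem_bot f.dj <| mem_inf.2 ⟨by
      have : r'⁻¹ * r = t * r * t * (t * r' * t)⁻¹ :=
        calc r'⁻¹ * r = r'⁻¹ * (r * (t * r' * t) * t) * t⁻¹ * (t * r' * t)⁻¹ := by group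
          _ = r'⁻¹ * (t * r * t * r') * (t * t⁻¹) * (t * r' * t)⁻¹ := by rw [k]; group
          _ = _ := by rw [mem_cent.1 (c hr') _ (tv r hr)]; group
      rw [this]
      exact mul_mem (tv r hr) (inv_mem (tv r' hr')), v.le (mul_mem (inv_mem hr') hr)⟩
    exact ⟨r, hr, by rw [inv_mul_eq_one.1 this]⟩
  have eq : V' = (V ⊔ cj t V) ⊓ 𝐂₁ t := by
    refine eq_of_card_le (le_inf l ct) ?_
    rw [h.card a' a v' v]
    choose! φ h1 h2 using ex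
    exact Nat.card_le_card_of_injective (fun s : ↥((V ⊔ cj t V) ⊓ 𝐂₁ t) => (⟨φ s, h1 _ s.2⟩ : V))
      fun s s' k => Subtype.ext (by rw [← h2 _ s.2, ← h2 _ s'.2, show φ s = φ s' from congrArg Subtype.val k])
  have cm : ∀ w ∈ V ⊔ cj t V, w⁻¹ * (t * w * t⁻¹) ∈ V' := fun w hw => by
    have hw' := conj_mem_of_norm tw hw
    rw [eq]
    refine mem_inf.2 ⟨mul_mem (inv_mem hw) hw', mem_cent1.2 ?_⟩
    rw [inv_eq (sq2 el hw)]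
    nth_rw 1 [el.abel.mul_comm hw hw']
    rw [ti]
    group
  refine ⟨X, V', a', xl, xj, v', fun k => ?_, l, ct, fun r hr => ?_, fun s hs => ex s (eq ▸ hs)⟩
  · have tc : t ∈ 𝐂 V' := le_cent1_iff.1 ct
    have nc : t ∉ 𝐂 V := fun k => mv (h.cv a v k)
    obtain ⟨z, hz, k'⟩ := f.tr n a' v' (e' ▸ l) xl
      (by rw [e']; exact ⟨tw, tc, cm, fun k => nc (cent_anti le_sup_left k)⟩)
    obtain ⟨R', f', rfl, -⟩ := h.vf a' a xl v' v el.pi (sup_le le_sup_left l)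
      ((el.abel.cent le_rfl l).trans (h.cv a' v'))
    obtain ⟨x, hx, k''⟩ := f'.cov' hz (cent_anti (e' ▸ sup_le le_sup_left l) k') tc fun r hr => cm r (mem_sup_left hr)
    exact nc (by simpa using mul_mem (f'.fu.1 k hx) k'')
  · simpa [ti, inv_eq (sq2 ev hr)] using cm r (mem_sup_left hr)

end CF.Te
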