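/-
Special triples: the local structure.
-/
import Cfsg.Agent.Te.V2
set_option autoImplicit false
set_option linter.unusedSectionVars false
set_option linter.unusedVariables false

namespace CF.Te
open Subgroup Cfsg CF.BG CF.Sig CF.GW CF.Ab2 CF.CT
open scoped commutatorElement

universe u
variable {G : Type u} [Group G] [Finite G]
variable {A B J K L P R S U V W X Y Z : Subgroup G} {a b c d e g k r s t t' u v w x x' y z : G}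

namespace S1
theorem cc (h : x ∈ 𝐂 K) (k : y ∈ K) : x * y = y * x := (h y k).symm
theorem cjc (h : x ∈ 𝐂 K) (k : y ∈ K) : x * y * x⁻¹ = y := by rw [cc h k, mul_inv_cancel_right]
theorem cjc' (h : x ∈ 𝐂 K) (k : y ∈ K) : y * x * y⁻¹ = x := by rw [h y k, mul_inv_cancel_right]
theorem rc (f : Vf P X Y R V) : R ≤ 𝐂 (𝛀 2 R) :=
  cent_symm (Om_le_iff.2 fun v hv e => f.w.om f.x f.r hv (by rwa [← pow_two]))
theorem elA (f : Vf P X Y R V) : Abelem 2 V := f.el.le le_sup_left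
theorem elV (f : Vf P X Y R V) : Abelem 2 (𝛀 2 R) := f.el.le le_sup_right
theorem VX (f : Vf P X Y R V) : 𝛀 2 R ≤ X := (Om_le _ _).trans f.r.le
theorem ex1 (f : Four V) : ∃ t ∈ V, t ≠ 1 := let ⟨a, h, _, _, p⟩ := f; ⟨a, h, p.l.ne_one⟩
theorem exA (f : Vf P X Y R V) : ∃ t ∈ V, t ≠ 1 := ex1 (f.w.v4 f.y f.v)
theorem exV (f : Vf P X Y R V) : ∃ t ∈ 𝛀 2 R, t ≠ 1 := ex1 (f.w.v4 f.x f.vg)
theorem dec (f : Vf P X Y R V) (hw : w ∈ V ⊔ 𝛀 2 R) : ∃ d ∈ V, ∃ v ∈ 𝛀 2 R, d * v = w := (mem_sup_norm (norm_of_cent f.cv)).1 hw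
theorem nX (f : Vf P X Y R V) : 𝐂 (𝛀 2 R) ≤ 𝐍 X :=
  let ⟨_, h, n⟩ := exV f; (cent_le_cent1 h).trans (f.w.ti.cen f.x ((elV f).pi.elt h) n (VX f h))
theorem nY (f : Vf P X Y R V) : 𝐂 V ≤ 𝐍 Y :=
  let ⟨_, h, n⟩ := exA f; (cent_le_cent1 h).trans (f.w.ti.cen f.y ((elA f).pi.elt h) n (f.v.le h))
theorem one (f : Vf P X Y R V) (a : t ∈ V) (b : t ∈ X) : t = 1 := eq_one_of_mem_bot f.dj ⟨a, b⟩
theorem WX (f : Vf P X Y R V) (a : w ∈ V ⊔ 𝛀 2 R) (b : w ∈ X) : w ∈ 𝛀 2 R := by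
  obtain ⟨d, h, v, k, rfl⟩ := dec f a
  rwa [one f h ((mul_mem_cancel_right (VX f k)).1 b), one_mul]
theorem om (hx : x ∈ R) (e : x * x = 1) : x ∈ 𝛀 2 R := mem_Om hx (by rwa [pow_two])
theorem out (f : Vf P X Y R V) (n : ¬ Fu X Y) : ∃ x ∈ R, x ∉ 𝐂 V := SetLike.not_le_iff_exists.1 (mt f.fu.2 n)
end S1
open S1

namespace Tri
variable (h : Tri P J L X A B R)
include h

theorem symm : Tri P L J X B A R :=
  ⟨h.b, h.a, fun d hd t ht => by simpa [mul_assoc] using inv_mem (h.cm _ (inv_mem ht) _ (inv_mem hd)),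
    fun d hd t ht e => (h.ns t ht d hd e.symm).symm, h.nb, h.na⟩

theorem ti : TI P := h.a.w.ti

theorem nB : B ≤ 𝐍 (R ⊔ A) := fun d hd => mem_norm_of_cj_le (by
  rw [cj_sup, cj_of_norm (h.b.n hd)]
  exact sup_le le_sup_left (cj_le_of fun t ht => by
    simpa using mul_mem (mem_sup_right ht) (mem_sup_left (Om_le _ _ (h.cm t ht d hd)) : _ ∈ R ⊔ A)))

theorem pi : P2 (R ⊔ A ⊔ B) := (h.a.r.pi.sup (elA h.a).pi (.inr h.a.n)).sup (elA h.b).pi (.inr h.nB)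

theorem cV : R ⊔ A ⊔ B ≤ 𝐂 (𝛀 2 R) := sup_le (sup_le (rc h.a) h.a.cv) h.b.cv

theorem cA (hd : d ∈ B) (c : d ∈ 𝐂 A) : d = 1 :=
  let ⟨t, ht, n⟩ := exA h.a; (h.ns t ht d hd (c t ht)).resolve_left n

theorem ex_x (ht : t ∈ A) : ∃ x ∈ R, x * t ∈ 𝐂 B :=
  let ⟨_, a, b⟩ := h.b.th h.nb (h.a.cv ht) fun d hd => h.symm.cm d hd t ht; ⟨_, inv_mem a, b⟩

theorem sur (hd : d ∈ B) (n : d ≠ 1) (hs : s ∈ 𝛀 2 R) : ∃ t ∈ A, d * t * d⁻¹ = t * s := by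
  obtain ⟨x, a, b⟩ := h.symm.ex_x hd
  obtain ⟨t, ht, e⟩ := h.a.sur (inv_mem a) (fun c => n (h.cA hd (by simpa using mul_mem c b))) hs
  exact ⟨t, ht, by rw [← e]; conv_rhs => rw [← cjc b ht]
                   group⟩

theorem sur' (hd : d ∈ B) (n : d ≠ 1) (hs : s ∈ 𝛀 2 R) : ∃ t ∈ A, t * d * t⁻¹ = d * s := by
  obtain ⟨t, ht, e⟩ := h.sur hd n hs
  refine ⟨t⁻¹, inv_mem ht, ?_⟩
  rw [cc (h.b.cv hd) hs, show t⁻¹ * d * t⁻¹⁻¹ = t⁻¹ * (d * t * d⁻¹) * d by group, e, inv_mul_cancel_left]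

theorem nf (hd : d ∈ B) (n : d ≠ 1) : cj d J ≠ J ∧ ¬ Fu J (cj d J) := by
  have ne : cj d J ≠ J := fun e => by
    obtain ⟨s, hs, m⟩ := exV h.a
    obtain ⟨t, ht, q⟩ := h.sur hd n hs
    have := conj_mem_of_norm (cj_eq_self.1 e) (h.a.v.le ht)
    rw [q, mul_mem_cancel_left (h.a.v.le ht)] at this
    exact h.a.ne (h.ti.eq h.a.x h.a.y ((elV h.a).pi.elt hs) m (VX h.a hs) this)
  refine ⟨ne, fun f => h.na (h.ti.fu_symm h.a.y h.a.x ?_)⟩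
  obtain ⟨R', f', o, m, -⟩ := h.a.opp h.a.el.pi le_rfl ((le_cent_sup (elA h.a).abel h.a.cv |> cent_symm |> fun z =>
    (sup_le (elA h.a).abel (cent_symm h.a.cv)).trans (nY h.a)))
  have l : cj d A ≤ A ⊔ 𝛀 2 R := cj_le_of fun t ht => by simpa using mul_mem_sup ht (h.cm t ht d hd)
  have c := (Vf.fu ⟨h.a.w, h.a.y, conj_cj_right.2 h.a.y, ne.symm, f'.r, h.a.v.act d, l.trans m⟩).1 f
  refine f'.fu.2 (cent_symm fun s hs => ?_)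
  obtain ⟨t, ht, q⟩ := h.sur hd n hs
  rw [show s = t⁻¹ * (d * t * d⁻¹) by rw [q]; group]
  exact mul_mem (inv_mem (cent_symm (rc f') (o ▸ ht))) (cent_symm c (conj_mem_cj.2 ht))

theorem st : R ⊓ 𝐂 B = 𝛀 2 R := by
  refine le_antisymm (fun s hs => om hs.1 ?_) (le_inf (Om_le _ _) (cent_symm h.b.cv))
  obtain ⟨t, ht, t', ht', p⟩ := h.a.w.v4 h.a.y h.a.v
  obtain ⟨x, a, b⟩ := h.ex_x ht
  obtain ⟨x', a', b'⟩ := h.ex_x ht'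
  have i := (h.b.inv a fun c => p.l.ne_one (h.symm.cA ht ((mul_mem_cancel_left c).1 b))).2.2
  have i' := (h.b.inv a' fun c => p.r.ne_one (h.symm.cA ht' ((mul_mem_cancel_left c).1 b'))).2.2
  have i2 := (h.b.inv (mul_mem a a') fun c => p.iv.ne_one (h.symm.cA (mul_mem ht ht') (by
    simpa [mul_assoc] using mul_mem (mul_mem (inv_mem c) (mul_mem b b'))
      (inv_mem (cent_symm h.b.cv (conj_mem_of_norm' (norm_of_cent h.a.cv ht') (h.a.cm (inv_mem a') ht)))) ))).2.2 s hs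
  rw [show x * x' * s * (x * x')⁻¹ = x * (x' * s * x'⁻¹) * x⁻¹ by group, i' s hs, i _ (inv_mem hs), inv_inv] at i2
  exact mul_eq_one_iff_eq_inv.2 i2

theorem nc (hx : x ∈ R) (n : x ∉ 𝛀 2 R) : x ∉ 𝐂 B := fun c => n (h.st.le ⟨hx, c⟩)

theorem ex_t (hx : x ∈ R) : ∃ t ∈ A, x * t ∈ 𝐂 B := by
  obtain ⟨d, hd, n⟩ := exA h.b
  obtain ⟨t, ht, e⟩ := h.sur' hd n (h.b.cm (inv_mem hx) hd)
  obtain ⟨y, hy, c⟩ := h.ex_x ht
  refine ⟨t, ht, ?_⟩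
  have : x * y⁻¹ ∈ 𝐂 B := by
    by_contra z
    refine n (h.b.inj (mul_mem hx (inv_mem hy)) z hd (mul_inv_eq_iff_eq_mul.1 ?_))
    conv_lhs => rw [← cjc c hd]
    rw [show x * y⁻¹ * (y * t * d * (y * t)⁻¹) * (x * y⁻¹)⁻¹ = x * (t * d * t⁻¹) * x⁻¹ by group, e]
    group
  simpa [mul_assoc] using mul_mem this c

theorem reg (hw : w ∈ B ⊔ 𝛀 2 R) (n : w ∉ 𝛀 2 R) (hs : s ∈ 𝛀 2 R) : ∃ x ∈ R, x * w * x⁻¹ = w * s := by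
  obtain ⟨d, hd, v, hv, rfl⟩ := dec h.b hw
  obtain ⟨t, ht, e⟩ := h.sur' hd (fun e => n (by rwa [e, one_mul])) hs
  obtain ⟨y, hy, c⟩ := h.ex_x ht
  refine ⟨y⁻¹, inv_mem hy, ?_⟩
  rw [← conj_mul, cjc (rc h.a (inv_mem hy)) hv, mul_assoc d, ← (elV h.a).abel.mul_comm hs hv, ← mul_assoc, ← e]
  conv_lhs => rw [← cjc c hd]
  group

theorem pt (hw : w ∈ B ⊔ 𝛀 2 R) (n : w ∉ 𝛀 2 R) : ∃ x ∈ R, x * w * x⁻¹ ∈ B := by
  obtain ⟨d, hd, v, hv, e⟩ := dec h.b hw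
  obtain ⟨x, a, b⟩ := h.reg hw n (inv_mem hv)
  exact ⟨x, a, by rwa [b, ← e, mul_inv_cancel_right]⟩

theorem sq (hx : x ∈ R) : x * x ∈ 𝛀 2 R := by
  by_cases n : x ∈ 𝛀 2 R
  exacts [mul_mem n n, (h.b.inv hx (h.nc hx n)).1]

theorem der (hx : x ∈ R ⊔ A ⊔ B) (hy : y ∈ R ⊔ A ⊔ B) : x * x ∈ 𝛀 2 R ∧ ⁅x, y⁆ ∈ 𝛀 2 R ∧ x ∈ 𝐂 (𝛀 2 R) := by
  have n := norm_of_cent h.cV
  have nR := le_sup_left.trans (le_sup_left.trans n)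
  have nA := le_sup_right.trans (le_sup_left.trans n)
  have nB := le_sup_right.trans n
  have cm : ∀ {Y V}, Vf P X Y R V → qt (𝛀 2 R) R ≤ 𝐂 (qt (𝛀 2 R) V) := fun f =>
    (qt_cent_iff nR (norm_of_cent f.cv)).2 (commutator_le.2 fun x a t b => by
      simpa [commutatorElement_def, mul_assoc] using conj_mem_of_norm (norm_of_cent f.cv b) (f.cm a b))
  have e : Abelem 2 (qt (𝛀 2 R) (R ⊔ A ⊔ B)) := by
    rw [qt_sup (le_sup_left.trans n) nB, qt_sup nR nA]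
    refine ((ab_mk fun z hz => ?_).sup ((elA h.a).qt _) (cm h.a)).sup ((elA h.b).qt _) (sup_le (cm h.b) ?_)
    · obtain ⟨x, a, b, rfl⟩ := mem_qt.1 hz
      rw [← qe_mul b b, qe_of_mem (h.sq a)]
    · exact (qt_cent_iff nA nB).2 (commutator_le.2 fun t a d b => by simpa [commutatorElement_def, mul_assoc] using h.cm _ (inv_mem a) d b)
  refine ⟨(qe_eq_one (n (mul_mem hx hx))).1 ?_, (qe_eq_one (n ?_)).1 ?_, h.cV hx⟩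
  · rw [qe_mul (n hx) (n hx), ab_sq e (qe_mem_qt hx (n hx))]
  · exact mul_mem (cmem hx hy) (inv_mem hy)
  · rw [qe_comm (n hx) (n hy), commutatorElement_eq_one_iff_mul_comm, e.abel.mul_comm (qe_mem_qt hx (n hx)) (qe_mem_qt hy (n hy))]

theorem mR (a : x ∈ R) : x ∈ R ⊔ A ⊔ B := mem_sup_left (mem_sup_left a)
theorem mA (a : x ∈ A) : x ∈ R ⊔ A ⊔ B := mem_sup_left (mem_sup_right a)
theorem mB (a : x ∈ B) : x ∈ R ⊔ A ⊔ B := mem_sup_right a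
omit h in
theorem sw : R ⊔ B ⊔ A = R ⊔ A ⊔ B := sup_right_comm _ _ _

theorem cmV (hx : x ∈ R ⊔ A ⊔ B) (hy : y ∈ R ⊔ A ⊔ B) : x⁻¹ * (y * x * y⁻¹) ∈ 𝛀 2 R := by
  simpa [commutatorElement_def, mul_assoc] using (h.der (inv_mem hx) hy).2.1

theorem el : Abelem 2 ((R ⊔ A ⊔ B) ⊓ 𝐂 B) := ab_mk fun y hy =>
  h.b.rho h.nb (h.pi.elt hy.1) hy.2 (fun s hs => by
    rw [h.st] at hs
    rw [cjc (h.cV hy.1) hs, ab_inv (elV h.a) hs]) (h.der hy.1 hy.1).1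

theorem zs : (R ⊔ A ⊔ B) ⊓ 𝐂 B ⊓ 𝐂 A ≤ 𝐂 (R ⊔ A ⊔ B) :=
  le_cent_sup (le_cent_sup (cent_symm fun x hx => by
    obtain ⟨t, ht, c⟩ := h.ex_t hx
    exact (mul_mem_cancel_right (cent_symm inf_le_right ht)).1 (h.el.abel.cent le_rfl inf_le_left ⟨mul_mem (h.mR hx) (h.mA ht), c⟩))
    inf_le_right) (inf_le_left.trans inf_le_right)

theorem dec : (R ⊔ A ⊔ B) ⊓ 𝐂 B ≤ B ⊔ (R ⊔ A ⊔ B) ⊓ 𝐂 B ⊓ 𝐂 A := fun y hy => by
  obtain ⟨x, a, b⟩ := h.a.th h.na (h.cV hy.1) fun t ht => h.cmV (h.mA ht) hy.1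
  obtain ⟨d, hd, c⟩ := h.symm.ex_t (inv_mem a)
  rw [← mul_inv_cancel_left d y]
  exact mul_mem_sup hd (mi (mul_mem (inv_mem (mi (h.mB hd) ((elA h.b).abel hd))) hy) (by simpa [mul_assoc] using mul_mem (inv_mem c) b))

theorem dec' : B ≤ (R ⊔ A) ⊓ 𝐂 B ⊔ (R ⊔ A ⊔ B) ⊓ 𝐂 B ⊓ 𝐂 A := fun d hd => by
  obtain ⟨x, a, b⟩ := h.symm.ex_x hd
  obtain ⟨t, ht, c⟩ := h.ex_t a
  rw [← inv_mul_cancel_left (x * t) d]
  refine mul_mem_sup (inv_mem ⟨mul_mem_sup a ht, c⟩) ⟨⟨mul_mem (mul_mem (h.mR a) (h.mA ht)) (h.mB hd), mul_mem c ((elA h.b).abel hd)⟩, ?_⟩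
  have := mul_mem b (mul_mem ((elA h.a).abel ht) (cent_symm h.a.cv (h.cm t ht _ (inv_mem hd))))
  simpa [mul_assoc] using this

theorem un (hx : x ∈ R) (n : x ∉ 𝛀 2 R) (ht : t ∈ A) (ht' : t' ∈ A) (e : t * x * t⁻¹ = t' * x * t'⁻¹) : t = t' :=
  (inv_mul_eq_one.1 (h.a.inj hx (h.symm.nc hx n) (mul_mem (inv_mem ht') ht) (by
    rw [mul_assoc, mul_inv_eq_iff_eq_mul.1 e]; group))).symm

theorem iv (hy : y ∈ R ⊔ A) (q : y * y = 1) : y ∈ A ⊔ 𝛀 2 R ∨ y ∈ 𝐂 B := by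
  obtain ⟨x, a, t, ht, rfl⟩ := (mem_sup_norm' h.a.n).1 hy
  by_cases n : x ∈ 𝛀 2 R
  · exact .inl (mul_mem (mem_sup_right n) (mem_sup_left ht))
  obtain ⟨t', ht', c⟩ := h.ex_t a
  have i : ∀ t ∈ A, x * t * (x * t) = 1 → t * x * t⁻¹ = x⁻¹ := fun t ht e => by
    rw [ab_inv (elA h.a) ht]; exact eq_inv_of_mul_eq_one_right (by simpa only [mul_assoc] using e)
  rw [h.un a n ht ht' ((i t ht q).trans (i t' ht' (ab_sq h.el ⟨mul_mem (h.mR a) (h.mA ht'), c⟩)).symm)]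
  exact .inr c

theorem nw (a : k ∈ 𝐍 R) (b : k ∈ 𝐍 (A ⊔ 𝛀 2 R)) : k ∈ 𝐍 ((R ⊔ A) ⊓ 𝐂 B) := mem_norm_of fun y hy => by
  have n : k ∈ 𝐍 (R ⊔ A) := by
    rw [show R ⊔ A = R ⊔ (A ⊔ 𝛀 2 R) by rw [sup_left_comm, sup_eq_left.2 (Om_le _ _), sup_comm]]
    exact zpowers_le.1 (norm_sup (zpowers_le.2 a) (zpowers_le.2 b))
  have m := conj_mem_of_norm n hy.1
  refine ⟨m, (h.iv m (by rw [conj_mul, ab_sq h.el ⟨mem_sup_left hy.1, hy.2⟩]; simp)).elim (fun z => ?_) id⟩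
  obtain ⟨t, ht, v, hv, rfl⟩ := S1.dec h.a ((mem_norm.1 b y).2 z)
  rw [h.symm.cA ht ((mul_mem_cancel_right (cent_symm h.b.cv hv)).1 hy.2), one_mul]
  exact cent_symm h.b.cv (conj_mem_of_norm (norm_Om 2 R a) hv)

end Tri

end CF.Te
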