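/-
Special triples: complements, transitivity, graphs.
-/
import Cfsg.Agent.Te.S1
set_option autoImplicit false
set_option linter.unusedSectionVars false
set_option linter.unusedVariables false

namespace CF.Te
open Subgroup Cfsg CF.BG CF.Sig CF.GW CF.Ab2 CF.CT S1
open scoped commutatorElement

universe u
variable {G : Type u} [Group G] [Finite G]
variable {A B H J K L P R S U V W X Y Z : Subgroup G} {a b c d e g k r s t t' u v w x x' y z : G} {𝒮 : Subgroup G → Prop}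

namespace S2
theorem sp_mono (h : Sp W H 𝒮) (l : K ≤ H) : Sp W K 𝒮 := ⟨h.el, l.trans h.n, h.le, h.dj, fun a b => h.act a (l b)⟩
theorem tl_cj (h : Tl W V x) (n : g ∈ 𝐍 W) : Tl W (cj g V) (g * x * g⁻¹) where
  n := cmem n h.n
  c := cj_cent g V ▸ conj_mem_cj.2 h.c
  cm := fun w hw => by simpa [mem_cj, mul_assoc] using h.cm _ (conj_mem_of_norm' n hw)
  ne := fun c => h.ne (by simpa [mul_assoc] using conj_mem_of_norm' (norm_le_norm_cent W n) c)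
theorem neV (f : Vf P X Y R V) : 𝛀 2 R ≠ V := fun e => let ⟨_, h, n⟩ := exA f; n (one f h (VX f (e ▸ h)))
theorem nsup (a : g ∈ 𝐍 H) (b : g ∈ 𝐍 K) : g ∈ 𝐍 (H ⊔ K) := zpowers_le.1 (norm_sup (zpowers_le.2 a) (zpowers_le.2 b))
/-- an element of `X` normalising `W` is a translation -/
theorem trl (f : Vf P X Y R V) (a : c ∈ X) (n : c ∈ 𝐍 (V ⊔ 𝛀 2 R)) (hd : d ∈ V) : d⁻¹ * (c * d * c⁻¹) ∈ 𝛀 2 R :=
  WX f (mul_mem (inv_mem (mem_sup_left hd)) (conj_mem_of_norm n (mem_sup_left hd))) (by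
    simpa [mul_assoc] using mul_mem (conj_mem_of_norm' (nX f (f.cv hd)) a) (inv_mem a))
theorem nV (f : Vf P X Y R V) (a : k ∈ 𝐍 X) (n : k ∈ 𝐍 (V ⊔ 𝛀 2 R)) : k ∈ 𝐍 (𝛀 2 R) := mem_norm_of fun v hv =>
  WX f (conj_mem_of_norm n (mem_sup_right hv)) (conj_mem_of_norm a (VX f hv))
theorem adj (f : Vf P X Y R V) (c : R ≤ 𝐂 Z) (a : k ∈ 𝐍 X) (n : k ∈ 𝐍 (V ⊔ 𝛀 2 R)) (z : k ∈ 𝐂 Z) :
    ∃ c ∈ X ⊓ 𝐂 Z ⊓ 𝐍 (V ⊔ 𝛀 2 R) ⊓ 𝐂 (𝛀 2 R), c * k ∈ 𝐍 R := by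
  have s : Syl 2 R (X ⊓ 𝐂 Z ⊓ 𝐍 (V ⊔ 𝛀 2 R) ⊓ 𝐂 (𝛀 2 R)) :=
    f.r.of_le (le_inf (le_inf (le_inf f.r.le c) f.nw) (rc f)) (inf_le_left.trans (inf_le_left.trans inf_le_left))
  obtain ⟨c, hc, e⟩ := (s.cj_of_norm (g := k) (zpowers_le.1 (norm_inf_cent (norm_inf (norm_inf_cent (zpowers_le.2 a)
    (zpowers_le.2 (cent_le_norm _ z))) ((zpowers_le.2 n).trans (le_norm_self _))) (zpowers_le.2 (nV f a n))))).syl_conj s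
  exact ⟨c, hc, cj_eq_self.1 (by rw [← cj_cj, ← e])⟩
end S2
open S2

namespace Tri
variable (h : Tri P J L X A B R)
include h

theorem cardR (s : Syl 2 S (L ⊓ 𝐍 X)) : ♯S = ♯B := by
  obtain ⟨d, hd, n⟩ := exA h.b
  obtain ⟨R1, T, f, -⟩ := h.ti.fr h.b.x h.b.y h.b.ne (elA h.b).pi (ne_bot_of_mem hd n) (le_inf h.b.v.le (h.b.cv.trans (nX h.b)))
  rw [s.card_eq f.t, ← f.card, f.syl.card_eq h.b.syl, h.st, h.b.w.card h.b.x h.b.y h.b.vg h.b.v]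

theorem opp (p : P2 S) (l : B ⊔ 𝛀 2 R ≤ S) (n : S ≤ 𝐍 L) :
    ∃ R', Vf P L X R' (𝛀 2 R) ∧ 𝛀 2 R' = B ∧ S ≤ 𝐍 R' ∧ S ⊓ L ≤ R' ∧ R' ⊓ 𝐂 (𝛀 2 R) = B := by
  obtain ⟨R', f, o, m, q⟩ := h.b.opp p l n
  exact ⟨R', f, o, m, q, (eq_of_card_eq (le_inf (o ▸ Om_le _ _) h.b.cv) (h.cardR f.syl).symm).symm⟩

theorem co (e : Abelem 2 U) (l : 𝛀 2 R ≤ U) (c : U ≤ 𝐂 (R ⊔ A ⊔ B)) : ∃ Z g, Co L X B R U Z g := by
  have cB : U ≤ 𝐂 B := c.trans (cent_anti le_sup_right)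
  have cR : U ≤ 𝐂 R := c.trans (cent_anti (le_sup_left.trans le_sup_left))
  have cW : U ≤ 𝐂 (B ⊔ 𝛀 2 R) := le_cent_sup cB (cR.trans (cent_anti (Om_le _ _)))
  obtain ⟨R', f, o, m, -, q⟩ := h.opp ((elA h.b).sup e (cent_symm cB)).pi (sup_le_sup_left l B) ((sup_le (elA h.b).abel cB).trans (nY h.b))
  obtain ⟨x', a, n⟩ := out f fun z => h.nb (h.ti.fu_symm h.b.y h.b.x z)
  have nW : x' ∈ 𝐍 (B ⊔ 𝛀 2 R) := by simpa only [o, sup_comm B] using f.nw a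
  have cx : ∀ d ∈ B, x' * d = d * x' := fun d hd => cc (rc f a) (o ▸ hd)
  obtain ⟨v, hv, v1⟩ := exV h.a
  obtain ⟨x, hx, p⟩ := h.pt (conj_mem_of_norm nW (mem_sup_right hv)) fun z => v1 (f.inj a n hv (mul_inv_eq_iff_eq_mul.1 (by
    have := one f (mul_mem (inv_mem hv) z) (S1.VX f (f.cm a hv))
    rwa [inv_mul_eq_one, eq_comm] at this)))
  have pt : cj (x * x') X = L := h.ti.mv h.b.x h.b.y ((elV h.a).pi.elt hv) v1 (VX h.a hv) (h.b.v.le (by simpa [mul_assoc] using p))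
  have ng := mul_mem (h.b.nw hx) nW
  refine ⟨U ⊓ 𝐂₁ x', x * x', inf_le_left, fun u hu => ?_, eq_bot_of_forall fun z hz => ?_, mul_mem (cent_symm (inf_le_left.trans cR) hx)
    (le_cent1_iff.1 inf_le_right), ng, pt, ?_⟩
  · have b : u⁻¹ * (x' * u * x'⁻¹) ∈ B := q.le ⟨by simpa [mul_assoc] using mul_mem (conj_mem_of_norm' (m (mem_sup_right hu)) a) (inv_mem a),
      cent_anti le_sup_right (mul_mem (inv_mem (cW hu)) (conj_mem_of_norm (norm_le_norm_cent _ nW) (cW hu)))⟩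
    obtain ⟨t, ht, r⟩ := f.sur a n (o ▸ b)
    rw [← mul_inv_cancel_left t u]
    refine mul_mem_sup ht (mi (mul_mem (inv_mem (l ht)) hu) (mem_cent1.2 (mul_inv_eq_iff_eq_mul.1 ?_).symm))
    generalize hb : u⁻¹ * (x' * u * x'⁻¹) = β at b r
    rw [← conj_mul, ← conj_inv, r, ← mul_inv_cancel_left u (x' * u * x'⁻¹), hb, cc (cB hu) b, ← cc (h.b.cv b) ht]
    group
  · obtain ⟨d, hd, v, hv, rfl⟩ := S1.dec h.b hz.2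
    have := mem_cent1.1 hz.1.2
    rw [mul_assoc, ← mul_assoc x', cx d hd, mul_assoc, mul_right_inj] at this
    rw [f.inj a n hv this.symm, mul_one] at hz ⊢
    exact h.cA hd (cent_anti (le_sup_right.trans le_sup_left) (c hz.1.1))
  · exact h.b.w.uniq h.b.y (pt ▸ h.b.vg.act _) h.b.v h.b.el.pi (cj_le_of_norm ng le_sup_right) le_sup_left

theorem cu (c : U ≤ 𝐂 (R ⊔ A ⊔ B)) (hx : x ∈ R) (n : x ∉ 𝛀 2 R) : (B ⊔ U) ⊓ 𝐂₁ x ≤ U := fun w hw => by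
  obtain ⟨d, hd, u, hu, rfl⟩ := (mem_sup_norm' (norm_of_cent (c.trans (cent_anti le_sup_right)))).1 hw.1
  rwa [h.b.inj hx (h.nc hx n) hd (mem_cent1.1 ((mul_mem_cancel_right (cent_le_cent1 (h.mR hx) (c hu))).1 hw.2)).symm, one_mul]

theorem cZ (c : U ≤ 𝐂 (R ⊔ A ⊔ B)) (o : Co L X B R U Z g) : R ⊔ A ⊔ B ≤ 𝐂 Z := cent_symm (o.le.trans c)

theorem gv (o : Co L X B R U Z g) (hv : v ∈ 𝛀 2 R) (n : v ≠ 1) : g⁻¹ * v * g ∈ B ⊔ 𝛀 2 R ∧ g⁻¹ * v * g ∉ 𝛀 2 R :=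
  ⟨conj_mem_of_norm' o.n (mem_sup_right hv), fun z => n (one h.b (o.v ▸ mem_cj.2 z) (VX h.a hv))⟩

theorem tr (c : U ≤ 𝐂 (R ⊔ A ⊔ B)) (o : Co L X B R U Z g) (hs : s ∈ 𝛀 2 R) (n : s ≠ 1)
    (hv : v ∈ 𝛀 2 R) (n' : v ≠ 1) : ∃ k ∈ 𝐍 R ⊓ 𝐍 (B ⊔ 𝛀 2 R) ⊓ 𝐂 Z, k * s * k⁻¹ = v := by
  have sB : g * s * g⁻¹ ∈ B := o.v ▸ conj_mem_cj.2 hs
  obtain ⟨x, hx, e⟩ := h.reg (mem_sup_left sB) (fun z => n (by simpa using one h.b sB (VX h.a z))) hv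
  obtain ⟨y, hy, e'⟩ := h.reg (h.gv o hv n').1 (h.gv o hv n').2 hs
  have q : g * y⁻¹ * g⁻¹ * x * g * s * (g * y⁻¹ * g⁻¹ * x * g)⁻¹ = v := by
    rw [show g * y⁻¹ * g⁻¹ * x * g * s * (g * y⁻¹ * g⁻¹ * x * g)⁻¹ = g * y⁻¹ * g⁻¹ * (x * (g * s * g⁻¹) * x⁻¹) * (g * y⁻¹ * g⁻¹)⁻¹ by group, e,
      cc (h.b.cv sB) hv, show v * (g * s * g⁻¹) = g * (g⁻¹ * v * g * s) * g⁻¹ by group, ← e']
    group
  have nW := mul_mem (mul_mem (cmem o.n (inv_mem (h.b.nw hy))) (h.b.nw hx)) o.n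
  have cz := mul_mem (mul_mem (cmem o.c (inv_mem (h.cZ c o (h.mR hy)))) (h.cZ c o (h.mR hx))) o.c
  obtain ⟨k, hk, m⟩ := adj h.b (fun _ z => h.cZ c o (h.mR z)) (cj_eq_self.1 (h.ti.mv h.b.x h.b.x ((elV h.a).pi.elt hs) n (VX h.a hs)
    (q ▸ VX h.a hv))) nW cz
  refine ⟨_, mi (mi m (mul_mem hk.1.2 nW)) (mul_mem hk.1.1.2 cz), ?_⟩
  rw [← cjc hk.2 hv, ← q]
  group

theorem trx (c : U ≤ 𝐂 (R ⊔ A ⊔ B)) (o : Co L X B R U Z g) (hx : x ∈ R) (n : x ∉ 𝛀 2 R)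
    (hy : y ∈ R) (n' : y ∉ 𝛀 2 R) : ∃ k ∈ 𝐍 R ⊓ 𝐍 (B ⊔ 𝛀 2 R) ⊓ 𝐂 Z, y⁻¹ * (k * x * k⁻¹) ∈ 𝛀 2 R := by
  have sp := sp_mono (h.ti.sp h.b.el) (inf_le_left (b := 𝐂 Z))
  have mH : ∀ {x}, x ∈ R → x ∈ 𝐍 (B ⊔ 𝛀 2 R) ⊓ 𝐂 Z := fun a => ⟨h.b.nw a, h.cZ c o (h.mR a)⟩
  have tx := h.b.tl hx (h.nc hx n)
  have tz := tl_cj tx o.n
  have mz := cmem (mi o.n o.c) (mH hx)
  rw [o.v] at tz
  obtain ⟨g1, m1, e1, c1⟩ := sp.conj h.b.ln.2 h.b.ln.1 (neV h.b) (mH hx) mz tx tz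
  obtain ⟨g2, m2, e2, c2⟩ := sp.conj h.b.ln.1 h.b.ln.2 (neV h.b).symm mz (mH hy) tz (h.b.tl hy (h.nc hy n'))
  have a1 := sup_le (zpowers_le.2 (mH hx)) (zpowers_le.2 mz) m1
  have a2 := sup_le (zpowers_le.2 mz) (zpowers_le.2 (mH hy)) m2
  have a := mul_mem a2 a1
  obtain ⟨v, hv, v1⟩ := exV h.a
  obtain ⟨k, hk, m⟩ := adj h.b (fun _ z => h.cZ c o (h.mR z)) (cj_eq_self.1 (h.ti.mv h.b.x h.b.x ((elV h.a).pi.elt hv) v1 (VX h.a hv)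
    (VX h.a (by rw [← e2, ← e1, cj_cj]; exact conj_mem_cj.2 hv)))) a.1 a.2
  refine ⟨_, mi (mi m (mul_mem hk.1.2 a.1)) (mul_mem hk.1.1.2 a.2), h.st.le (mi (mul_mem (inv_mem hy) (conj_mem_of_norm m hx)) ?_)⟩
  have nC := norm_le_norm_cent (B ⊔ 𝛀 2 R)
  have c3 := cent_anti le_sup_left (conj_mem_of_norm (nC hk.1.2) (mul_mem c2 (conj_mem_of_norm (nC a2.1) c1)))
  have c4 : y⁻¹ * (k * y * k⁻¹) ∈ 𝐂 B := fun d hd => by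
    have p := trl h.b (inv_mem (mi1 (mi1 (mi1 hk)))) (inv_mem (mi2 (mi1 hk))) hd
    have q := h.b.cm hy hd
    symm
    rw [← mul_inv_eq_iff_eq_mul, show y⁻¹ * (k * y * k⁻¹) * d * (y⁻¹ * (k * y * k⁻¹))⁻¹ =
      y⁻¹ * k * (y * d * y⁻¹ * (y * (d⁻¹ * (k⁻¹ * d * k⁻¹⁻¹)) * y⁻¹)) * k⁻¹ * y by group, cjc (rc h.a hy) p, ← mul_inv_cancel_left d (y * d * y⁻¹),
      mul_assoc d, (elV h.a).abel.mul_comm q p, show y⁻¹ * k * (d * (d⁻¹ * (k⁻¹ * d * k⁻¹⁻¹) * (d⁻¹ * (y * d * y⁻¹)))) * k⁻¹ * y =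
      y⁻¹ * d * (k * (d⁻¹ * (y * d * y⁻¹)) * k⁻¹) * y by group, cjc hk.2 q]
    group
  simpa [mul_assoc] using mul_mem c4 c3

theorem gl (el : Abelem 2 U) (l : 𝛀 2 R ≤ U) (c : U ≤ 𝐂 (R ⊔ A ⊔ B))
    (o : Co L X B R U Z g) (b : Conj P Y) (m : e ∈ Y) (he : e ∈ B ⊔ U) (n : e ∉ U) :
    ∃ k ∈ 𝐂 Z ⊓ 𝐍 (B ⊔ 𝛀 2 R), k * e * k⁻¹ ∈ U ∧ (¬ Fu X Y → ¬ Fu (cj k Y) L) ∧
      (∀ V, Vg Y V → V ≤ B ⊔ U → cj k V ≤ U) ∧ (e ∉ B ⊔ 𝛀 2 R → cj k Y ≠ X) := by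
  have cB : U ≤ 𝐂 B := c.trans (cent_anti le_sup_right)
  have eBU := (elA h.b).sup el (cent_symm cB)
  have q : B ⊔ U = B ⊔ 𝛀 2 R ⊔ Z := le_antisymm ((sup_le_sup_left o.sup B).trans (sup_assoc B _ _).ge) (sup_le (sup_le_sup_left l B) (o.le.trans le_sup_right))
  have cW : B ⊔ 𝛀 2 R ≤ 𝐂 Z := (sup_le le_sup_right ((Om_le _ _).trans (le_sup_left.trans le_sup_left))).trans (h.cZ c o)
  obtain ⟨w, hw, z, hz, rfl⟩ := (mem_sup_norm (norm_of_cent cW)).1 (q.le he)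
  obtain ⟨x, hx, p⟩ := h.pt hw fun y => n (mul_mem (l y) (o.le hz))
  have kZ := mul_mem (inv_mem o.c) (h.cZ c o (h.mR hx))
  have kW := mul_mem (inv_mem o.n) (h.b.nw hx)
  have kU : g⁻¹ * x * (w * z) * (g⁻¹ * x)⁻¹ ∈ U := by
    rw [← conj_mul, cjc kZ hz]
    exact mul_mem (l (by simpa [mem_cj, mul_assoc] using o.v.ge p)) (o.le hz)
  have b' : Conj P (cj (g⁻¹ * x) Y) := conj_cj_right.2 b
  have nS : R ⊔ A ⊔ B ≤ 𝐍 (cj (g⁻¹ * x) Y) := (cent_symm ((zpowers_le.2 kU).trans c)).trans ((cent_zpowers _).le.trans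
    (h.ti.cen b' (el.pi.elt kU) (fun y => n (by rw [conj_eq_one_iff.1 y]; exact one_mem _)) (conj_mem_cj.2 m)))
  refine ⟨_, mi kZ kW, kU, fun nf f => nf (h.ti.fu_symm b h.b.x ?_), fun V v le => ?_, fun ne y => ne ?_⟩
  · obtain ⟨v, hv, v1⟩ := exV h.a
    obtain ⟨y, hy, r⟩ := h.pt (h.gv o hv v1).1 (h.gv o hv v1).2
    have := h.ti.mv h.b.x h.b.y ((elV h.a).pi.elt hv) v1 (VX h.a hv) (g := y * g⁻¹) (h.b.v.le (by simpa [mul_assoc] using r))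
    rw [← cj_of_norm (nS (h.mR hy)), ← this, ← cj_of_mem (h.a.r.le hx), cj_cj, cj_cj, mul_assoc] at f
    exact fu_cj.1 f
  · have le' : cj (g⁻¹ * x) V ≤ B ⊔ U := cj_le_of_norm (by rw [q]; exact nsup kW (cent_le_norm _ kZ)) le
    by_cases r : cj (g⁻¹ * x) Y = X
    · exact fun y hy => l (h.b.w.mem h.b.x h.b.vg eBU.pi (l.trans le_sup_right) (mi (le' hy) (r.le ((v.act _).le hy))) (ab_sq eBU (le' hy)))
    obtain ⟨x0, a, nx⟩ := out h.b h.nb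
    exact fun y hy => h.cu c a (fun z => nx (cent_symm h.b.cv z)) ⟨le' hy, mem_cent1.2 (h.ti.cm b' h.b.x r
      (h.pi.sup el.pi (.inr (norm_of_cent c))) ⟨⟨sup_le_sup_right le_sup_right U (le' hy), (v.act _).le hy⟩,
        nX h.b (eBU.abel.cent le_rfl (l.trans le_sup_right) (le' hy))⟩ ⟨⟨mem_sup_left (h.mR a), h.a.r.le a⟩, nS (h.mR a)⟩)⟩
  · exact (mem_norm.1 kW _).2 (mem_sup_right (h.b.w.mem h.b.x h.b.vg el.pi l (mi kU (y.le (conj_mem_cj.2 m))) (ab_sq el kU)))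

end Tri

end CF.Te
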