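/-
Special triples: a second point centralising the triple, I.
-/
import Cfsg.Agent.Te.S2
set_option autoImplicit false
set_option linter.unusedSectionVars false
set_option linter.unusedVariables false

namespace CF.Te
open Subgroup Cfsg CF.BG CF.Sig CF.GW CF.Ab2 CF.CT S1 S2
open scoped commutatorElement

universe u
variable {G : Type u} [Group G] [Finite G]
variable {A B H J K L P R S U V V' W X X' Y Z : Subgroup G} {a b c d e g k r s t t' u v w x x' y z : G}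

/-- a triple with a central elementary group and a complement -/
structure Cx (P J L X A B R U Z : Subgroup G) (g : G) : Prop where
  h : Tri P J L X A B R
  el : Abelem 2 U
  l : 𝛀 2 R ≤ U
  c : U ≤ 𝐂 (R ⊔ A ⊔ B)
  o : Co L X B R U Z g

namespace Cx
variable (q : Cx P J L X A B R U Z g)
include q

theorem cB : U ≤ 𝐂 B := q.c.trans (cent_anti le_sup_right)
theorem cR : U ≤ 𝐂 R := q.c.trans (cent_anti (le_sup_left.trans le_sup_left))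
theorem cA : U ≤ 𝐂 A := q.c.trans (cent_anti (le_sup_right.trans le_sup_left))
theorem e1 : Abelem 2 (B ⊔ U) := (elA q.h.b).sup q.el (cent_symm q.cB)
theorem eU : U = 𝛀 2 R ⊔ Z := le_antisymm q.o.sup (sup_le q.l q.o.le)
theorem eW : B ⊔ U = B ⊔ 𝛀 2 R ⊔ Z := by rw [q.eU, sup_assoc]
theorem lV : 𝛀 2 R ≤ B ⊔ U := q.l.trans le_sup_right
theorem lW : B ⊔ 𝛀 2 R ≤ B ⊔ U := sup_le_sup_left q.l B
theorem bU (a : d ∈ B) (b : d ∈ U) : d = 1 := q.h.cA a (q.cA b)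
theorem zW (a : z ∈ Z) (b : z ∈ B ⊔ 𝛀 2 R) : z = 1 := eq_one_of_mem_bot q.o.dj (mi a b)
theorem xV (a : w ∈ B ⊔ U) (b : w ∈ X) : w ∈ 𝛀 2 R := q.h.b.w.mem q.h.b.x q.h.b.vg q.e1.pi q.lV (mi a b) (ab_sq q.e1 a)
theorem n1 (a : k ∈ 𝐍 (B ⊔ 𝛀 2 R)) (b : k ∈ 𝐂 Z) : k ∈ 𝐍 (B ⊔ U) := by rw [q.eW]; exact nsup a (cent_le_norm _ b)
theorem rZ : R ≤ 𝐂 Z := cent_symm (q.o.le.trans q.cR)
theorem r1 : R ≤ 𝐍 (B ⊔ U) := fun _ a => q.n1 (q.h.b.nw a) (q.rZ a)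
theorem g1 : g ∈ 𝐍 (B ⊔ U) := q.n1 q.o.n q.o.c
theorem nR : B ⊔ U ≤ 𝐍 R := sup_le q.h.b.n (norm_of_cent q.cR)
theorem nX1 : B ⊔ U ≤ 𝐍 X := (q.e1.abel.cent le_rfl q.lV).trans (nX q.h.b)
theorem gU : cj g U = B ⊔ Z := by rw [q.eU, cj_sup, q.o.v, cj_of_cent q.o.c]
theorem dBZ (a : w ∈ B ⊔ Z) : ∃ d ∈ B, ∃ z ∈ Z, d * z = w := (mem_sup_norm' (norm_of_cent (q.o.le.trans q.cB))).1 a
theorem bZ (a : w ∈ B ⊔ Z) (b : w ∈ U) : w ∈ Z := by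
  obtain ⟨d, hd, z, hz, rfl⟩ := q.dBZ a
  rwa [q.bU hd ((mul_mem_cancel_right (q.o.le hz)).1 b), one_mul]
theorem p2 : P2 (R ⊔ A ⊔ B ⊔ U) := q.h.pi.sup q.el.pi (.inr (norm_of_cent q.c))

theorem cm1 (a : y ∈ X) (n : y ∈ 𝐍 (B ⊔ U)) (hw : w ∈ B ⊔ U) : w⁻¹ * (y * w * y⁻¹) ∈ 𝛀 2 R :=
  q.xV (mul_mem (inv_mem hw) (conj_mem_of_norm n hw)) (by simpa [mul_assoc] using mul_mem (conj_mem_of_norm' (q.nX1 hw) a) (inv_mem a))

theorem th (a : y ∈ X) (n : y ∈ 𝐍 (B ⊔ U)) (c : y ∈ 𝐂 (𝛀 2 R)) : ∃ x ∈ R, x⁻¹ * y ∈ 𝐂 (B ⊔ U) := by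
  obtain ⟨x, hx, b⟩ := q.h.b.th q.h.nb c fun d hd => q.cm1 a n (mem_sup_left hd)
  refine ⟨x, hx, ?_⟩
  have m : zpowers (x⁻¹ * y) ≤ X ⊓ 𝐍 (B ⊔ U) ⊓ 𝐂 (𝛀 2 R) ⊓ 𝐂 B := zpowers_le.2
    (mi (mul_mem (inv_mem (mi (mi (q.h.a.r.le hx) (q.r1 hx)) (rc q.h.a hx))) (mi (mi a n) c)) b)
  obtain ⟨p, o, hp, ho, e2, eo, e⟩ := exists_piPart {2} (x⁻¹ * y)
  replace hp := m hp
  replace ho := m ho
  rw [← e]
  refine mul_mem (q.e1.abel (q.lV ((q.h.st ▸ q.h.b.syl).mem_of_norm (mi hp.1.1.1 (nY q.h.b hp.2)) (cent_le_norm _ hp.1.2) e2)))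
    (zpowers_le.2 (fun w hw => ?_) (mem_zpowers_sq (eo_iff.2 eo)))
  have s := q.cm1 ho.1.1.1 ho.1.1.2 hw
  symm
  rw [← mul_inv_eq_iff_eq_mul, show o * o * w * (o * o)⁻¹ = o * (o * w * o⁻¹) * o⁻¹ by group, ← mul_inv_cancel_left w (o * w * o⁻¹), ← conj_mul,
    cjc ho.1.2 s, ← mul_inv_cancel_left w (o * w * o⁻¹), inv_mul_cancel_left, mul_assoc w, ab_sq (elV q.h.a) s, mul_one]

theorem cL (a : u ∈ U) (c : u ∈ 𝐂 (cj g R)) : u ∈ Z := by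
  obtain ⟨x, hx, n⟩ := out q.h.b q.h.nb
  refine q.bZ (q.gU ▸ mem_cj.2 (q.h.cu q.c hx (fun z => n (cent_symm q.h.b.cv z)) (mi (conj_mem_of_norm' q.g1 (mem_sup_right a)) ?_))) a
  exact cent_le_cent1 hx (mem_cj.1 ((cj_cent g R).ge c))

theorem nZ (cd : ∀ {Y V}, Conj P Y → Y ≠ X → Vg Y V → V ≤ U → U ≤ 𝛀 2 R ⊔ V) (n : k ∈ 𝐍 (B ⊔ U)) (m : k ∈ 𝐍 U) : k ∈ 𝐍 Z := by
  obtain ⟨d, hd, d1⟩ := exA q.h.b
  have b : Conj P (cj k L) := conj_cj_right.2 q.h.b.y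
  obtain ⟨k', hk, -, -, le, -⟩ := q.h.gl q.el q.l q.c q.o b (conj_mem_cj.2 (q.h.b.v.le hd)) (conj_mem_of_norm n (mem_sup_left hd))
    fun z => d1 (q.bU hd ((mem_norm.1 m d).2 z))
  replace le := le _ (q.h.b.v.act k) (cj_le_of_norm n le_sup_left)
  have b' : Conj P (cj k' (cj k L)) := conj_cj_right.2 b
  have s : Syl 2 (cj (k' * k * g) R) (cj k' (cj k L)) := by rw [← q.o.pt, cj_cj, cj_cj]; exact q.h.a.r.cj _
  have om : 𝛀 2 (cj (k' * k * g) R) = cj k' (cj k B) := by rw [← cj_Om, ← q.o.v, cj_cj, cj_cj]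
  have nn := mul_mem (mul_mem (q.n1 hk.2 hk.1) n) q.g1
  have c0 : cj (k' * k * g) R ≤ 𝐂 (cj k' (cj k B)) := by rw [← om, ← cj_Om, ← cj_cent]; exact cj_mono _ (rc q.h.a)
  have c : U ≤ 𝐂 (cj (k' * k * g) R) := by
    by_cases r : cj k' (cj k L) = X
    · refine cent_symm fun y hy => ?_
      obtain ⟨x, hx, e⟩ := q.th (r.le (s.le hy)) (cj_le_of_norm (le_norm_self _ nn) q.r1 hy) (by
        rw [q.h.b.w.uniq q.h.b.x q.h.b.vg (r ▸ (q.h.b.v.act k).act k') q.el.pi q.l le]; exact c0 hy)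
      simpa using mul_mem (cent_symm q.cR hx) (cent_anti le_sup_right e)
    obtain ⟨e, he, e1⟩ := ex1 (q.h.b.w.v4 b' ((q.h.b.v.act k).act k'))
    refine (cd b' r ((q.h.b.v.act k).act k') le).trans (sup_le (fun v hv => ?_) (cent_symm c0))
    by_cases v1 : v = 1
    · rw [v1]; exact one_mem _
    refine q.h.b.w.cf b' q.h.b.x r ⟨R, q.h.a.r, (cent_symm ((zpowers_le.2 (le he)).trans q.cR)).trans ((cent_zpowers _).le.trans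
      (q.h.ti.cen b' (q.el.pi.elt (le he)) e1 (((q.h.b.v.act k).act k').le he)))⟩ s (ab_iv (elV q.h.a) hv v1) (VX q.h.a hv) ?_
    rw [← cj_norm]
    exact cj_mono _ q.nR ((cj_of_norm nn).ge (q.lV hv))
  refine (inv_mem_iff (x := k)).1 (mem_norm_of fun z hz => q.cL (conj_mem_of_norm (inv_mem m) (q.o.le hz)) ?_)
  have := c (q.o.le hz)
  rw [← cj_cj, ← cj_cj, ← cj_cent, ← cj_cent, mem_cj, mem_cj, mul_assoc k'⁻¹, ← cc hk.1 hz, inv_mul_cancel_left] at this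
  rwa [inv_inv]

theorem zz {Z' : Subgroup G} {g' : G} (q' : Cx P L J X B A R U Z' g') (cd : ∀ {Y V}, Conj P Y → Y ≠ X → Vg Y V → V ≤ U → U ≤ 𝛀 2 R ⊔ V)
    (l : (R ⊔ A ⊔ B) ⊓ 𝐂 B ⊓ 𝐂 A ≤ U) : Z ≤ Z' := fun z hz => by
  obtain ⟨s, hs, z', hz', rfl⟩ := (mem_sup_norm' (norm_of_cent (q'.o.le.trans (q.el.abel.cent le_rfl q.l)))).1 (q'.o.sup (q.o.le hz))
  by_cases n : s = 1
  · rwa [n, one_mul]
  obtain ⟨v, hv, i, ne⟩ := (q.h.a.w.v4 q.h.a.x q.h.a.vg).third s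
  obtain ⟨k, hk, e⟩ := q'.h.tr q'.c q'.o hs n hv i.ne_one
  have m : k ∈ 𝐍 U := by rw [q'.eU]; exact nsup (norm_Om 2 R hk.1.1) (cent_le_norm _ hk.2)
  have e1 : B ⊔ U = (R ⊔ A) ⊓ 𝐂 B ⊔ U := le_antisymm (sup_le (q.h.dec'.trans (sup_le_sup_left l _)) le_sup_right)
    (sup_le ((inf_le_inf_right _ le_sup_left).trans (q.h.dec.trans (sup_le_sup_left l _))) le_sup_right)
  have := conj_mem_of_norm (q.nZ cd (by rw [e1]; exact nsup (q.h.nw hk.1.1 hk.1.2) m) m) hz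
  rw [← conj_mul, e, cjc hk.2 hz'] at this
  exact absurd (mul_inv_eq_one.1 (q.zW (by simpa using mul_mem this (inv_mem hz)) (mem_sup_right (mul_mem hv (inv_mem hs))))) ne

end Cx

end CF.Te
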