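/-
Tightly embedded subgroups: a dihedral group of order 8 gives a special triple.
-/
import Cfsg.Agent.Te.V2
import Cfsg.Agent.Te.FG
set_option autoImplicit false
set_option linter.unusedSectionVars false

namespace CF.Te
open Subgroup Cfsg CF.BG CF.Sig CF.GW CF.Ab2 CF.CT

universe u
variable {G : Type u} [Group G] [Finite G]
variable {A B E J L P R X : Subgroup G} {d r t v w x : G}

theorem ab_iv (e : Abelem 2 A) (m : x ∈ A) (n : x ≠ 1) : Iv x := .mk' n (ab_sq e m)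
theorem mem_Om2 (m : x ∈ R) (q : x * x = 1) : x ∈ 𝛀 2 R := mem_Om m ((pow_two x).trans q)

namespace S0
/-- two `V`-groups, the conjugates of the second under the first commute -/
structure Sw (P J L A B E : Subgroup G) : Prop where
  w : WV P
  j : Conj P J
  l : Conj P L
  a : Vg J A
  b : Vg L B
  pi : P2 (E ⊔ A)
  n : A ≤ 𝐍 E
  le : ∀ v ∈ A, cj v B ≤ E
  ab : Abel E
  dj : E ⊓ J = ⊥
  mv : ∀ v ∈ A, v ≠ 1 → v ∉ 𝐍 L

theorem pre (h : WV P) (k : D8 P J L t d) :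
    ∃ A B E, Sw P J L A B E ∧ t ∈ A ∧ d ∈ B ∧ ∃ v ∈ A, v ≠ 1 ∧ ¬ Fu L (cj v L) := by
  obtain ⟨dJ, T, hT, tT, cT, -, mv⟩ := k.sw h.ti h.c0
  obtain ⟨R, hR, -, nR⟩ := ex_inv hT.pi (hT.le.trans inf_le_right)
  have va := (h.fr ⟨h.ti, conj_cj_right.2 k.j, k.j, fun e => dJ (cj_eq_self.1 e), hR, hT, ne_bot_of_mem tT k.it.ne_one, nR⟩).1
  have ea := h.el k.j va
  have aT := Om_le 2 T
  generalize hA : 𝛀 2 T = A at va ea aT
  have tA : t ∈ A := hA ▸ mem_Om2 tT k.it.sq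
  have dd := k.id.sq
  have di := k.id.inv_eq
  have c1 : ∀ v ∈ A, ∀ w ∈ A, w * (d * v * d) = d * v * d * w := fun v p w q =>
    (mem_cent.1 (cT (aT q)) _ (by simpa only [di] using conj_mem_cj (g := d).2 (aT p))).symm
  have c2 : ∀ v ∈ A, d * (v * d * v⁻¹) = v * d * v⁻¹ * d := fun v p => by
    rw [inv_eq_of_mul_eq_one_left (ab_sq ea p), ← mul_assoc, ← mul_assoc, ← c1 v p v p]; group
  have c3 : ∀ v ∈ A, ∀ w ∈ A, v * d * v⁻¹ * (w * d * w⁻¹) = w * d * w⁻¹ * (v * d * v⁻¹) := fun v p w q => by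
    simpa [mul_assoc] using congrArg (fun z => v * z * v⁻¹) (c2 _ (mul_mem (inv_mem p) q))
  let F := closure {y | ∃ v ∈ A, v * d * v⁻¹ = y}
  have mF : ∀ v ∈ A, v * d * v⁻¹ ∈ F := fun v p => subset_closure ⟨v, p, rfl⟩
  have lF : ∀ {H : Subgroup G}, (∀ v ∈ A, v * d * v⁻¹ ∈ H) → F ≤ H := fun p =>
    (closure_le _).2 (by rintro _ ⟨v, q, rfl⟩; exact p v q)
  have dF : d ∈ F := by simpa using mF 1 (one_mem _)
  have aF : Abel F := lF fun v p => le_cent1_iff.1 (lF fun w q => mem_cent1.2 (c3 w q v p))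
  have pF : P2 F := (Abelem.mk' p2 aF fun y m => by
    induction m using closure_induction with
    | mem _ m => obtain ⟨v, -, rfl⟩ := m; rw [conj_pow, pow_two, dd]; simp
    | one => simp
    | mul a b p q u w => rw [(show Commute a b from aF.mul_comm p q).mul_pow, u, w, one_mul]
    | inv a _ u => rw [inv_pow, u, inv_one]).pi
  have nF : A ≤ 𝐍 F := le_norm_of_cj_le fun a p => cj_le_iff.2 (lF fun v q => mem_cj_inv.2 (by
    simpa [mul_assoc] using mF _ (mul_mem p q)))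
  have cL : 𝐂 F ≤ 𝐍 L := (cent_le_cent1 dF).trans (h.ti.cen k.l k.id.piElt k.id.ne_one k.dl)
  have lv : ∀ v, Conj P (cj v L) := fun v => conj_cj_right.2 k.l
  have nv : ∀ v ∈ A, v ≠ 1 → L ≠ cj v L := fun v p n e => mv v (aT p) n (cj_eq_self.1 e.symm)
  obtain ⟨R0, h0, -, n0⟩ := ex_inv pF (aF.trans cL)
  have c0 : 𝛀 2 R0 ≤ 𝐂 F := cent_symm (lF fun v p => h.lc k.l (lv v) h0 (k.id.conj v) (conj_mem_cj.2 k.dl) (n0 (mF v p)))
  obtain ⟨S, hS, lS⟩ := exists_syl_le (sup_le nF (le_norm_self F)) (ea.pi.sup pF (.inl nF))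
  have nC : 𝐂 F ⊴ 𝐍 F := ⟨cent_le_norm F, norm_le_norm_cent F⟩
  have vb := h.vg k.l ⟨R0, h0, rfl⟩ c0 ((hS.inf_normal nC).inf_normal (normalIn_inf_right cL))
  have eb := h.el k.l vb
  have bS := Om_le 2 (S ⊓ 𝐂 F ⊓ (L ⊓ 𝐂 F))
  have dB : d ∈ 𝛀 2 (S ⊓ 𝐂 F ⊓ (L ⊓ 𝐂 F)) := mem_Om2 ⟨⟨lS (mem_sup_right dF), aF dF⟩, k.dl, aF dF⟩ dd
  generalize 𝛀 2 (S ⊓ 𝐂 F ⊓ (L ⊓ 𝐂 F)) = B at vb eb bS dB
  have aS : A ≤ S := le_sup_left.trans lS
  have lB : ∀ v ∈ A, cj v B ≤ S ⊓ 𝐂 F := fun v p =>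
    cj_le_of_norm (norm_inf (norm_of_le aS) (norm_cent nF) p) (bS.trans inf_le_left)
  have cB : ∀ v ∈ A, cj v B ≤ 𝐂 B := fun v p y m => mem_cent.2 fun r q => by
    by_cases n : v = 1
    · exact eb.abel.mul_comm q (by simpa [n] using m)
    by_cases y1 : y = 1
    · simp [y1]
    by_cases r1 : r = 1
    · simp [r1]
    exact (h.c0 k.l (lv v) (nv v p n) (ab_iv (eb.cj v) m y1) (ab_iv eb q r1) (cj_mono v vb.le m) (cL (lB v p m).2) (vb.le q)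
      hS.pi (lB v p m).1 (bS q).1.1).symm
  have lE : (⨆ v ∈ A, cj v B) ≤ S ⊓ 𝐂 F := iSup₂_le lB
  refine ⟨A, B, ⨆ v ∈ A, cj v B, ⟨h, k.j, k.l, va, vb, hS.pi.le (sup_le (lE.trans inf_le_left) aS),
    le_norm_of_cj_le fun a p => cj_le_iff.2 (iSup₂_le fun v q => cj_le_iff.1 (by
      rw [cj_cj]; exact le_iSup₂_of_le _ (mul_mem p q) le_rfl)), fun v p => le_iSup₂_of_le v p le_rfl,
    iSup₂_le fun v p => cent_symm (iSup₂_le fun w q => by
      simpa [← cj_cj] using cj_cent_iff (g := v).2 (cB _ (mul_mem (inv_mem p) q))),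
    eq_bot_of_forall fun y m => by_contra fun n => dJ (h.ti.cen k.j (hS.pi.elt (lE m.1).1) n m.2
      (mem_cent1.2 (mem_cent.1 (lE m.1).2 d dF))), fun v p => mv v (aT p)⟩, tA, dB, ?_⟩
  by_contra! z
  obtain ⟨a, ha, b, hb, f⟩ := h.v4 k.j va
  have l : V4 a b ≤ A := V4_le.2 ⟨ha, hb⟩
  obtain ⟨R, hR, q, -⟩ := h.ti.fg h.c0 k.j k.l f (l.trans va.le) k.id k.dl (cent_mono cT (l.trans aT) (cj_mono d (l.trans aT)))
    (fun v p => mv v (aT (l p))) fun v p n R hR m =>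
      h.cf k.l (lv v) (nv v (l p) n) (z v (l p) n) hR (k.id.conj v) (conj_mem_cj.2 k.dl) m
  obtain ⟨r, m, n⟩ := h.nel k.l hR
  exact n (q r m)

namespace Sw
variable (h : Sw P J L A B E)
include h
theorem ea : Abelem 2 A := h.w.el h.j h.a
theorem eb : Abelem 2 B := h.w.el h.l h.b
theorem bE : B ≤ E := by simpa using h.le 1 (one_mem _)
theorem vi (p : v ∈ A) : v⁻¹ = v := inv_eq_of_mul_eq_one_left (ab_sq h.ea p)
theorem mc (p : v ∈ A) (q : r ∈ B) : v * r * v ∈ cj v B := by simpa only [h.vi p] using conj_mem_cj (g := v).2 q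
theorem uE (p : v ∈ A) (q : r ∈ B) : r * (v * r * v) ∈ E := mul_mem (h.bE q) (h.le v p (h.mc p q))
theorem cm (p : v ∈ A) (q : r ∈ B) : r * (v * r * v) = v * r * v * r := h.ab.mul_comm (h.bE q) (h.le v p (h.mc p q))
theorem ns (p : v ∈ A) (q : r ∈ B) (e : v * r = r * v) : v = 1 ∨ r = 1 := by
  by_contra! n
  exact h.mv v p n.1 (h.w.ti.cen h.l (h.eb.pi.elt q) n.2 (h.b.le q) (mem_cent1.2 e))
theorem u1 (p : v ∈ A) (q : r ∈ B) (e : r * (v * r * v) = 1) : v = 1 ∨ r = 1 := h.ns p q (by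
  rw [← mul_left_inj v, mul_assoc r v, ab_sq h.ea p, mul_one, eq_inv_of_mul_eq_one_right e,
    inv_eq_of_mul_eq_one_left (ab_sq h.eb q)])
theorem uC (p : v ∈ A) (q : r ∈ B) : r * (v * r * v) ∈ 𝐂 A := mem_cent.2 fun w m => by
  by_cases n : v = 1
  · simp [n, ab_sq h.eb q]
  have : r * (v * r * v) ∈ 𝐍 J := h.w.ti.cen h.j (h.ea.pi.elt p) n (h.a.le p) (mem_cent1.2 (by
    nth_rw 2 [h.cm p q]; simp [mul_assoc, ← mul_assoc v v, ab_sq h.ea p]))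
  have := eq_one_of_mem_bot h.dj (x := w * (r * (v * r * v)) * w⁻¹ * (r * (v * r * v))⁻¹)
    (mem_inf.2 ⟨E.mul_mem (conj_mem_of_norm (h.n m) (h.uE p q)) (inv_mem (h.uE p q)), by
      simpa only [mul_assoc] using J.mul_mem (h.a.le m) (conj_mem_of_norm this (inv_mem (h.a.le m)))⟩)
  rwa [mul_inv_eq_one, mul_inv_eq_iff_eq_mul] at this
theorem bil (p : v ∈ A) (p' : w ∈ A) (q : r ∈ B) :
    r * (v * w * r * (v * w)) = r * (v * r * v) * (r * (w * r * w)) := by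
  have := mem_cent.1 (h.uC p' q) v p
  rw [mul_assoc r (v * r * v), mul_assoc (v * r), this, h.ea.abel.mul_comm p p']
  nth_rw 1 [← h.ea.abel.mul_comm p p']
  simp [mul_assoc, ← mul_assoc r r, ab_sq h.eb q]
theorem ctr (p : v ∈ A) (n : v ≠ 1) (f : ¬ Fu L (cj v L)) : ∃ X V, Conj P X ∧ X ≠ L ∧ X ≠ J ∧ Vg X V ∧ ¬ Fu X L ∧ V ≤ E ∧
    (∀ r ∈ B, r * (v * r * v) ∈ V) ∧ ∀ s ∈ V, ∃ r ∈ B, r * (v * r * v) = s :=
  have l := sup_le h.bE (h.le v p)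
  let ⟨X, V, a, b, c, d, e, f, _, g⟩ := h.w.ctr h.l h.j h.b (ab_iv h.ea p n) (h.a.le p) (h.mv v p n)
    (h.ab.cent h.bE (h.le v p)) (eq_bot_mono h.dj (inf_le_inf_right _ l)) f
  ⟨X, V, a, b, c, d, e, f.trans l, g⟩
theorem tri (p : v ∈ A) (n : v ≠ 1) (f : ¬ Fu L (cj v L)) : ∃ X R, Tri P J L X A B R := by
  obtain ⟨X, V, cX, xl, xj, vV, nf, lV, u1, u2⟩ := h.ctr p n f
  have w := h.w
  have eV := w.el cX vV
  have vA : V ≤ 𝐂 A := fun s m => let ⟨r, q, e⟩ := u2 s m; e ▸ h.uC p q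
  have v1 : V ≠ ⊥ := fun e => by have := (w.v4 cX vV).card; simp [e] at this
  have nX : 𝐂 V ≤ 𝐍 X := (cent_le_norm V).trans (w.ti.nor cX eV.pi v1 vV.le)
  obtain ⟨R, hR, lR, nR⟩ := ex_inv h.pi ((sup_le (h.ab.cent le_rfl lV) (cent_symm vA)).trans nX)
  obtain rfl : V = 𝛀 2 R := w.uniq cX vV ⟨R, hR, rfl⟩ hR.pi ((le_inf (lV.trans le_sup_left) vV.le).trans lR) (Om_le 2 R)
  have fa : Vf P X J R A := ⟨w, cX, h.j, xj, hR, h.a, le_sup_right.trans nR⟩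
  have fb : Vf P X L R B := ⟨w, cX, h.l, xl, hR, h.b, h.bE.trans (le_sup_left.trans nR)⟩
  have vv := ab_sq h.ea p
  have na : ¬ Fu X J := fun z => by
    have c := fa.fu.1 z
    obtain ⟨x, m, e⟩ := fb.th nf (y := v) (cent_symm vA p) fun r q => by
      simpa only [h.vi p, inv_eq_of_mul_eq_one_left (ab_sq h.eb q)] using u1 r q
    have xv := mem_cent.1 (c m) v p
    have n' : x ∉ 𝐂 B := fun y => by
      obtain ⟨a, ha, _, -, f⟩ := w.v4 h.l h.b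
      exact (h.ns p ha (mem_cent.1 ((mul_mem_cancel_left (inv_mem y)).1 e) a ha).symm).elim n f.l.ne_one
    obtain ⟨q, -, i⟩ := fb.inv m n'
    have e2 : x⁻¹ * v * (x⁻¹ * v) = (x * x)⁻¹ := by
      rw [mul_assoc, ← mul_assoc v, (show Commute v x from xv).inv_right.eq, mul_assoc, vv, mul_one, mul_inv_rev]
    have := fb.rho nf ((hR.pi.sup h.ea.pi (.inr fa.n)).elt (mul_mem_sup (inv_mem m) p)) e (fun s a => by
      have := i _ (inv_mem a)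
      rw [inv_inv] at this
      rw [mul_assoc x⁻¹, mem_cent.1 (c a.1) v p]; nth_rw 1 [← this]; group) (e2 ▸ inv_mem q)
    rw [e2, inv_eq_one] at this
    exact n' (cent_symm fb.cv (mem_Om2 m this))
  obtain ⟨x, m, n'⟩ := SetLike.not_le_iff_exists.1 (mt fa.fu.2 na)
  obtain ⟨r, q, e⟩ := u2 _ (fa.cm m p)
  have rr := ab_sq h.eb q
  have ri := inv_eq_of_mul_eq_one_left rr
  have r1 : r ≠ 1 := fun z => n (fa.inj m n' p (by
    rw [z, one_mul, mul_one, vv, eq_inv_mul_iff_mul_eq, mul_one, eq_mul_inv_iff_mul_eq] at e; exact e.symm))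
  have e1 : cj x J = cj r J := w.ti.mv h.j (conj_cj_right.2 h.j) (h.ea.pi.elt p) n (h.a.le p) (by
    rw [h.cm p q, eq_inv_mul_iff_mul_eq] at e
    simpa [← e, ri, mul_assoc, ← mul_assoc v v, vv] using conj_mem_cj (g := r).2 (h.a.le p))
  have lx : cj x A ≤ A ⊔ 𝛀 2 R := cj_le_of_norm (fa.nw m) le_sup_left
  have e2 : cj x A = cj r A := w.uniq (conj_cj_right.2 h.j) (e1 ▸ h.a.act x) (h.a.act r) h.pi
    (lx.trans (sup_le le_sup_right (lV.trans le_sup_left))) (cj_le_of_mem (mem_sup_left (h.bE q)) le_sup_right)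
  have ur : ∀ v ∈ A, r * (v * r * v) ∈ 𝛀 2 R := fun v p => by
    obtain ⟨a, ha, s, hs, e⟩ := (mem_sup_norm (norm_of_cent (cent_symm vA))).1
      (mul_mem (lx (e2 ▸ conj_mem_cj (g := r).2 p)) (mem_sup_left p))
    rw [ri, mul_assoc, mul_assoc, ← mul_assoc v] at e
    rw [← e, eq_one_of_mem_bot h.dj ⟨(E.mul_mem_cancel_right (lV hs)).1 (e ▸ h.uE p q), h.a.le ha⟩, one_mul]
    exact hs
  have uf : ∀ v ∈ A, v ≠ 1 → ¬ Fu L (cj v L) → ∀ r ∈ B, r * (v * r * v) ∈ 𝛀 2 R := fun v p n f => by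
    obtain ⟨X', V', cX', -, -, vV', -, lV', u1', -⟩ := h.ctr p n f
    obtain rfl := w.ti.eq cX cX' (eV.pi.elt (ur v p)) (fun z => (h.u1 p q z).elim n r1) (vV.le (ur v p)) (vV'.le (u1' r q))
    exact w.uniq cX vV vV' h.pi (lV.trans le_sup_left) (lV'.trans le_sup_left) ▸ u1'
  have all : ∀ y ∈ A, ∀ r ∈ B, r * (y * r * y) ∈ 𝛀 2 R := fun y a r q => by
    by_cases y1 : y = 1
    · simp [y1, ab_sq h.eb q]
    by_cases f1 : ¬ Fu L (cj y L)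
    · exact uf y a y1 f1 r q
    have y2 : y * v ≠ 1 := fun z => f1 (by rwa [eq_inv_of_mul_eq_one_left z, h.vi p])
    by_cases f2 : ¬ Fu L (cj (y * v) L)
    · exact (mul_mem_cancel_right (u1 r q)).1 (h.bil a p q ▸ uf _ (mul_mem a p) y2 f2 r q)
    obtain ⟨a0, h0, _, -, f0⟩ := w.v4 h.l h.b
    obtain ⟨R1, h1, l1, n1⟩ := ex_inv (h.pi.le le_sup_left) ((h.ab.trans (cent_le_cent1 (h.bE h0))).trans
      (w.ti.cen h.l f0.l.piElt f0.l.ne_one (h.b.le h0)))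
    have k : ∀ y ∈ A, y ≠ 1 → Fu L (cj y L) → ∀ r ∈ B, r * (y * r * y) ∈ 𝐂 R1 := fun y a y1 f r q => by
      refine mul_mem (w.om h.l h1 (l1 ⟨h.bE q, h.b.le q⟩) (ab_sq h.eb q)) ?_
      by_cases z : y * r * y = 1
      · exact z ▸ one_mem _
      exact w.cf h.l (conj_cj_right.2 h.l) (fun e => h.mv y a y1 (cj_eq_self.1 e.symm)) f h1
        (ab_iv (h.eb.cj y) (h.mc a q) z) (cj_mono y h.b.le (h.mc a q)) (n1 (h.le y a (h.mc a q)))
    refine absurd ⟨R1, h1, (cent_symm fun s m => ?_).trans nX⟩ nf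
    obtain ⟨r, q, rfl⟩ := u2 s m
    exact (mul_mem_cancel_left (k y a y1 (not_not.1 f1) r q)).1 (h.bil a p q ▸ k _ (mul_mem a p) y2 (not_not.1 f2) r q)
  exact ⟨X, R, fa, fb, fun y a r q => by
    rw [h.vi a, inv_eq_of_mul_eq_one_left (ab_sq h.eb q), ← mul_assoc, ← mul_assoc, ← h.cm a q]; exact all y a r q,
    fun y a r q => h.ns a q, na, nf⟩
end Sw
end S0

theorem WV.tri (h : WV P) (k : D8 P J L t d) : ∃ X A B R, Tri P J L X A B R ∧ t ∈ A ∧ d ∈ B :=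
  let ⟨A, B, _, s, a, b, _, p, n, f⟩ := S0.pre h k
  let ⟨X, R, e⟩ := s.tri p n f
  ⟨X, A, B, R, e, a, b⟩
end CF.Te
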