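/-
Special triples: a second point centralising the triple, II.
-/
import Cfsg.Agent.Te.NP1
import Cfsg.Agent.Te.S0
set_option autoImplicit false
set_option linter.unusedSectionVars false
set_option linter.unusedVariables false

namespace CF.Te
open Subgroup Cfsg CF.BG CF.Sig CF.GW CF.Ab2 CF.CT S1 S2
open scoped commutatorElement

universe u
variable {G : Type u} [Group G] [Finite G]
variable {A B H J K L P R R' S U V V' W X X' Y Z : Subgroup G} {a b c d e g k r s t t' u v w x x' y z : G}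

namespace Cx
variable (q : Cx P J L X A B R U Z g)
include q

theorem lZ : B ⊔ Z ≤ B ⊔ U := sup_le_sup_left q.o.le B

theorem y2 (f : Vf P Y X R' (𝛀 2 R)) (n : ¬ Fu Y X) (l : 𝛀 2 R' ≤ B ⊔ Z) (c : R' ≤ 𝐂 (B ⊔ Z)) (dj : 𝛀 2 R' ⊓ B = ⊥) :
    ∃ y ∈ 𝐂 (B ⊔ Z), y ∉ 𝐍 X ∧ ∀ s ∈ 𝛀 2 R, s⁻¹ * (y * s * y⁻¹) ∈ Z := by
  obtain ⟨x', a, nx⟩ := out f n
  obtain ⟨s, hs, s1⟩ := exV q.h.a
  obtain ⟨v, hv, z, hz, e⟩ := q.dBZ (l (f.cm a hs))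
  have z1 : z ≠ 1 := fun r => s1 (f.inj a nx hs (mul_inv_eq_iff_eq_mul.1 (inv_mul_eq_one.1
    (eq_one_of_mem_bot dj (mi (f.cm a hs) (by rwa [← e, r, mul_one])))).symm))
  obtain ⟨x, hx, r⟩ := q.h.reg (q.h.gv q.o hs s1).1 (q.h.gv q.o hs s1).2 (mem_cj.1 (q.o.v.ge hv))
  have cy : g * x⁻¹ * g⁻¹ ∈ 𝐂 (B ⊔ Z) := by
    rw [cent_sup, ← q.o.v, ← cj_cent]
    exact mi (conj_mem_cj.2 (inv_mem (rc q.h.a hx))) (cmem q.o.c (inv_mem (q.rZ hx)))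
  have m := mul_mem cy (c a)
  have k : ∀ s ∈ 𝛀 2 R, s⁻¹ * (g * x⁻¹ * g⁻¹ * x' * s * (g * x⁻¹ * g⁻¹ * x')⁻¹) ∈ B ⊔ Z := fun s hs => by
    have := q.cm1 (inv_mem (q.h.a.r.le hx)) (inv_mem (q.r1 hx)) (conj_mem_of_norm' q.g1 (q.lV hs))
    have b := mul_mem (mem_sup_left (q.o.v.le (conj_mem_cj.2 this))) (l (f.cm a hs))
    rw [← cjc cy (l (f.cm a hs))] at b
    simpa [mul_assoc] using b
  have e2 : g * x⁻¹ * g⁻¹ * x' * s * (g * x⁻¹ * g⁻¹ * x')⁻¹ = s * z := by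
    rw [show g * x⁻¹ * g⁻¹ * x' * s * (g * x⁻¹ * g⁻¹ * x')⁻¹ = g * x⁻¹ * g⁻¹ * (s * (s⁻¹ * (x' * s * x'⁻¹))) * (g * x⁻¹ * g⁻¹)⁻¹ by group, ← e,
      ← mul_assoc s, ← conj_mul, cjc cy (mem_sup_right hz), show s * v = g * (g⁻¹ * s * g * (g⁻¹ * v * g)) * g⁻¹ by group, ← r]
    group
  have ne : g * x⁻¹ * g⁻¹ * x' ∉ 𝐍 X := fun n => z1 (q.zW hz (mem_sup_right (q.xV (q.lZ (mem_sup_right hz))
    ((mul_mem_cancel_left (VX q.h.a hs)).1 (e2 ▸ conj_mem_of_norm n (VX q.h.a hs))))))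
  refine ⟨_, m, ne, fun s' hs' => q.bZ (k s' hs') (mul_mem (inv_mem (q.l hs')) ?_)⟩
  generalize g * x⁻¹ * g⁻¹ * x' = y at m k e2 ne
  have sz := mul_mem (q.l hs) (q.o.le hz)
  have b : Conj P (cj y X) := conj_cj_right.2 q.h.a.x
  have a1 : y * s' * y⁻¹ ∈ B ⊔ U := by simpa using mul_mem (q.lV hs') (q.lZ (k s' hs'))
  obtain ⟨x0, a, nx⟩ := out q.h.b q.h.nb
  exact q.h.cu q.c a (fun z => nx (cent_symm q.h.b.cv z)) (mi a1 (mem_cent1.2 (q.h.ti.cm b q.h.a.x (mt cj_eq_self.1 ne) q.p2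
    (mi (mi (sup_le_sup_right le_sup_right U a1) (conj_mem_cj.2 (VX q.h.a hs'))) (q.nX1 a1)) (mi (mi (mem_sup_left (q.h.mR a)) (q.h.a.r.le a))
      (q.h.ti.cen b (q.el.pi.elt sz) (fun r => s1 (by simpa using e2.trans r)) (e2 ▸ conj_mem_cj.2 (VX q.h.a hs))
        (mem_cent1.2 (q.cR sz x0 a)))))))

theorem nU (c : y ∈ 𝐂 (B ⊔ Z)) (k : ∀ s ∈ 𝛀 2 R, s⁻¹ * (y * s * y⁻¹) ∈ Z) : y ∈ 𝐍 U := mem_norm_of_cj_le (by
  conv_lhs => rw [q.eU, cj_sup, cj_of_cent (cent_anti le_sup_right c)]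
  exact sup_le (cj_le_of fun s hs => by simpa using mul_mem (q.l hs) (q.o.le (k s hs))) q.o.le)

theorem y3 (c : y ∈ 𝐂 (B ⊔ Z)) (n : y ∉ 𝐍 X) (k : ∀ s ∈ 𝛀 2 R, s⁻¹ * (y * s * y⁻¹) ∈ Z) :
    ∃ y ∈ 𝐂 (B ⊔ Z), y ∉ 𝐍 X ∧ (∀ s ∈ 𝛀 2 R, s⁻¹ * (y * s * y⁻¹) ∈ Z) ∧ R ≤ 𝐂 (cj y R) := by
  have nU := q.nU c k
  have n1 := nsup (cent_le_norm _ (cent_anti le_sup_left c)) nU
  have nB : y ∈ 𝐍 (𝐍 (B ⊔ U) ⊓ 𝐂 U) := zpowers_le.1 (norm_inf_cent ((zpowers_le.2 n1).trans (le_norm_self _)) (zpowers_le.2 nU))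
  have l : R ≤ 𝐍 (B ⊔ U) ⊓ 𝐂 U := le_inf q.r1 (cent_symm q.cR)
  have nX : 𝐍 (B ⊔ U) ⊓ 𝐂 U ≤ 𝐍 X := inf_le_right.trans ((cent_anti q.l).trans (nX q.h.a))
  have nX2 : 𝐍 (B ⊔ U) ⊓ 𝐂 U ≤ 𝐍 (cj y X) := by rw [← cj_norm, ← cj_of_norm nB]; exact cj_mono _ nX
  obtain ⟨S, s, le⟩ := exists_syl_le l q.h.a.r.pi
  obtain ⟨c0, h0, e⟩ := ((q.h.a.r.cj y).of_le (le_inf (cj_mono _ q.h.a.r.le) (cj_le_of_norm nB l)) inf_le_left).syl_conj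
    (s.inf_normal (normalIn_inf_right nX2))
  have h1 := conj_mem_of_norm' nB h0.2
  obtain ⟨x, hx, r⟩ := q.th (inv_mem (mem_cj.1 h0.1)) (inv_mem (mi1 h1)) (inv_mem (cent_anti q.l h1.2))
  replace r := inv_mem r
  rw [mul_inv_rev, inv_inv, inv_inv] at r
  have e' : cj (y * (y⁻¹ * c0 * y * x)) R = S ⊓ (cj y X ⊓ (𝐍 (B ⊔ U) ⊓ 𝐂 U)) := by
    rw [e, show y * (y⁻¹ * c0 * y * x) = c0 * (y * x) by group, ← cj_cj, ← cj_cj, cj_of_mem hx]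
  refine ⟨_, mul_mem c (cent_anti q.lZ r), fun z => n ((mul_mem_cancel_right (S1.nX q.h.a (cent_anti q.lV r))).1 z), fun s hs => ?_,
    fun a ha b hb => ?_⟩
  · rw [show y * (y⁻¹ * c0 * y * x) * s * (y * (y⁻¹ * c0 * y * x))⁻¹ = y * (y⁻¹ * c0 * y * x * s * (y⁻¹ * c0 * y * x)⁻¹) * y⁻¹ by group,
      cjc r (q.lV hs)]
    exact k s hs
  · replace hb := e'.le hb
    exact q.h.ti.cm (conj_cj_right.2 q.h.a.x) q.h.a.x (mt cj_eq_self.1 n) s.pi (mi (mi hb.1 hb.2.1) (nX hb.2.2))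
      (mi (mi (le ha) (q.h.a.r.le ha)) (nX2 (l ha)))

theorem fin (c : y ∈ 𝐂 (B ⊔ Z)) (n : y ∉ 𝐍 X) (k : ∀ s ∈ 𝛀 2 R, s⁻¹ * (y * s * y⁻¹) ∈ Z) (cr : R ≤ 𝐂 (cj y R))
    (l : (R ⊔ A ⊔ B) ⊓ 𝐂 B ⊓ 𝐂 A ≤ U) (sj : Syl 2 S J) (ca : S ≤ 𝐂 A) (cz : S ≤ 𝐂 Z) : False := by
  obtain ⟨t, ht, t1⟩ := exA q.h.a
  obtain ⟨x, hx, m⟩ := q.h.ex_x ht
  obtain ⟨d, hd, u, hu, e⟩ := (mem_sup_norm' (norm_of_cent q.cB)).1
    (q.h.dec.trans (sup_le_sup_left l _) (mi (mul_mem (q.h.mR hx) (q.h.mA ht)) m))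
  have d1 : d ≠ 1 := fun r => by
    rw [r, one_mul] at e
    exact t1 (q.h.symm.cA ht ((mul_mem_cancel_left (cent_symm q.h.b.cv (q.h.symm.st.le (mi hx
      ((mul_mem_cancel_right ((elA q.h.a).abel ht)).1 (e ▸ q.cA hu)))))).1 m))
  have hs := q.h.cm t ht d hd
  obtain ⟨s, es⟩ : ∃ s, t⁻¹ * (d * t * d⁻¹) = s := ⟨_, rfl⟩
  rw [es] at hs
  have s1 : s ≠ 1 := fun r => (q.h.ns t ht d hd (mul_inv_eq_iff_eq_mul.1 (inv_mul_eq_one.1 (es.trans r)).symm).symm).elim t1 d1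
  have hz := k s hs
  obtain ⟨z, ez⟩ : ∃ z, s⁻¹ * (y * s * y⁻¹) = z := ⟨_, rfl⟩
  rw [ez] at hz
  have z1 : z ≠ 1 := fun r => n (q.h.ti.cen q.h.a.x ((elV q.h.a).pi.elt hs) s1 (VX q.h.a hs)
    (mem_cent1.2 (mul_inv_eq_iff_eq_mul.1 (inv_mul_eq_one.1 (ez.trans r)).symm)))
  have nU := q.nU c k
  have it := ab_iv (elA q.h.a) ht t1
  have c3 : y * x * y⁻¹ ∈ 𝐂 U := conj_mem_of_norm (norm_le_norm_cent _ nU) (cent_symm q.cR hx)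
  have et : t = x⁻¹ * d * u := by rw [mul_assoc, e, inv_mul_cancel_left]
  have key : y * t * y⁻¹ * t * (y * t * y⁻¹)⁻¹ = t * z := by
    have e1 : x⁻¹ * d * x = d * s := by
      rw [cc (q.h.b.cv hd) hs, ← es, it.inv_eq]
      conv_lhs => rw [← cjc m hd]
      rw [mul_inv_rev, it.inv_eq]
      group
    calc _ = (y * x * y⁻¹)⁻¹ * (y * d * y⁻¹) * (y * u * y⁻¹ * t * (y * u * y⁻¹)⁻¹) * (y * d * y⁻¹)⁻¹ * (y * x * y⁻¹) := by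
          conv_lhs => rw [et]
          rw [← et]; conv_lhs => enter [1, 1]; rw [et]
          conv_lhs => enter [2]; rw [et]
          group
      _ = (y * x * y⁻¹)⁻¹ * (x⁻¹ * d * (u * s)) * (y * x * y⁻¹) := by
          rw [cjc (cent_anti le_sup_left c) hd, cjc (q.cA (conj_mem_of_norm nU hu)) ht, ← mul_assoc (x⁻¹ * d), ← et, ← es]; group
      _ = x⁻¹ * (y * (x⁻¹ * d * x) * y⁻¹) * (u * s) := by
          have c4 := cc (cr hx) (conj_mem_cj.2 hx)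
          rw [show y * (x⁻¹ * d * x) * y⁻¹ = (y * x * y⁻¹)⁻¹ * (y * d * y⁻¹) * (y * x * y⁻¹) by group, cjc (cent_anti le_sup_left c) hd]
          generalize y * x * y⁻¹ = x3 at c3 c4
          rw [mul_assoc, mul_assoc, ← cc c3 (mul_mem hu (q.l hs)), ← mul_assoc, ← mul_assoc, ← mul_assoc, ← mul_assoc, ← mul_inv_rev, c4]
          group
      _ = _ := by
          rw [e1, ← conj_mul, cjc (cent_anti le_sup_left c) hd, ← mul_inv_cancel_left s (y * s * y⁻¹), ez, et, q.el.abel.mul_comm (q.l hs) (q.o.le hz),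
            q.el.abel.mul_comm hu (q.l hs), mul_assoc, mul_assoc d, mul_assoc z, ← mul_assoc s, ab_sq q.el (q.l hs), one_mul,
            q.el.abel.mul_comm (q.o.le hz) hu]
          group
  have tz : t * z = z * t := (cc (q.cA (q.o.le hz)) ht).symm
  have i' := it.conj y
  obtain ⟨X', A', B', R', h', a', b'⟩ := q.h.a.w.tri (J := J) (L := cj y J) (t := t) (d := y * t * y⁻¹) ⟨q.h.a.y, conj_cj_right.2 q.h.a.y, fun r => by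
    have := cmem (r.ge (conj_mem_cj.2 (q.h.a.v.le ht))) (q.h.a.v.le ht)
    rw [key, mul_mem_cancel_left (q.h.a.v.le ht)] at this
    exact z1 (q.h.symm.cA (q.h.a.w.mem q.h.a.y q.h.a.v q.p2 (le_sup_right.trans (le_sup_left.trans le_sup_left))
      (mi (mem_sup_right (q.o.le hz)) this) (ab_sq q.el (q.o.le hz))) (q.cB (q.o.le hz))), it, i', q.h.a.v.le ht,
    conj_mem_cj.2 (q.h.a.v.le ht), by rw [i'.inv_eq] at key; rw [key, mul_assoc, ← tz],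
    fun r => z1 (by rwa [← r, mul_inv_cancel_right, left_eq_mul] at key)⟩
  have b : Conj P (cj (y * t * y⁻¹) J) := conj_cj_right.2 q.h.a.y
  refine (h'.nf b' i'.ne_one).2 (q.h.ti.fu_symm b q.h.a.y ⟨S, sj, fun r hr => q.h.ti.cen b (it.conj _).piElt (it.conj _).ne_one
    (conj_mem_cj.2 (q.h.a.v.le ht)) (mem_cent1.2 ?_)⟩)
  rw [key, ← mul_assoc, cc (ca hr) ht, mul_assoc, cc (cz hr) hz, mul_assoc]

end Cx

theorem Tri.np (h : Tri P J L X A B R) (b : Conj P X') (ne : X' ≠ X) (v : Vg X' V') (c : V' ≤ 𝐂 (R ⊔ A ⊔ B))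
    (l : (R ⊔ A ⊔ B) ⊓ 𝐂 B ⊓ 𝐂 A ≤ 𝛀 2 R ⊔ V') (n : ¬ Fu X' L) : False := by
  have w := h.a.w
  have cR : V' ≤ 𝐂 R := c.trans (cent_anti (le_sup_left.trans le_sup_left))
  have el := (elV h.a).sup (w.el b v) (cent_symm (cR.trans (cent_anti (Om_le _ _))))
  have c' := sup_le (cent_symm h.cV) c
  obtain ⟨Z, g, o⟩ := h.co el le_sup_left c'
  have c'' : 𝛀 2 R ⊔ V' ≤ 𝐂 (R ⊔ B ⊔ A) := by rwa [sup_right_comm]
  obtain ⟨Z', g', o'⟩ := h.symm.co el le_sup_left c''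
  have q : Cx P J L X A B R _ Z g := ⟨h, el, le_sup_left, c', o⟩
  have q' : Cx P L J X B A R _ Z' g' := ⟨h.symm, el, le_sup_left, c'', o'⟩
  have cd0 : ∀ {Y V}, Conj P Y → Y ≠ X → Vg Y V → V ≤ 𝛀 2 R ⊔ V' → ♯(𝛀 2 R ⊔ V) = ♯(𝛀 2 R) * ♯(𝛀 2 R) := fun a ne v le => by
    rw [card_sup_of_inf_bot (.inl (el.abel.le_norm le |> le_sup_left.trans)) (h.ti.bot h.a.x a ne.symm ((elV h.a).pi.le inf_le_left)
      (inf_le_left.trans (VX h.a)) (inf_le_right.trans v.le)), w.card a h.a.x v h.a.vg]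
  have zz := q.zz q' (fun a ne' v' le => (eq_of_card_eq (sup_le le_sup_left le) ((cd0 a ne' v' le).trans (cd0 b ne v le_sup_right).symm)).ge) l
  have nV : ∀ {Y V}, Conj P Y → Vg Y V → 𝐂 V ≤ 𝐍 Y := fun a v =>
    let ⟨_, m, n⟩ := ex1 (w.v4 a v); (cent_le_cent1 m).trans (h.ti.cen a ((w.el a v).pi.elt m) n (v.le m))
  have rX : R ≤ 𝐍 X' := (cent_symm cR).trans (nV b v)
  have b1 : Conj P (cj g X') := conj_cj_right.2 b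
  have e1 : B ⊔ cj g V' = B ⊔ Z := by rw [← q.gU, cj_sup, o.v]
  have l1 : cj g V' ≤ B ⊔ (𝛀 2 R ⊔ V') := le_sup_right.trans (e1.le.trans q.lZ)
  obtain ⟨R1, s, le, m⟩ := ex_inv q.e1.pi ((q.e1.abel.cent le_rfl l1).trans (nV b1 (v.act g)))
  have om : 𝛀 2 R1 = cj g V' := w.uniq b1 ⟨R1, s, rfl⟩ (v.act g) s.pi (Om_le _ _) ((le_inf l1 (v.act g).le).trans le)
  have n1 : ¬ Fu (cj g X') X := fun f => n (by
    obtain ⟨v, hv, v1⟩ := exV h.a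
    obtain ⟨y, hy, r⟩ := h.pt (h.gv o hv v1).1 (h.gv o hv v1).2
    have := h.ti.mv h.b.x h.b.y ((elV h.a).pi.elt hv) v1 (VX h.a hv) (g := y * g⁻¹) (h.b.v.le (by simpa [mul_assoc] using r))
    have f' := f.act (y * g⁻¹)
    rwa [this, cj_cj, inv_mul_cancel_right, cj_of_norm (rX hy)] at f')
  have nL : cj g X' ≠ L := fun e => ne (by simpa using e.trans o.pt.symm)
  have f : Vf P (cj g X') X R1 (𝛀 2 R) := ⟨w, b1, h.a.x, fun e => n1 (e ▸ ⟨_, s, norm_of_le s.le⟩), s, h.a.vg, q.lV.trans m⟩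
  obtain ⟨y, cy, ny, k⟩ := q.y2 f n1 (om ▸ le_sup_right.trans e1.le) (e1 ▸ le_cent_sup (cent_symm fun d hd => by
    by_cases d1 : d = 1
    · rw [d1]; exact one_mem _
    exact w.cf b1 h.b.y nL (o.pt ▸ Fu.act ⟨R, h.a.r, rX⟩ g) s (ab_iv (elA h.b) hd d1) (h.b.v.le hd) (m (mem_sup_left hd))) (om ▸ rc f))
    (h.ti.bot b1 h.b.y nL ((elV f).pi.le inf_le_left) (inf_le_left.trans (VX f)) (inf_le_right.trans h.b.v.le))
  obtain ⟨y, cy, ny, k, cr⟩ := q.y3 cy ny k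
  exact q.fin cy ny k cr l (o'.pt ▸ h.a.r.cj g') (by rw [← o'.v, ← cj_cent]; exact cj_mono _ (rc h.a))
    ((cj_le_of_mem o'.c q'.rZ).trans (cent_anti zz))

end CF.Te
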