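/-
Tightly embedded subgroups: the centre of the group of a special triple.
-/
import Cfsg.Agent.Te.NP
set_option autoImplicit false
set_option linter.unusedSectionVars false

namespace CF.Te
open Subgroup Cfsg CF.BG CF.Sig CF.GW CF.Ab2 CF.CT

universe u
variable {G : Type u} [Group G] [Finite G]
variable {A B J L P R X : Subgroup G} {d t v x : G}

namespace Tri
variable (h : Tri P J L X A B R)
include h
theorem vU : 𝛀 2 R ≤ (R ⊔ A ⊔ B) ⊓ 𝐂 B ⊓ 𝐂 A :=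
  le_inf (le_inf ((Om_le 2 R).trans (le_sup_left.trans le_sup_left)) (cent_symm h.b.cv)) (cent_symm h.a.cv)
theorem nRA : B ≤ 𝐍 (R ⊔ A) := le_norm_iff.2 fun d p y m => by
  obtain ⟨x, a, t, b, rfl⟩ := (mem_sup_norm' h.a.n).1 m
  rw [← conj_mul, ← mul_inv_cancel_left t (d * t * d⁻¹)]
  exact mul_mem (mem_sup_left (conj_mem_of_norm (h.b.n p) a)) (mul_mem (mem_sup_right b) (mem_sup_left (Om_le 2 R (h.cm t b d p))))
theorem bA (p : d ∈ B) (q : d ∈ 𝐂 A) : d = 1 :=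
  let ⟨a, ha, _, _, f⟩ := h.a.w.v4 h.a.y h.a.v; (h.ns a ha d p (mem_cent.1 q a ha)).resolve_left f.l.ne_one
theorem uu : (R ⊔ A ⊔ B) ⊓ 𝐂 B ⊓ 𝐂 A ≤ 𝛀 2 R := by
  by_contra n
  have w := h.a.w
  have eB := w.el h.b.y h.b.v
  have eU := h.el.le (inf_le_left (b := 𝐂 A))
  have zs' := sup_right_comm R A B ▸ h.zs
  obtain ⟨Z', g', o'⟩ := h.co eU h.vU h.zs
  obtain ⟨Z, g, o⟩ := h.symm.co eU h.vU (by simpa only [sup_right_comm R A B] using h.zs)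
  have vW : 𝛀 2 R ≤ (R ⊔ A) ⊓ 𝐂 B := le_inf ((Om_le 2 R).trans le_sup_left) (cent_symm h.b.cv)
  have wA : (R ⊔ A) ⊓ 𝐂 B ≤ (R ⊔ A ⊔ B) ⊓ 𝐂 B := inf_le_inf_right _ le_sup_left
  have zA := o.le.trans inf_le_left
  have bA : B ≤ (R ⊔ A ⊔ B) ⊓ 𝐂 B := le_inf le_sup_right eB.abel
  have wz : (R ⊔ A) ⊓ 𝐂 B ⊓ Z = ⊥ := eq_bot_mono o.dj fun y m => ⟨m.2, by
    obtain ⟨x, a, t, b, rfl⟩ := (mem_sup_norm' h.a.n).1 m.1.1
    rw [sup_comm]
    exact mul_mem_sup (h.symm.st.le ⟨a, (mul_mem_cancel_right ((w.el h.a.y h.a.v).abel b)).1 (o.le m.2).2⟩) b⟩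
  have uz := o.sup.trans (sup_le_sup_right vW Z)
  have az : (R ⊔ A ⊔ B) ⊓ 𝐂 B ≤ (R ⊔ A) ⊓ 𝐂 B ⊔ Z := h.dec.trans (sup_le (h.dec'.trans (sup_le le_sup_left uz)) uz)
  have ab : (R ⊔ A ⊔ B) ⊓ 𝐂 B = (R ⊔ A) ⊓ 𝐂 B ⊔ B := sup_inf_right eB.abel (.inr h.nRA)
  have nz := h.el.abel.cent zA wA
  have cZ : ♯Z ≤ ♯B := by
    have := (card_le ((sup_le wA zA).trans ab.le)).trans
      (Nat.le_of_dvd (mul_pos (card_pos' _) (card_pos' _)) (card_sup_dvd (.inl (norm_of_cent inf_le_right))))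
    rw [card_sup_of_inf_bot (.inr (norm_of_cent nz)) wz] at this
    exact Nat.le_of_mul_le_mul_left this (card_pos' _)
  obtain ⟨d₀, m₀, n₀⟩ := SetLike.not_le_iff_exists.1 (show ¬ B ≤ (R ⊔ A) ⊓ 𝐂 B from fun l => n (o.sup.trans (sup_le le_rfl
    (eq_bot_mono wz (le_inf (zA.trans (ab.le.trans (sup_le le_rfl l))) le_rfl) ▸ bot_le))))
  obtain ⟨d', m', i', n'⟩ := (w.v4 h.b.y h.b.v).third d₀
  have m := mul_mem m' m₀
  have d1 : d' * d₀ ≠ 1 := fun e => n' ((eq_inv_of_mul_eq_one_left e).trans (inv_eq_of_mul_eq_one_left (ab_sq eB m₀)))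
  obtain ⟨x, a, p⟩ := h.symm.ex_x m
  obtain ⟨x', a', p'⟩ := h.symm.ex_x m'
  have k0 : ∀ {x d}, d ∈ B → d ≠ 1 → x * d ∈ 𝐂 A → x ∉ 𝛀 2 R := fun m n p q =>
    n (h.bA m ((mul_mem_cancel_left (cent_symm h.a.cv q)).1 p))
  obtain ⟨k, ⟨⟨k1, k2⟩, k3⟩, e⟩ := h.symm.trx (by simpa only [sup_right_comm R A B] using h.zs) o a (k0 m d1 p) a' (k0 m' i'.ne_one p')
  have kW := h.nw k1 k2
  have kA : cj k B ≤ (R ⊔ A ⊔ B) ⊓ 𝐂 B :=
    (cj_le_of_norm (norm_sup inf_le_left inf_le_right (mem_inf.2 ⟨kW, cent_le_norm Z k3⟩)) (bA.trans az)).trans (sup_le wA zA)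
  have me := conj_mem_cj (g := k).2 m
  have uA : d' * (k * (d' * d₀) * k⁻¹) ∈ 𝐂 A := by
    have : x * (d' * d₀) ∈ 𝐂 (A ⊔ 𝛀 2 R) := cent_sup A _ ▸ ⟨p, (h.der (mul_mem_sup (mem_sup_left a) m) (one_mem _)).2.2⟩
    have := mul_mem (inv_mem (cent_symm h.a.cv e))
      (mul_mem (inv_mem p') (cent_anti le_sup_left (conj_mem_of_norm (norm_le_norm_cent _ k2) this)))
    rwa [show (x' * d')⁻¹ * (k * (x * (d' * d₀)) * k⁻¹) = d'⁻¹ * (x'⁻¹ * (k * x * k⁻¹)) * (k * (d' * d₀) * k⁻¹) by group,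
      ← mem_cent.1 (h.b.cv (inv_mem m')) _ e, mul_assoc _ d'⁻¹, inv_mul_cancel_left, i'.inv_eq] at this
  have uV : d' * (k * (d' * d₀) * k⁻¹) ∉ 𝛀 2 R := fun q => n₀ (by
    obtain ⟨y, b, z, c, r⟩ := (mem_sup_norm' (norm_of_cent nz)).1 (az (bA m))
    have b' := conj_mem_of_norm kW b
    have := mul_mem (mul_mem (vW q) (inv_mem b')) b
    rwa [← r, ← conj_mul, ← mem_cent.1 k3 z c, mul_inv_cancel_right, mem_cent.1 (nz c) _ b', ← mul_assoc d', mul_inv_cancel_right,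
      mul_assoc, ← mem_cent.1 (nz c) _ b, r, ← mul_assoc, i'.sq, one_mul] at this)
  obtain ⟨k', -, -, g2, g3, g4⟩ := h.gl eU h.vU h.zs o' (conj_cj_right.2 h.b.y) (cj_mono k h.b.v.le me) (h.dec (kA me))
    fun q => i'.ne_one (h.bA m' (((𝐂 A).mul_mem_cancel_right q.2).1 uA))
  have vV := (h.b.v.act k).act k'
  have lV := g3 _ (h.b.v.act k) (kA.trans h.dec)
  have cX := conj_cj_right (g := k').2 (conj_cj_right (g := k).2 h.b.y)
  have ne := g4 fun q => by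
    obtain ⟨b, r, s, u, e⟩ := (mem_sup_norm (norm_of_cent h.b.cv)).1 (mul_mem (mem_sup_left m') q)
    exact uV (by rw [← e, h.bA r ((mul_mem_cancel_right (cent_symm h.a.cv u)).1 (e ▸ uA)), one_mul]; exact u)
  refine h.np cX ne vV (lV.trans h.zs) (eq_of_card_le (sup_le h.vU lV) ?_).ge
    (g2 fun f => h.nb (fu_cj.1 (by rwa [cj_of_norm (w.ti.nor h.a.x h.a.r.pi (w.ti.syl_ne h.a.x h.a.r) h.a.r.le k1)])))
  rw [card_sup_of_inf_bot (.inl (norm_of_cent (eU.abel.cent h.vU lV))) (w.ti.bot h.a.x cX ne.symm (eU.le h.vU).pi.inf_left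
    (inf_le_left.trans h.a.vg.le) (inf_le_right.trans vV.le)), card_cj, card_cj]
  exact (card_le o.sup).trans ((Nat.le_of_dvd (mul_pos (card_pos' _) (card_pos' _))
    (card_sup_dvd (.inl (norm_of_cent (eU.abel.cent h.vU o.le))))).trans (Nat.mul_le_mul_left _ cZ))
end Tri
end CF.Te
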