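/-
Tightly embedded subgroups: chambers in world F.
-/
import Cfsg.Agent.Te.FG
import Cfsg.Agent.Te.CH
set_option autoImplicit false
set_option linter.unusedSectionVars false

namespace CF.Te
open Subgroup Cfsg CF.BG CF.Sig CF.GW CF.Ab2 CF.CT
open scoped commutatorElement

universe u
variable {G : Type u} [Group G] [Finite G]
variable {P S S' X Y : Subgroup G} {u : G} {Φ : Set (Subgroup G)}

theorem Fx_norm (m : X ∈ Φ) : Fx Φ ≤ 𝐍 X := fun _ h => mem_Fx.1 h X m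

namespace WF
variable (h : WF P)
include h

theorem ch : Ch P ⊤ (Conj P) :=
  ⟨h.ti, id, fun o _ => conj_cj_right.2 o, fun a b ne id ie hd he p _ => h.dc a b ne id ie hd he p⟩

theorem sfx (a : Syl 2 S ⊤) : Syl 2 (S ⊓ Fx (Sg (Conj P) S)) (Fx (Sg (Conj P) S)) :=
  (a.of_le (h.ch.sb le_top) le_top).inf_normal ⟨Fx_le, norm_Fx⟩

theorem syl (a : Syl 2 S ⊤) (m : X ∈ Sg (Conj P) S) : Syl 2 (S ⊓ X) X ∧ S ⊓ X ≤ Fx (Sg (Conj P) S) := by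
  obtain ⟨R, r, -, n⟩ := ex_inv (S := S ⊓ Fx (Sg (Conj P) S)) a.pi.inf_left (inf_le_right.trans (Fx_norm m))
  have l : R ≤ X ⊓ Fx (Sg (Conj P) S) := le_inf r.le fun x hx => mem_Fx.2 fun Y k => by
    by_cases e : X = Y
    · exact e ▸ le_norm_self X (r.le hx)
    obtain ⟨o, z, hz, i, zY⟩ := id k
    have zF := h.ch.fx le_top a.pi o i hz zY
    exact h.ti.cen o i.piElt i.ne_one zY (mem_cent1.2 (cz_cent (a.pi.inf_left.sup r.pi (.inl n)) (mem_sup_left ⟨hz, zF⟩)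
      (mem_sup_right hx) (r.le hx) (h.cb m.1 o e zY (Fx_norm m zF) i.piElt)).symm)
  have s := (h.sfx a).inf_normal (normalIn_inf_right (H := X) (Fx_norm m))
  have s' := r.of_card_le (s.le.trans inf_le_left) s.pi (s.card_le l r.pi)
  have e := s'.eq_of_le (K := S ⊓ X) (inf_le_inf inf_le_left inf_le_left) inf_le_right a.pi.inf_left
  exact ⟨e ▸ s', e.ge.trans (inf_le_left.trans inf_le_right)⟩

theorem cm (a : Syl 2 S ⊤) (m : X ∈ Sg (Conj P) S) (m' : Y ∈ Sg (Conj P) S) (ne : X ≠ Y) :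
    S ⊓ Y ≤ 𝐂 (S ⊓ X) ⊓ CZ 2 X := fun _ hy =>
  have c := h.cb m.1 m'.1 ne hy.2 (Fx_norm m ((h.syl a m').2 hy)) (a.pi.elt hy.1)
  ⟨fun _ hx => (cz_cent a.pi hy.1 hx.1 hx.2 c).symm, c⟩

theorem two [IsSimpleGroup G] (a : Syl 2 S ⊤) : ∃ X ∈ Sg (Conj P) S, ∃ Y ∈ Sg (Conj P) S, X ≠ Y := by
  obtain ⟨Y, b, k⟩ := h.ti.ad h.ne h.nse
  obtain ⟨R, T, f⟩ := h.ti.fr1 (.refl P) b k
  obtain ⟨g, -, l⟩ := a.syl_cj_le le_top f.pi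
  obtain ⟨t, ht, i⟩ := ex_iv' f.t.pi f.t1
  obtain ⟨r, hr, j⟩ := ex_iv' f.r.pi (h.ti.syl_ne f.x f.r)
  exact ⟨cj g P, ⟨conj_cj P g, _, l (conj_mem_cj.2 (mem_sup_right hr)), j.conj g, conj_mem_cj.2 (f.r.le hr)⟩, cj g Y,
    ⟨conj_cj_right.2 b, _, l (conj_mem_cj.2 (mem_sup_left ht)), i.conj g, conj_mem_cj.2 (f.ty ht)⟩, fun e => f.ne (cj_inj.1 e)⟩

theorem sb [IsSimpleGroup G] (a : Syl 2 S ⊤) (l : Φ ⊆ Sg (Conj P) S) (n : Φ.Nonempty) : Sb Φ ≠ ⊤ := fun e => by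
  obtain ⟨X, m⟩ := n
  obtain ⟨o, t, ht, i, k⟩ := l m
  have := (normalizer_eq_top_iff.1 (top_le_iff.1 (e.ge.trans (norm_Fx (Φ := Φ))))).eq_bot_or_eq_top.resolve_left
    (ne_bot_of_mem (mem_Fx.2 fun Y n => Fx_norm (l n) (h.ch.fx le_top a.pi o i ht k)) i.ne_one)
  obtain ⟨g, rfl⟩ := id o
  exact (h.ti.conj o).norm_ne (fun z => h.ne (cj_eq_top.1 z)) (top_le_iff.1 (this.ge.trans (Fx_norm m)))

theorem ww (a : Syl 2 S ⊤) : S ⊓ Ps (Sg (Conj P) S) = Ww (Sg (Conj P) S) S := by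
  have := syl_iSup (Φ := Sg (Conj P) S) (N := fun X => X ⊓ Fx (Sg (Conj P) S)) (h.sfx a) fun X m => normalIn_inf_right (Fx_norm m)
  refine Eq.trans (by rw [inf_assoc]; exact congrArg _ (inf_eq_right.2 Ps_le).symm) (this.trans (iSup_congr fun X => iSup_congr fun m => ?_))
  rw [← inf_inf_distrib_right, inf_eq_left.2 (h.syl a m).2]

theorem mv (a : Syl 2 S ⊤) (a' : Syl 2 S' ⊤) (hu : u ∈ S) (m : u ∈ Ps (Sg (Conj P) S'))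
    (f : u ∈ Fx (Sg (Conj P) S)) : u ∈ Ps (Sg (Conj P) S) := by
  have c : ∀ X : Subgroup G, ⊤ ⊓ 𝐂 (zpowers u) ⊓ X ≤ 𝐂₁ u := fun X => inf_le_left.trans (inf_le_right.trans (cent_zpowers u).le)
  obtain ⟨k, hk, e⟩ := h.ch.tr2 a a' (piGrp_zpowers.2 (a.pi.elt hu)) (zpowers_le.2 ⟨trivial, f⟩) (zpowers_le.2 (Ps_le m)) le_top
    (c _) (c _)
  rw [e, ← cj_Ps, ← conj_eq_of_comm (mem_cent1.1 hk)]
  exact conj_mem_cj.2 m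

theorem cw (a : Syl 2 S ⊤) (l : Φ ⊆ Sg (Conj P) S) (m : X ∈ Sg (Conj P) S) : Ww (Φ \ {X}) S ≤ 𝐂 (S ⊓ X) ⊓ CZ 2 X :=
  iSup₂_le fun _ k => h.cm a m (l k.1) fun e => k.2 e.symm

theorem dec (a : Syl 2 S ⊤) (l : Φ ⊆ Sg (Conj P) S) (m : X ∈ Sg (Conj P) S) (hu : u ∈ Ww Φ S) :
    ∃ b ∈ S ⊓ X, b⁻¹ * u ∈ Ww (Φ \ {X}) S ∧ b⁻¹ * u ∈ 𝐂 (S ⊓ X) ⊓ CZ 2 X := by
  have c := h.cw a l m
  obtain ⟨b, hb, w, hw, rfl⟩ := (mem_sup_norm (norm_of_cent' (c.trans inf_le_left))).1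
    ((iSup₂_le fun Y k => (em (Y = X)).elim (fun e => e ▸ le_sup_left) fun e => (le_Ww (Φ := Φ \ {X}) ⟨k, e⟩).trans le_sup_right :
      Ww Φ S ≤ S ⊓ X ⊔ Ww (Φ \ {X}) S) hu)
  exact ⟨b, hb, by rw [inv_mul_cancel_left]; exact ⟨hw, c hw⟩⟩

theorem cov (a : Syl 2 S ⊤) (m : X ∈ Sg (Conj P) S) : X ≤ 𝒪 X ⊔ X ⊓ Fx (Sg (Conj P) S) :=
  (cov_cz (a.pi.le Ww_le) ((h.cw a subset_rfl m).trans inf_le_right)).trans (sup_le_sup_left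
    (fun x hx => ⟨hx.1, mem_Fx.2 fun Y k => (em (Y = X)).elim (fun e => e ▸ le_norm_self X hx.1) fun e =>
      let ⟨o, _, hz, i, zY⟩ := id k
      h.ti.cen o i.piElt i.ne_one zY (cent_le_cent1 (le_Ww (Φ := Sg (Conj P) S \ {X}) ⟨k, e⟩ ⟨hz, zY⟩) hx.2)⟩) _)

end WF

end CF.Te
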